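import Mathlib
import Cfsg.Prelude.Def_Characters
import Cfsg.Agent.Lib.Helper2.CharDecomp
import Cfsg.Agent.Lib.Helper2.CharMore
import Cfsg.Agent.Lib.Helper2.CharPerm
import Cfsg.Agent.Lib.Helper2.SplitMain

/-!
The centralizer algebra of a complex representation of a finite group: the operators attached
to the irreducible characters are central, mutually orthogonal up to scalars, and span the
whole algebra when the character is multiplicity-free.  Conversely, a commutative centralizer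
algebra forces multiplicities at most one.
-/

set_option autoImplicit false

namespace Cfsg.Agent.Lib.Helper7.PermCent

open Cfsg Cfsg.Agent.Lib.Helper2 Module Representation
open scoped ComplexConjugate

section cent

variable {G : Type*} [Group G] {V : Type*} [AddCommGroup V] [Module ℂ V]

theorem rep_inv_comp (ρ : Representation ℂ G V) (g : G) : ρ g⁻¹ ∘ₗ ρ g = LinearMap.id := by
  show ρ g⁻¹ * ρ g = 1
  rw [← map_mul, inv_mul_cancel, map_one]

theorem rep_comp_inv (ρ : Representation ℂ G V) (g : G) : ρ g ∘ₗ ρ g⁻¹ = LinearMap.id := by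
  show ρ g * ρ g⁻¹ = 1
  rw [← map_mul, mul_inv_cancel, map_one]

/-- Membership in the centralizer algebra. -/
theorem mem_cent_iff (ρ : Representation ℂ G V) (S : V →ₗ[ℂ] V) :
    S ∈ (ρ.linHom ρ).invariants ↔ ∀ g : G, S ∘ₗ ρ g = ρ g ∘ₗ S := by
  rw [Representation.mem_invariants]
  constructor
  · intro h g
    have h1 := h g
    rw [Representation.linHom_apply] at h1
    conv_lhs => rw [← h1]
    rw [LinearMap.comp_assoc, LinearMap.comp_assoc, rep_inv_comp, LinearMap.comp_id]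
  · intro h g
    rw [Representation.linHom_apply, ← LinearMap.comp_assoc, ← h g, LinearMap.comp_assoc,
      rep_comp_inv, LinearMap.comp_id]

variable [Fintype G]

/-- An injective equivariant map has an equivariant retraction. -/
theorem exists_equivariant_retraction {W : Type*} [AddCommGroup W] [Module ℂ W]
    (τ : Representation ℂ G W) (ρ : Representation ℂ G V) (f : W →ₗ[ℂ] V)
    (hf : ∀ g, f ∘ₗ τ g = ρ g ∘ₗ f) (hinj : Function.Injective f) :
    ∃ p : V →ₗ[ℂ] W, p ∘ₗ f = LinearMap.id ∧ ∀ g, p ∘ₗ ρ g = τ g ∘ₗ p := by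
  obtain ⟨p₀, hp₀⟩ := LinearMap.exists_leftInverse_of_injective f (LinearMap.ker_eq_bot.mpr hinj)
  have hG : (Nat.card G : ℂ) ≠ 0 := card_ne_zero_complex G
  have hfa : ∀ (g : G) (w : W), ρ g (f w) = f (τ g w) := by
    intro g w
    exact (LinearMap.congr_fun (hf g) w).symm
  have hp₀a : ∀ w : W, p₀ (f w) = w := fun w => LinearMap.congr_fun hp₀ w
  have hτ : ∀ (g : G) (w : W), τ g⁻¹ (τ g w) = w := by
    intro g w
    rw [← Module.End.mul_apply, ← map_mul, inv_mul_cancel, map_one, Module.End.one_apply]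
  refine ⟨(Nat.card G : ℂ)⁻¹ • ∑ g : G, τ g⁻¹ ∘ₗ p₀ ∘ₗ ρ g, ?_, ?_⟩
  · apply LinearMap.ext
    intro w
    rw [LinearMap.comp_apply, LinearMap.smul_apply, LinearMap.sum_apply, LinearMap.id_apply]
    have h1 : ∀ g : G, (τ g⁻¹ ∘ₗ p₀ ∘ₗ ρ g) (f w) = w := by
      intro g
      rw [LinearMap.comp_apply, LinearMap.comp_apply, hfa, hp₀a, hτ]
    simp only [h1]
    rw [Finset.sum_const, Finset.card_univ, ← Nat.card_eq_fintype_card,
      ← Nat.cast_smul_eq_nsmul ℂ, smul_smul, inv_mul_cancel₀ hG, one_smul]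
  · intro h
    apply LinearMap.ext
    intro v
    rw [LinearMap.comp_apply, LinearMap.comp_apply, LinearMap.smul_apply, LinearMap.smul_apply,
      LinearMap.sum_apply, LinearMap.sum_apply, map_smul, map_sum]
    congr 1
    refine Fintype.sum_equiv (Equiv.mulRight h) (fun g => (τ g⁻¹ ∘ₗ p₀ ∘ₗ ρ g) (ρ h v))
      (fun g => τ h ((τ g⁻¹ ∘ₗ p₀ ∘ₗ ρ g) v)) ?_
    intro g
    show (τ g⁻¹ ∘ₗ p₀ ∘ₗ ρ g) (ρ h v) = τ h ((τ (g * h)⁻¹ ∘ₗ p₀ ∘ₗ ρ (g * h)) v)
    rw [LinearMap.comp_apply, LinearMap.comp_apply, LinearMap.comp_apply, LinearMap.comp_apply,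
      ← Module.End.mul_apply (ρ g), ← map_mul, ← Module.End.mul_apply (τ h), ← map_mul]
    congr 2
    group

end cent

section comm

variable {G : Type*} [Group G] [Fintype G] {V : Type*} [AddCommGroup V] [Module ℂ V]
  [FiniteDimensional ℂ V] {W : Type*} [AddCommGroup W] [Module ℂ W] [FiniteDimensional ℂ W]

/-- If the centralizer algebra of `ρ` is commutative, every irreducible representation occurs
in `ρ` with multiplicity at most one. -/
theorem finrank_intertwining_le_one (τ : Representation ℂ G W) [τ.IsIrreducible]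
    (ρ : Representation ℂ G V)
    (hcomm : ∀ S T : V →ₗ[ℂ] V, S ∈ (ρ.linHom ρ).invariants → T ∈ (ρ.linHom ρ).invariants →
      S ∘ₗ T = T ∘ₗ S) :
    finrank ℂ (IntertwiningMap τ ρ) ≤ 1 := by
  by_cases h0 : ∀ f : IntertwiningMap τ ρ, f = 0
  · have : Subsingleton (IntertwiningMap τ ρ) := ⟨fun a b => by rw [h0 a, h0 b]⟩
    rw [finrank_zero_of_subsingleton]
    exact Nat.zero_le 1
  push Not at h0
  obtain ⟨f₁, hf₁⟩ := h0
  apply finrank_le_one f₁
  intro f₂
  have hinj : Function.Injective f₁ :=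
    (IsIrreducible.injective_or_eq_zero f₁).resolve_right hf₁
  obtain ⟨p, hp1, hp2⟩ := exists_equivariant_retraction τ ρ f₁.toLinearMap
    f₁.isIntertwining' hinj
  have hT : f₁.toLinearMap ∘ₗ p ∈ (ρ.linHom ρ).invariants := by
    rw [mem_cent_iff]
    intro g
    rw [LinearMap.comp_assoc, hp2 g, ← LinearMap.comp_assoc, f₁.isIntertwining' g,
      LinearMap.comp_assoc]
  have hS : f₂.toLinearMap ∘ₗ p ∈ (ρ.linHom ρ).invariants := by
    rw [mem_cent_iff]
    intro g
    rw [LinearMap.comp_assoc, hp2 g, ← LinearMap.comp_assoc, f₂.isIntertwining' g,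
      LinearMap.comp_assoc]
  have hc := hcomm _ _ hS hT
  have hschur : ∀ g, (p ∘ₗ f₂.toLinearMap) ∘ₗ τ g = τ g ∘ₗ (p ∘ₗ f₂.toLinearMap) := by
    intro g
    rw [LinearMap.comp_assoc, f₂.isIntertwining' g, ← LinearMap.comp_assoc, hp2 g,
      LinearMap.comp_assoc]
  obtain ⟨c, hcs⟩ := schur_scalar τ (p ∘ₗ f₂.toLinearMap) hschur
  refine ⟨c, ?_⟩
  apply IntertwiningMap.ext
  rw [IntertwiningMap.toLinearMap_smul]
  have h1 : (f₂.toLinearMap ∘ₗ p) ∘ₗ (f₁.toLinearMap ∘ₗ p) ∘ₗ f₁.toLinearMap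
      = (f₁.toLinearMap ∘ₗ p) ∘ₗ (f₂.toLinearMap ∘ₗ p) ∘ₗ f₁.toLinearMap := by
    rw [← LinearMap.comp_assoc, hc, LinearMap.comp_assoc]
  have h2 : (f₂.toLinearMap ∘ₗ p) ∘ₗ (f₁.toLinearMap ∘ₗ p) ∘ₗ f₁.toLinearMap
      = f₂.toLinearMap := by
    rw [LinearMap.comp_assoc f₁.toLinearMap p, hp1, LinearMap.comp_id, LinearMap.comp_assoc, hp1,
      LinearMap.comp_id]
  have h3 : (f₁.toLinearMap ∘ₗ p) ∘ₗ (f₂.toLinearMap ∘ₗ p) ∘ₗ f₁.toLinearMap
      = c • f₁.toLinearMap := by
    rw [LinearMap.comp_assoc f₁.toLinearMap p f₂.toLinearMap, hp1, LinearMap.comp_id,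
      LinearMap.comp_assoc, hcs, LinearMap.comp_smul, LinearMap.comp_id]
  rw [← h3, ← h1, h2]

end comm

section classop

variable {G : Type*} [Group G] [Fintype G] {V : Type*} [AddCommGroup V] [Module ℂ V]

/-- Products of the operators `∑ r(g) ρ(g)`. -/
theorem classOp_mul (ρ : Representation ℂ G V) (r r' : G → ℂ) :
    classOp ρ r * classOp ρ r' = classOp ρ (fun k => ∑ g : G, r g * r' (g⁻¹ * k)) := by
  unfold classOp
  rw [Finset.sum_mul]
  have h1 : ∀ g : G, r g • ρ g * ∑ h : G, r' h • ρ h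
      = ∑ k : G, (r g * r' (g⁻¹ * k)) • ρ k := by
    intro g
    rw [Finset.mul_sum]
    refine Fintype.sum_equiv (Equiv.mulLeft g) (fun h => r g • ρ g * r' h • ρ h)
      (fun k => (r g * r' (g⁻¹ * k)) • ρ k) ?_
    intro h
    show r g • ρ g * r' h • ρ h = (r g * r' (g⁻¹ * (g * h))) • ρ (g * h)
    rw [inv_mul_cancel_left, smul_mul_smul_comm, map_mul]
  simp only [h1]
  rw [Finset.sum_comm]
  apply Finset.sum_congr rfl
  intro k _
  rw [Finset.sum_smul]

/-- The operator attached to a class function `χ`: `∑ χ(g⁻¹) ρ(g)`. -/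
noncomputable def eOp (ρ : Representation ℂ G V) (χ : G → ℂ) : V →ₗ[ℂ] V :=
  classOp ρ (fun g => χ g⁻¹)

theorem eOp_mem (ρ : Representation ℂ G V) {χ : G → ℂ} (hχ : IsClassFunction G χ) :
    eOp ρ χ ∈ (ρ.linHom ρ).invariants := by
  rw [mem_cent_iff]
  intro g
  apply classOp_comm
  intro x h
  show χ (h * x * h⁻¹)⁻¹ = χ x⁻¹
  have e : (h * x * h⁻¹)⁻¹ = h * x⁻¹ * h⁻¹ := by group
  rw [e, hχ]

theorem eOp_central (ρ : Representation ℂ G V) (χ : G → ℂ) (T : V →ₗ[ℂ] V)
    (hT : T ∈ (ρ.linHom ρ).invariants) : T * eOp ρ χ = eOp ρ χ * T := by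
  rw [mem_cent_iff] at hT
  unfold eOp classOp
  rw [Finset.mul_sum, Finset.sum_mul]
  apply Finset.sum_congr rfl
  intro g _
  rw [mul_smul_comm, smul_mul_assoc]
  congr 1
  exact hT g

theorem eOp_mul (ρ : Representation ℂ G V) {χ ψ : G → ℂ} (hχ : IsIrrCharacter G χ)
    (hψ : IsIrrCharacter G ψ) :
    eOp ρ χ * eOp ρ ψ = ((Nat.card G : ℂ) / χ 1 * classInner ψ χ) • eOp ρ χ := by
  unfold eOp
  rw [classOp_mul]
  have hψc := isClassFunction_of_isIrrCharacter hψ
  have h1 : (fun k => ∑ g : G, χ g⁻¹ * ψ (g⁻¹ * k)⁻¹)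
      = fun k => ((Nat.card G : ℂ) / χ 1 * classInner ψ χ) * χ k⁻¹ := by
    funext k
    rw [← gen_orth_irr hχ hψ k⁻¹]
    apply Finset.sum_congr rfl
    intro g _
    congr 1
    have e : (g⁻¹ * k)⁻¹ = k⁻¹ * (g * k⁻¹) * k⁻¹⁻¹ := by group
    rw [e, hψc]
  rw [h1]
  unfold classOp
  rw [Finset.smul_sum]
  apply Finset.sum_congr rfl
  intro g _
  rw [smul_smul]

theorem trace_eOp [FiniteDimensional ℂ V] (ρ : Representation ℂ G V) {χ : G → ℂ}
    (hχ : IsCharacter G χ) :
    LinearMap.trace ℂ V (eOp ρ χ) = (Nat.card G : ℂ) * classInner ρ.character χ := by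
  unfold eOp
  rw [trace_classOp, classInner_def, ← mul_assoc, mul_inv_cancel₀ (card_ne_zero_complex G),
    one_mul]
  apply Finset.sum_congr rfl
  intro g _
  rw [irr_inv_eq_conj hχ g, mul_comm]

/-- In the multiplicity-free case the operators attached to the irreducible characters span
the centralizer algebra. -/
theorem cent_span [FiniteDimensional ℂ V] [Fintype (IrrCharacter G)] (ρ : Representation ℂ G V)
    (hmf : ∀ χ : G → ℂ, IsIrrCharacter G χ →
      classInner ρ.character χ = 0 ∨ classInner ρ.character χ = 1)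
    (S : V →ₗ[ℂ] V) (hS : S ∈ (ρ.linHom ρ).invariants) :
    ∃ a : IrrCharacter G → ℂ, S = ∑ χ : IrrCharacter G, a χ • eOp ρ (χ : G → ℂ) := by
  classical
  have hG : (Nat.card G : ℂ) ≠ 0 := card_ne_zero_complex G
  have hπ : IsCharacter G ρ.character := isCharacter_of_rep ρ
  obtain ⟨I, hI⟩ : ∃ I : Finset (IrrCharacter G),
      I = Finset.univ.filter (fun χ : IrrCharacter G => classInner ρ.character (χ : G → ℂ) = 1) :=
    ⟨_, rfl⟩
  have hmemI : ∀ χ : IrrCharacter G, χ ∈ I ↔ classInner ρ.character (χ : G → ℂ) = 1 := by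
    intro χ
    rw [hI, Finset.mem_filter]
    simp
  have hfin : finrank ℂ ↥(ρ.linHom ρ).invariants = I.card := by
    rw [(invariantsEquivIntertwiningMap ρ ρ).finrank_eq]
    have h1 := classInner_char_nat ρ ρ
    rw [classInner_eq_sum _ _ (isClassFunction_of_isCharacter hπ)] at h1
    have h2 : ∑ ψ : IrrCharacter G, classInner ρ.character (ψ : G → ℂ)
        * conj (classInner ρ.character (ψ : G → ℂ))
        = ∑ ψ : IrrCharacter G, if ψ ∈ I then (1 : ℂ) else 0 := by
      apply Finset.sum_congr rfl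
      intro ψ _
      rcases hmf ψ ψ.2 with h | h
      · rw [h, if_neg (fun hh => by rw [(hmemI ψ).mp hh] at h; exact one_ne_zero h), zero_mul]
      · rw [h, if_pos ((hmemI ψ).mpr h), map_one, one_mul]
    rw [h2, Finset.sum_boole, Finset.filter_mem_eq_inter, Finset.univ_inter] at h1
    exact_mod_cast h1.symm
  have hne : ∀ χ : IrrCharacter G, χ ∈ I → eOp ρ (χ : G → ℂ) ≠ 0 := by
    intro χ hχ h0
    have h1 := trace_eOp ρ (isCharacter_of_isIrrCharacter χ.2)
    rw [h0, map_zero, (hmemI χ).mp hχ, mul_one] at h1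
    exact hG h1.symm
  have hli : LinearIndependent ℂ (fun χ : I =>
      (⟨eOp ρ ((χ : IrrCharacter G) : G → ℂ),
        eOp_mem ρ (isClassFunction_of_isIrrCharacter (χ : IrrCharacter G).2)⟩ :
        ↥(ρ.linHom ρ).invariants)) := by
    rw [linearIndependent_iff']
    intro s c hsum i hi
    have h1 := congrArg Subtype.val hsum
    rw [Submodule.coe_sum] at h1
    simp only [Submodule.coe_smul, Submodule.coe_zero] at h1
    have h2 : (∑ j ∈ s, c j • eOp ρ ((j : IrrCharacter G) : G → ℂ))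
        * eOp ρ ((i : IrrCharacter G) : G → ℂ) = 0 := by
      rw [h1, zero_mul]
    rw [Finset.sum_mul, Finset.sum_eq_single i] at h2
    · rw [smul_mul_assoc, eOp_mul ρ (i : IrrCharacter G).2 (i : IrrCharacter G).2,
        classInner_irr_self (i : IrrCharacter G).2, mul_one, smul_smul] at h2
      obtain ⟨n, hn0, hn⟩ := irr_apply_one (i : IrrCharacter G).2
      have hn' : ((i : IrrCharacter G) : G → ℂ) 1 ≠ 0 := by
        rw [hn]
        exact_mod_cast hn0.ne'
      rcases smul_eq_zero.mp h2 with h | h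
      · rcases mul_eq_zero.mp h with h' | h'
        · exact h'
        · exact absurd h' (div_ne_zero hG hn')
      · exact absurd h (hne i i.2)
    · intro j _ hji
      have hji' : ((i : IrrCharacter G) : G → ℂ) ≠ ((j : IrrCharacter G) : G → ℂ) := by
        intro h
        apply hji
        apply Subtype.ext
        apply Subtype.ext
        exact h.symm
      rw [smul_mul_assoc, eOp_mul ρ (j : IrrCharacter G).2 (i : IrrCharacter G).2,
        classInner_irr_ne (i : IrrCharacter G).2 (j : IrrCharacter G).2 hji', mul_zero,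
        zero_smul, smul_zero]
    · intro hi'
      exact absurd hi hi'
  have hspan := hli.span_eq_top_of_card_eq_finrank' (by rw [Fintype.card_coe, hfin])
  have hmem : (⟨S, hS⟩ : ↥(ρ.linHom ρ).invariants) ∈ Submodule.span ℂ (Set.range (fun χ : I =>
      (⟨eOp ρ ((χ : IrrCharacter G) : G → ℂ),
        eOp_mem ρ (isClassFunction_of_isIrrCharacter (χ : IrrCharacter G).2)⟩ :
        ↥(ρ.linHom ρ).invariants))) := by
    rw [hspan]
    exact Submodule.mem_top
  obtain ⟨c, hc⟩ := (Submodule.mem_span_range_iff_exists_fun ℂ).mp hmem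
  refine ⟨fun χ => if h : χ ∈ I then c ⟨χ, h⟩ else 0, ?_⟩
  have h1 := congrArg Subtype.val hc
  rw [Submodule.coe_sum] at h1
  simp only [Submodule.coe_smul] at h1
  rw [← h1]
  rw [← Finset.sum_subset (Finset.subset_univ I)
    (fun χ _ hχ => by simp only [dif_neg hχ, zero_smul])]
  rw [← Finset.sum_coe_sort I]
  apply Finset.sum_congr rfl
  intro χ _
  simp only [dif_pos χ.2]

/-- A multiplicity-free representation has a commutative centralizer algebra. -/
theorem cent_comm [FiniteDimensional ℂ V] (ρ : Representation ℂ G V)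
    (hmf : ∀ χ : G → ℂ, IsIrrCharacter G χ →
      classInner ρ.character χ = 0 ∨ classInner ρ.character χ = 1)
    (S T : V →ₗ[ℂ] V) (hS : S ∈ (ρ.linHom ρ).invariants) (hT : T ∈ (ρ.linHom ρ).invariants) :
    S ∘ₗ T = T ∘ₗ S := by
  have := Fintype.ofFinite (IrrCharacter G)
  obtain ⟨a, rfl⟩ := cent_span ρ hmf S hS
  show (∑ χ : IrrCharacter G, a χ • eOp ρ (χ : G → ℂ)) * T
    = T * ∑ χ : IrrCharacter G, a χ • eOp ρ (χ : G → ℂ)
  rw [Finset.sum_mul, Finset.mul_sum]
  apply Finset.sum_congr rfl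
  intro χ _
  rw [smul_mul_assoc, mul_smul_comm, eOp_central ρ _ T hT]

end classop

end Cfsg.Agent.Lib.Helper7.PermCent
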