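import Mathlib
import Cfsg.Prelude
import Cfsg.Agent.Lib.Helper15.QdFree
import Cfsg.Agent.Lib.Helper17.S4Rec

set_option autoImplicit false

/-!
Sections with a nontrivial normal `p`-subgroup in groups where normalizers of nontrivial
`p`-subgroups have a normal Sylow `p`-subgroup; application to `Qd(p)`.
-/

namespace Cfsg.Agent.Lib.Helper7.QdSec

open Cfsg

section Abs

/-- `X` normalizes a `p`-subgroup `P` containing all `p`-elements of `X` -/
def NS (p : ℕ) {G : Type*} [Group G] (X : Subgroup G) : Prop :=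
  ∃ P : Subgroup G, IsPGroup p P ∧ X ≤ Subgroup.normalizer (P : Set G) ∧
    ∀ x ∈ X, (∃ k : ℕ, x ^ (p ^ k) = 1) → x ∈ P

theorem lift_pelem {p : ℕ} [hp : Fact p.Prime] {G : Type*} [Group G] [Finite G] {Q : Type*}
    [Group Q] (f : G →* Q) (x : G) (k : ℕ) (h : f x ^ (p ^ k) = 1) :
    ∃ x' : G, x' ∈ Subgroup.zpowers x ∧ f x' = f x ∧ ∃ j : ℕ, x' ^ (p ^ j) = 1 := by
  by_cases hk : p ^ k = 1
  · refine ⟨1, Subgroup.one_mem _, ?_, 0, one_pow _⟩
    rw [hk, pow_one] at h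
    rw [map_one, h]
  have hk1 : 1 < p ^ k := by
    have := Nat.pos_of_ne_zero (pow_ne_zero k hp.out.ne_zero)
    omega
  have hn : orderOf x ≠ 0 := (orderOf_pos x).ne'
  obtain ⟨a, m, hm, hnm⟩ := Nat.exists_eq_pow_mul_and_not_dvd hn p hp.out.ne_one
  have hcop : Nat.Coprime m (p ^ k) := by
    apply Nat.Coprime.pow_right
    exact ((Nat.Prime.coprime_iff_not_dvd hp.out).2 hm).symm
  obtain ⟨s, -, hs⟩ := Nat.exists_mul_mod_eq_one_of_coprime hcop hk1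
  refine ⟨x ^ (m * s), Subgroup.npow_mem_zpowers x _, ?_, a, ?_⟩
  · rw [map_pow]
    have e : m * s = p ^ k * (m * s / p ^ k) + 1 := by
      have := Nat.div_add_mod (m * s) (p ^ k)
      omega
    rw [e, pow_succ, pow_mul, h, one_pow, one_mul]
  · rw [← pow_mul]
    have e : m * s * p ^ a = orderOf x * s := by rw [hnm]; ring
    rw [e, pow_mul, pow_orderOf_eq_one, one_pow]

theorem ns_of_section {p : ℕ} [hp : Fact p.Prime] {G : Type*} [Group G] [Finite G]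
    {Q : Type*} [Group Q]
    (hN : ∀ T : Subgroup G, IsPGroup p T → T ≠ ⊥ → NS p (Subgroup.normalizer (T : Set G)))
    (K : Subgroup G) (f : ↥K →* Q) (hf : Function.Surjective f)
    (E : Subgroup Q) [hEn : E.Normal] (hE : IsPGroup p E) (hE1 : E ≠ ⊥) :
    ∃ P : Subgroup Q, P.Normal ∧ IsPGroup p P ∧
      ∀ x : Q, (∃ k : ℕ, x ^ (p ^ k) = 1) → x ∈ P := by
  classical
  have hQfin : Finite Q := Finite.of_surjective f hf
  have hE'n : (E.comap f).Normal := hEn.comap f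
  obtain ⟨S⟩ : Nonempty (Sylow p (E.comap f)) := inferInstance
  obtain ⟨T', hT'⟩ : ∃ T' : Subgroup K, T' = (S : Subgroup (E.comap f)).map (E.comap f).subtype := ⟨_, rfl⟩
  have hfrat : Subgroup.normalizer (T' : Set K) ⊔ (E.comap f) = ⊤ := by
    rw [hT']; exact Sylow.normalizer_sup_eq_top S
  have hT'p : IsPGroup p T' := by rw [hT']; exact S.2.map _
  have hsurj : ∀ e ∈ (E.comap f), ∃ t ∈ T', f t = f e := by
    intro e he
    have hfE : ∀ y : (E.comap f), (f.comp (E.comap f).subtype) y ∈ E := fun y => y.2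
    obtain ⟨f', hf'def⟩ : ∃ f' : (E.comap f) →* E, f' = (f.comp (E.comap f).subtype).codRestrict E hfE := ⟨_, rfl⟩
    have hf'v : ∀ y : (E.comap f), ((f' y : E) : Q) = f (y : K) := by
      intro y; rw [hf'def]; rfl
    have hf' : Function.Surjective f' := by
      rintro ⟨y, hy⟩
      obtain ⟨x, rfl⟩ := hf y
      refine ⟨⟨x, hy⟩, ?_⟩
      apply Subtype.ext
      rw [hf'v]
    have hST : ((S.mapSurjective hf' : Sylow p E) : Subgroup E) = ⊤ :=
      ((S.mapSurjective hf').is_maximal' (hE.to_subgroup ⊤) le_top).symm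
    have hmem : f' ⟨e, he⟩ ∈ ((S.mapSurjective hf' : Sylow p E) : Subgroup E) := by
      rw [hST]; trivial
    rw [Sylow.coe_mapSurjective] at hmem
    obtain ⟨t, ht, hte⟩ := hmem
    refine ⟨t, hT' ▸ Subgroup.mem_map_of_mem _ ht, ?_⟩
    have := congrArg Subtype.val hte
    rw [hf'v, hf'v] at this
    exact this
  obtain ⟨T, hT⟩ : ∃ T : Subgroup G, T = T'.map K.subtype := ⟨_, rfl⟩
  have hTp : IsPGroup p T := by rw [hT]; exact hT'p.map _
  have hT1 : T ≠ ⊥ := by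
    intro h0
    have hT'0 : T' = ⊥ := by
      rw [hT] at h0
      exact (Subgroup.map_eq_bot_iff_of_injective T' K.subtype_injective).1 h0
    apply hE1
    rw [eq_bot_iff]
    intro y hy
    obtain ⟨x, rfl⟩ := hf y
    obtain ⟨t, ht, hte⟩ := hsurj x hy
    rw [hT'0, Subgroup.mem_bot] at ht
    rw [Subgroup.mem_bot, ← hte, ht, map_one]
  obtain ⟨P₀, hP₀p, hP₀n, hP₀e⟩ := hN T hTp hT1
  obtain ⟨M, hM⟩ : ∃ M : Subgroup K, M = Subgroup.normalizer (T' : Set K) := ⟨_, rfl⟩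
  have hMT : ∀ m ∈ M, (m : G) ∈ Subgroup.normalizer (T : Set G) := by
    intro m hm
    rw [hT]
    exact Subgroup.le_normalizer_map K.subtype (Subgroup.mem_map_of_mem _ (hM ▸ hm))
  have hfM : ∀ y : Q, ∃ m ∈ M, f m = y := by
    intro y
    obtain ⟨x, rfl⟩ := hf y
    have hx : x ∈ Subgroup.normalizer (T' : Set K) ⊔ (E.comap f) := by rw [hfrat]; trivial
    obtain ⟨n, hn, e, he, rfl⟩ := Subgroup.mem_sup_of_normal_right.1 hx
    obtain ⟨t, ht, hte⟩ := hsurj e he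
    refine ⟨n * t, ?_, ?_⟩
    · rw [hM]; exact Subgroup.mul_mem _ hn (Subgroup.le_normalizer ht)
    · rw [map_mul, map_mul, hte]
  obtain ⟨P₁, hP₁⟩ : ∃ P₁ : Subgroup K, P₁ = P₀.subgroupOf K ⊓ M := ⟨_, rfl⟩
  refine ⟨P₁.map f, ?_, ?_, ?_⟩
  · constructor
    rintro _ ⟨x, hx, rfl⟩ y
    obtain ⟨m, hm, rfl⟩ := hfM y
    rw [← map_mul, ← map_inv, ← map_mul]
    apply Subgroup.mem_map_of_mem
    rw [hP₁] at hx ⊢
    obtain ⟨hx1, hx2⟩ := Subgroup.mem_inf.1 hx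
    refine Subgroup.mem_inf.2 ⟨?_, ?_⟩
    · rw [Subgroup.mem_subgroupOf]
      have h1 := hP₀n (hMT m hm)
      rw [Subgroup.mem_normalizer_iff] at h1
      exact (h1 _).1 (Subgroup.mem_subgroupOf.1 hx1)
    · exact M.mul_mem (M.mul_mem hm hx2) (M.inv_mem hm)
  · rintro ⟨_, x, hx, rfl⟩
    rw [hP₁] at hx
    obtain ⟨hx1, hx2⟩ := Subgroup.mem_inf.1 hx
    obtain ⟨k, hk⟩ := hP₀p ⟨(x : G), Subgroup.mem_subgroupOf.1 hx1⟩
    refine ⟨k, ?_⟩
    apply Subtype.ext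
    rw [Subgroup.coe_pow, Subgroup.coe_one]
    have h2 : (x : G) ^ (p ^ k) = 1 := by
      have := congrArg Subtype.val hk
      simpa using this
    have h3 : x ^ (p ^ k) = 1 := by
      apply Subtype.ext
      rw [Subgroup.coe_pow, Subgroup.coe_one]; exact h2
    rw [← map_pow, h3, map_one]
  · rintro y ⟨k, hk⟩
    obtain ⟨m, hm, rfl⟩ := hfM y
    obtain ⟨x', hx'z, hx'f, j, hx'j⟩ := lift_pelem f m k hk
    have hx'M : x' ∈ M := (Subgroup.zpowers_le.2 hm) hx'z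
    rw [← hx'f]
    apply Subgroup.mem_map_of_mem
    rw [hP₁]
    refine Subgroup.mem_inf.2 ⟨?_, hx'M⟩
    rw [Subgroup.mem_subgroupOf]
    apply hP₀e _ (hMT x' hx'M)
    refine ⟨j, ?_⟩
    rw [← Subgroup.coe_pow, hx'j, Subgroup.coe_one]

end Abs

section Qd

variable {p : ℕ}

theorem mem_qd (M : Matrix.SpecialLinearGroup (Fin 3) (ZMod p)) :
    M ∈ Cfsg.qd p ↔ (M.1 2 0 = 0 ∧ M.1 2 1 = 0 ∧ M.1 2 2 = 1) := by
  constructor
  · intro h
    unfold Cfsg.qd at h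
    refine Subgroup.closure_induction
      (p := fun M _ => M.1 2 0 = 0 ∧ M.1 2 1 = 0 ∧ M.1 2 2 = 1) ?_ ?_ ?_ ?_ h
    · intro x hx; exact hx
    · simp
    · intro x y _ _ hx hy
      obtain ⟨a1, a2, a3⟩ := hx
      obtain ⟨b1, b2, b3⟩ := hy
      simp [Matrix.mul_apply, Fin.sum_univ_three, a1, a2, a3, b1, b2, b3]
    · intro x _ hx
      obtain ⟨a1, a2, a3⟩ := hx
      have h1 : x.1 * (x⁻¹).1 = 1 := by
        rw [← Matrix.SpecialLinearGroup.coe_mul, mul_inv_cancel]; rfl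
      have e : ∀ j, (x⁻¹).1 2 j = (1 : Matrix (Fin 3) (Fin 3) (ZMod p)) 2 j := by
        intro j
        rw [← h1, Matrix.mul_apply, Fin.sum_univ_three, a1, a2, a3]; ring
      exact ⟨by rw [e]; simp, by rw [e]; simp, by rw [e]; simp⟩
  · intro h
    exact Subgroup.subset_closure h

/-- the linear part of an element of `Qd(p)` -/
def blk (p : ℕ) : ↥(Cfsg.qd p) →* Matrix (Fin 2) (Fin 2) (ZMod p) where
  toFun M := Matrix.of ![![M.1.1 0 0, M.1.1 0 1], ![M.1.1 1 0, M.1.1 1 1]]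
  map_one' := by
    ext i j; fin_cases i <;> fin_cases j <;> simp
  map_mul' A B := by
    obtain ⟨b1, b2, b3⟩ := (mem_qd B.1).1 B.2
    ext i j
    fin_cases i <;> fin_cases j <;>
      simp [Matrix.mul_apply, Fin.sum_univ_three, Fin.sum_univ_two, b1, b2]

theorem ker_le_heis (x : ↥(Cfsg.qd p)) (hx : x ∈ (blk p).ker) :
    x.1 ∈ Cfsg.Agent.Lib.Helper15.heis (ZMod p) := by
  obtain ⟨b1, b2, b3⟩ := (mem_qd x.1).1 x.2
  rw [MonoidHom.mem_ker] at hx
  have h00 := congrFun (congrFun hx 0) 0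
  have h10 := congrFun (congrFun hx 1) 0
  have h11 := congrFun (congrFun hx 1) 1
  simp [blk] at h00 h10 h11
  exact ⟨h10, b1, b2, h00, h11, b3⟩

theorem ker_isPGroup [Fact p.Prime] : IsPGroup p (blk p).ker := by
  rintro ⟨x, hx⟩
  obtain ⟨k, hk⟩ := Cfsg.Agent.Lib.Helper15.heis_isPGroup p ⟨x.1, ker_le_heis x hx⟩
  refine ⟨k, ?_⟩
  apply Subtype.ext
  apply Subtype.ext
  have := congrArg Subtype.val hk
  simpa using this

def uM (p : ℕ) : Matrix (Fin 3) (Fin 3) (ZMod p) := !![1, 1, 0; 0, 1, 0; 0, 0, 1]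
def wM (p : ℕ) : Matrix (Fin 3) (Fin 3) (ZMod p) := !![0, 1, 0; -1, 0, 0; 0, 0, 1]
def wiM (p : ℕ) : Matrix (Fin 3) (Fin 3) (ZMod p) := !![0, -1, 0; 1, 0, 0; 0, 0, 1]
def tM (p : ℕ) : Matrix (Fin 3) (Fin 3) (ZMod p) := !![1, 0, 1; 0, 1, 0; 0, 0, 1]

def uQ (p : ℕ) : ↥(Cfsg.qd p) :=
  ⟨⟨uM p, by simp [uM, Matrix.det_fin_three]⟩, (mem_qd _).2 ⟨by simp [uM], by simp [uM], by simp [uM]⟩⟩
def wQ (p : ℕ) : ↥(Cfsg.qd p) :=
  ⟨⟨wM p, by simp [wM, Matrix.det_fin_three]⟩, (mem_qd _).2 ⟨by simp [wM], by simp [wM], by simp [wM]⟩⟩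
def wiQ (p : ℕ) : ↥(Cfsg.qd p) :=
  ⟨⟨wiM p, by simp [wiM, Matrix.det_fin_three]⟩,
    (mem_qd _).2 ⟨by simp [wiM], by simp [wiM], by simp [wiM]⟩⟩
def tQ (p : ℕ) : ↥(Cfsg.qd p) :=
  ⟨⟨tM p, by simp [tM, Matrix.det_fin_three]⟩, (mem_qd _).2 ⟨by simp [tM], by simp [tM], by simp [tM]⟩⟩

theorem w_mul_wi : wQ p * wiQ p = 1 := by
  apply Subtype.ext
  apply Subtype.ext
  show wM p * wiM p = 1
  ext i j
  fin_cases i <;> fin_cases j <;> simp [wM, wiM, Matrix.mul_apply, Fin.sum_univ_three]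

theorem key_identity : uQ p * (wQ p * uQ p * wiQ p) * uQ p = wQ p := by
  apply Subtype.ext
  apply Subtype.ext
  show uM p * (wM p * uM p * wiM p) * uM p = wM p
  ext i j
  fin_cases i <;> fin_cases j <;> simp [uM, wM, wiM, Matrix.mul_apply, Fin.sum_univ_three]

theorem w_pow_four : wQ p ^ 4 = 1 := by
  apply Subtype.ext
  apply Subtype.ext
  show wM p ^ 4 = 1
  have e : wM p ^ 4 = wM p * wM p * (wM p * wM p) := by
    rw [pow_succ, pow_succ, pow_succ, pow_one]; simp only [mul_assoc]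
  rw [e]
  ext i j
  fin_cases i <;> fin_cases j <;> simp [wM, Matrix.mul_apply, Fin.sum_univ_three]

theorem qd_not_ns [hp : Fact p.Prime] (hp2 : p ≠ 2) :
    ¬ ∃ P : Subgroup ↥(Cfsg.qd p), P.Normal ∧ IsPGroup p P ∧
      ∀ x : ↥(Cfsg.qd p), (∃ k : ℕ, x ^ (p ^ k) = 1) → x ∈ P := by
  rintro ⟨P, hPn, hPp, hPe⟩
  have hu : uQ p ∈ P := by
    apply hPe
    have hh : (uQ p).1 ∈ Cfsg.Agent.Lib.Helper15.heis (ZMod p) := by
      refine ⟨?_, ?_, ?_, ?_, ?_, ?_⟩ <;> simp [uQ, uM]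
    obtain ⟨k, hk⟩ := Cfsg.Agent.Lib.Helper15.heis_isPGroup p ⟨(uQ p).1, hh⟩
    refine ⟨k, ?_⟩
    apply Subtype.ext
    have := congrArg Subtype.val hk
    simpa using this
  have hwi : wiQ p = (wQ p)⁻¹ := eq_inv_of_mul_eq_one_right w_mul_wi
  have hw : wQ p ∈ P := by
    rw [← key_identity (p := p)]
    refine P.mul_mem (P.mul_mem hu ?_) hu
    rw [hwi]
    exact hPn.conj_mem _ hu _
  obtain ⟨k, hk⟩ := hPp ⟨wQ p, hw⟩
  have hk' : (wQ p) ^ (p ^ k) = 1 := by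
    have := congrArg Subtype.val hk
    simpa using this
  have hord : orderOf (wQ p) ∣ Nat.gcd 4 (p ^ k) :=
    Nat.dvd_gcd (orderOf_dvd_of_pow_eq_one w_pow_four) (orderOf_dvd_of_pow_eq_one hk')
  have hg : Nat.gcd 4 (p ^ k) = 1 := by
    have h2p : Nat.Coprime 2 p := by
      rw [Nat.coprime_primes Nat.prime_two hp.out]; exact fun h => hp2 h.symm
    have : Nat.Coprime (2 ^ 2) (p ^ k) := Nat.Coprime.pow 2 k h2p
    exact this
  rw [hg, Nat.dvd_one, orderOf_eq_one_iff] at hord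
  have h00 := congrArg (fun M : ↥(Cfsg.qd p) => M.1.1 0 0) hord
  simp [wQ, wM] at h00

theorem qd_normal_p [hp : Fact p.Prime] :
    ∃ E : Subgroup ↥(Cfsg.qd p), E.Normal ∧ IsPGroup p E ∧ E ≠ ⊥ := by
  refine ⟨(blk p).ker, inferInstance, ker_isPGroup, ?_⟩
  intro h
  have ht : tQ p ∈ (blk p).ker := by
    rw [MonoidHom.mem_ker]
    ext i j
    fin_cases i <;> fin_cases j <;> simp [blk, tQ, tM]
  rw [h, Subgroup.mem_bot] at ht
  have h02 := congrArg (fun M : ↥(Cfsg.qd p) => M.1.1 0 2) ht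
  simp [tQ, tM] at h02

theorem not_involves_qd_of [hp : Fact p.Prime] (hp2 : p ≠ 2) {G : Type*} [Group G] [Finite G]
    (hN : ∀ T : Subgroup G, IsPGroup p T → T ≠ ⊥ → NS p (Subgroup.normalizer (T : Set G))) :
    ¬ Cfsg.Involves ↥(Cfsg.qd p) G := by
  intro hinv
  obtain ⟨K, f, hf⟩ := Cfsg.Agent.Lib.Helper17.exists_hom_of_involves hinv
  obtain ⟨E, hEn, hEp, hE1⟩ := qd_normal_p (p := p)
  exact qd_not_ns hp2 (ns_of_section hN K f hf E hEp hE1)

end Qd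

end Cfsg.Agent.Lib.Helper7.QdSec
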