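import Mathlib
import Cfsg.Agent.Lib.Helper7.SU3Unip
import Cfsg.Agent.Lib.Helper7.SU3Aut

set_option autoImplicit false
set_option linter.unusedVariables false
open Cfsg

namespace Cfsg.Agent.Lib.Helper7.SU3Aut2

open Cfsg.Agent.Lib.Helper7.SU3Unip Cfsg.Agent.Lib.Helper7.SU3Aut

section fld

variable {F : Type*} [Field F] (φ : F →+* F) (hφ2 : ∀ a : F, φ (φ a) = a)
  (hφne : φ ≠ RingHom.id F) (h2 : (2 : F) = 0)

include hφ2 hφne h2 in
/-- An additive map of order three preserving the norm form of the field with 16 elements is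
trivial. -/
theorem o3_trivial (hφ4 : ∀ a, φ a = a ^ 4) (A : F → F)
    (hA_add : ∀ x y, A (x + y) = A x + A y) (hA_inj : ∀ x, A x = 0 → x = 0)
    (hN : ∀ a, Nm φ (A a) = Nm φ a) (hA3 : ∀ a, A (A (A a)) = a) (a : F) : A a = a := by
  have hbt : ∀ x y, bt φ (A x) (A y) = bt φ x y :=
    bt_A φ hφ2 h2 A (fun b => b) hA_add (fun _ _ _ _ => rfl) hN
  obtain ⟨l, hl⟩ : ∃ l, l = A 1 := ⟨_, rfl⟩
  have hNl : l * φ l = 1 := by
    have h := hN 1
    rw [← hl, Nm, Nm, map_one, mul_one] at h
    exact h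
  have key : ∀ x, A x = l * x ∨ A x = l * φ x := by
    intro x
    have hT := hbt x 1
    rw [← hl, bt, bt, map_one] at hT
    have hNx := hN x
    rw [Nm, Nm] at hNx
    have h5 : (A x - l * x) * (A x - l * φ x) = 0 := by
      linear_combination (l * A x) * hT - l ^ 2 * hNx - (A x) ^ 2 * hNl
    rcases mul_eq_zero.mp h5 with h | h
    · exact Or.inl (sub_eq_zero.mp h)
    · exact Or.inr (sub_eq_zero.mp h)
  have hl0 : l ≠ 0 := by
    rintro rfl
    rw [zero_mul] at hNl
    exact zero_ne_one hNl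
  by_cases hall : ∀ x, A x = l * x
  · have h3 : l ^ 3 = 1 := by
      have h := hA3 1
      rw [hall 1, mul_one, hall l, hall (l * l)] at h
      rw [← h]
      ring
    have h5 : l ^ 5 = 1 := by
      rw [hφ4] at hNl
      rw [← hNl]
      ring
    have h6 : l ^ 6 = 1 := by
      have e : l ^ 6 = (l ^ 3) ^ 2 := by ring
      rw [e, h3, one_pow]
    have h1 : l = 1 := by
      have e : l ^ 6 = l ^ 5 * l := by ring
      rw [h6, h5, one_mul] at e
      exact e.symm
    rw [hall a, h1, one_mul]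
  · exfalso
    push Not at hall
    obtain ⟨x₁, hx₁⟩ := hall
    have hx₁' : A x₁ = l * φ x₁ := by
      rcases key x₁ with h | h
      · exact absurd h hx₁
      · exact h
    have hall2 : ∀ x, A x = l * φ x := by
      intro x₂
      by_contra hx₂
      have hx₂' : A x₂ = l * x₂ := by
        rcases key x₂ with h | h
        · exact h
        · exact absurd h hx₂
      rcases key (x₁ + x₂) with h | h
      · rw [hA_add, hx₁', hx₂'] at h
        apply hx₁
        rw [hx₁']
        linear_combination h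
      · rw [hA_add, hx₁', hx₂', map_add] at h
        apply hx₂
        rw [hx₂']
        linear_combination h
    have h := hA3 1
    rw [hall2 1, map_one, mul_one, hall2 l, hNl, hall2 1, map_one, mul_one] at h
    apply hφne
    apply RingHom.ext
    intro x
    have hx := hA3 x
    rw [hall2 x, h, one_mul, hall2 (φ x), h, one_mul, hφ2, hall2 x, h, one_mul] at hx
    exact hx

end fld

section grp

variable {F : Type*} [Field F] [Fintype F] (φ : F →+* F)
  (hφ2 : ∀ a : F, φ (φ a) = a) (hφne : φ ≠ RingHom.id F) (h2 : (2 : F) = 0)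
  {P : Type*} [Group P] (e : P ≃* ↥(UG φ hφ2))

include hφne h2 e in
/-- Over the field with 16 elements: an automorphism of order three which is inverted by an
involutory automorphism is trivial. -/
theorem s3_trivial (hφ4 : ∀ a, φ a = a ^ 4) (ρ τ : P ≃* P)
    (hτ2 : ∀ x, τ (τ x) = x) (hρ3 : ∀ x, ρ (ρ (ρ x)) = x)
    (hinv : ∀ x, ρ (τ (ρ (τ x))) = x) (x : P) : ρ x = x := by
  have hcen : ∀ (α : P ≃* P) (z : P), (e z).1.a = 0 → (e (α z)).1.a = 0 := fun α z hz =>
    (center_iff φ hφ2 hφne e _).mp (center_map α z ((center_iff φ hφ2 hφne e z).mpr hz))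
  have hτZ : ∀ z : P, (e z).1.a = 0 → τ z = z :=
    aut_center_fix φ hφ2 hφne h2 e τ (fun x => by rw [hτ2]) (fun z _ => hτ2 z)
  have hρZ : ∀ z : P, (e z).1.a = 0 → ρ z = z := by
    intro z hz
    have h := hinv z
    rw [hτZ z hz, hτZ (ρ z) (hcen ρ z hz)] at h
    have h3 := hρ3 z
    rw [h] at h3
    exact h3
  obtain ⟨A, hA⟩ := exists_A φ hφ2 hφne e ρ
  have hA_add : ∀ x y, A (x + y) = A x + A y := by
    intro a a'
    obtain ⟨x, hx⟩ := c_mk_a φ hφ2 hφne e a
    obtain ⟨y, hy⟩ := c_mk_a φ hφ2 hφne e a'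
    have h := hA (x * y)
    rw [map_mul, cA_mul, cA_mul, hA, hA, hx, hy] at h
    exact h.symm
  have hA_inj : ∀ x, A x = 0 → x = 0 := by
    intro a ha
    obtain ⟨x, hx⟩ := c_mk_a φ hφ2 hφne e a
    have h3 : (e (ρ x)).1.a = 0 := by rw [hA, hx, ha]
    have h4 := center_map ρ.symm _ ((center_iff φ hφ2 hφne e _).mpr h3)
    rw [ρ.symm_apply_apply] at h4
    rw [← hx]
    exact (center_iff φ hφ2 hφne e x).mp h4
  have hN : ∀ a, Nm φ (A a) = Nm φ a := by
    intro a
    obtain ⟨x, hx⟩ := c_mk_a φ hφ2 hφne e a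
    have hxa : (e (x * x)).1.a = 0 := by
      rw [cA_mul, hx]
      linear_combination a * h2
    have hxb : ∀ y : P, (e (y * y)).1.b = Nm φ (e y).1.a := by
      intro y
      rw [cB_mul, Nm]
      linear_combination ((e y).1.b - (e y).1.a * φ (e y).1.a) * h2
    have h := congrArg (fun t => (e t).1.b) (hρZ (x * x) hxa)
    rw [map_mul, hxb, hxb, hA, hx] at h
    exact h
  have hA3 : ∀ a, A (A (A a)) = a := by
    intro a
    obtain ⟨x, hx⟩ := c_mk_a φ hφ2 hφne e a
    rw [← hx, ← hA, ← hA, ← hA, hρ3]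
  have hAid := o3_trivial φ hφ2 hφne h2 hφ4 A hA_add hA_inj hN hA3
  have hρ2 : ∀ y : P, ρ (ρ y) = y := by
    intro y
    obtain ⟨c, hcdef⟩ : ∃ c, c = y⁻¹ * ρ y := ⟨_, rfl⟩
    have hc : (e c).1.a = 0 := by
      rw [hcdef, cA_mul, cA_inv, hA, hAid, neg_add_cancel]
    have hcc : c * c = 1 := by
      apply c_ext φ hφ2 e
      · rw [cA_mul, hc, cA_one, add_zero]
      · rw [cB_mul, hc, cB_one, zero_mul, sub_zero]
        linear_combination (e c).1.b * h2
    have h5 : ρ y = y * c := by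
      rw [hcdef]
      group
    calc ρ (ρ y) = ρ (y * c) := by rw [h5]
      _ = ρ y * ρ c := map_mul ρ y c
      _ = (y * c) * c := by rw [h5, hρZ c hc]
      _ = y := by rw [mul_assoc, hcc, mul_one]
  have h := hρ3 x
  rw [hρ2 (ρ x)] at h
  exact h

end grp

end Cfsg.Agent.Lib.Helper7.SU3Aut2
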