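import Mathlib
import Cfsg.Agent.Lib.Helper7.SU3Aut

set_option autoImplicit false
set_option linter.unusedVariables false
open Cfsg

namespace Cfsg.Agent.Lib.Helper7.SU3Aut3

open Cfsg.Agent.Lib.Helper7.TICount (trace_surj card_fix)
open Cfsg.Agent.Lib.Helper7.SU3Unip
open Cfsg.Agent.Lib.Helper7.SU3Aut

section cls

variable {F : Type*} [Field F] [Fintype F] (φ : F →+* F) (hφ2 : ∀ a : F, φ (φ a) = a)
  (hφne : φ ≠ RingHom.id F) (h2 : (2 : F) = 0)
  (A B : F → F)
  (hA_add : ∀ x y, A (x + y) = A x + A y) (hA_inj : ∀ x, A x = 0 → x = 0)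
  (hB_add : ∀ x y, φ x = x → φ y = y → B (x + y) = B x + B y)
  (hB_fix : ∀ x, φ x = x → φ (B x) = B x)
  (hB_inj : ∀ x, φ x = x → B x = 0 → x = 0)
  (hN : ∀ a, Nm φ (A a) = B (Nm φ a))

include hφ2 hφne h2 hA_add hA_inj hB_add hB_fix hB_inj hN in
/-- An additive bijection compatible with the norm is a scalar times a field automorphism. -/
theorem classify : ∃ σ : F ≃+* F, ∀ a, A a = A 1 * σ a := by
  have hl : A 1 ≠ 0 := fun h => one_ne_zero (hA_inj 1 h)
  have hμ := mu_ne φ B hB_inj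
  have hN1 : Nm φ (A 1) = B 1 := by
    have h := hN 1
    rwa [show Nm φ (1 : F) = 1 by simp [Nm]] at h
  have hφl : φ (A 1) ≠ 0 := fun h => hl (phi_eq_zero φ hφ2 _ h)
  have TM := Th_mul φ hφ2 hφne h2 A B hA_add hA_inj hB_add hB_fix hB_inj hN
  have TA := Th_add φ B hB_add
  obtain ⟨s, hs⟩ : ∃ s : F → F, s = fun a => A a / A 1 := ⟨_, rfl⟩
  have sA : ∀ a, A a = A 1 * s a := by
    intro a
    rw [hs]
    field_simp
  have sAdd : ∀ x y, s (x + y) = s x + s y := by
    intro x y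
    rw [hs]
    simp only
    rw [hA_add]
    ring
  have sOne : s 1 = 1 := by
    rw [hs]
    exact div_self hl
  have sSemi : ∀ c, φ c = c → ∀ a, s (c * a) = Th B c * s a := by
    intro c hc a
    rw [hs]
    simp only
    rw [semi φ hφ2 hφne h2 A B hA_add hA_inj hB_add hB_fix hB_inj hN c hc a]
    ring
  have sFix : ∀ c, φ c = c → s c = Th B c := by
    intro c hc
    have h := sSemi c hc 1
    rwa [mul_one, sOne, mul_one] at h
  have sNm : ∀ a, Nm φ (s a) = Th B (Nm φ a) := by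
    intro a
    rw [hs]
    simp only
    rw [Th, ← hN, ← hN1, Nm, Nm, Nm, map_div₀]
    field_simp
  have sBt : ∀ a a', bt φ (s a) (s a') = Th B (bt φ a a') := by
    intro a a'
    have h1 := sNm (a + a')
    rw [sAdd, Nm_add, Nm_add, sNm, sNm,
      TA _ _ (by rw [map_add, Nm_fix φ hφ2, Nm_fix φ hφ2]) (bt_fix φ hφ2 a a'),
      TA _ _ (Nm_fix φ hφ2 a) (Nm_fix φ hφ2 a')] at h1
    linear_combination h1
  have hquad : ∀ x : F, x * x = bt φ x 1 * x + Nm φ x := by
    intro x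
    rw [bt, Nm, map_one]
    linear_combination (-(x * φ x)) * h2
  obtain ⟨ω, hω⟩ : ∃ ω, φ ω ≠ ω := by
    by_contra hcon
    push Not at hcon
    exact hφne (RingHom.ext hcon)
  have ht : ω + φ ω ≠ 0 := by
    intro h
    apply hω
    linear_combination h - ω * h2
  have htfix : φ (ω + φ ω) = ω + φ ω := by
    rw [map_add, hφ2, add_comm]
  have sSq : s (ω * ω) = s ω * s ω := by
    have q1 := hquad ω
    have q2 := hquad (s ω)
    have e1 : s (ω * ω) = Th B (bt φ ω 1) * s ω + Th B (Nm φ ω) := by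
      rw [q1, sAdd, sSemi _ (bt_fix φ hφ2 ω 1) ω, sFix _ (Nm_fix φ hφ2 ω)]
    have e2 : bt φ (s ω) 1 = Th B (bt φ ω 1) := by
      have h := sBt ω 1
      rwa [sOne] at h
    rw [e1, q2, e2, sNm]
  have decomp : ∀ a : F, ∃ x y, φ x = x ∧ φ y = y ∧ a = x + y * ω := by
    intro a
    have hy : φ ((a + φ a) / (ω + φ ω)) = (a + φ a) / (ω + φ ω) := by
      rw [map_div₀, htfix, map_add, hφ2, add_comm]
    have hyt : (a + φ a) / (ω + φ ω) * (ω + φ ω) = a + φ a := div_mul_cancel₀ _ ht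
    refine ⟨a + (a + φ a) / (ω + φ ω) * ω, (a + φ a) / (ω + φ ω), ?_, hy, ?_⟩
    · rw [map_add, map_mul, hy]
      linear_combination hyt + (φ a - (a + φ a) / (ω + φ ω) * ω) * h2
    · linear_combination (-((a + φ a) / (ω + φ ω) * ω)) * h2
  have sMul : ∀ a a', s (a * a') = s a * s a' := by
    intro a a'
    obtain ⟨x, y, hx, hy, rfl⟩ := decomp a
    obtain ⟨x', y', hx', hy', rfl⟩ := decomp a'
    have e1 : (x + y * ω) * (x' + y' * ω)
        = (x * x') * 1 + (x * y' + x' * y) * ω + (y * y') * (ω * ω) := by ring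
    have f1 : φ (x * x') = x * x' := by rw [map_mul, hx, hx']
    have f2 : φ (x * y' + x' * y) = x * y' + x' * y := by
      rw [map_add, map_mul, map_mul, hx, hx', hy, hy']
    have f3 : φ (y * y') = y * y' := by rw [map_mul, hy, hy']
    have f4 : φ (x * y') = x * y' := by rw [map_mul, hx, hy']
    have f5 : φ (x' * y) = x' * y := by rw [map_mul, hx', hy]
    rw [e1, sAdd, sAdd, sSemi _ f1 1, sSemi _ f2 ω, sSemi _ f3 (ω * ω), sSq, sOne,
      sAdd x, sAdd x', sSemi y hy ω, sSemi y' hy' ω, sFix x hx, sFix x' hx',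
      TM x x' hx hx', TA _ _ f4 f5, TM x y' hx hy', TM x' y hx' hy, TM y y' hy hy']
    ring
  have sZero : s 0 = 0 := by
    have h := sAdd 0 0
    rw [add_zero] at h
    linear_combination -h
  let σ : F →+* F :=
    { toFun := s
      map_one' := sOne
      map_mul' := sMul
      map_zero' := sZero
      map_add' := sAdd }
  have hinj : Function.Injective σ := σ.injective
  have hbij : Function.Bijective σ := ⟨hinj, Finite.injective_iff_surjective.mp hinj⟩
  exact ⟨RingEquiv.ofBijective σ hbij, fun a => sA a⟩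

end cls

section aut

variable {F : Type*} [Field F] [Fintype F] (φ : F →+* F)
  (hφ2 : ∀ a : F, φ (φ a) = a) (hφne : φ ≠ RingHom.id F) (h2 : (2 : F) = 0)
  {P : Type*} [Group P] (e : P ≃* ↥(UG φ hφ2)) (α : P ≃* P)

include hφne h2 in
/-- Every automorphism acts on the central quotient as a scalar times a field automorphism. -/
theorem exists_lin :
    ∃ (l : F) (σ : F ≃+* F), l ≠ 0 ∧ ∀ x : P, (e (α x)).1.a = l * σ ((e x).1.a) := by
  obtain ⟨A, hA⟩ := exists_A φ hφ2 hφne e α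
  obtain ⟨B, hB⟩ := exists_B φ hφ2 h2 e α
  have hcen : ∀ z : P, (e z).1.a = 0 → (e (α z)).1.a = 0 := fun z hz =>
    (center_iff φ hφ2 hφne e _).mp (center_map α z ((center_iff φ hφ2 hφne e z).mpr hz))
  have hA_add : ∀ x y, A (x + y) = A x + A y := by
    intro a a'
    obtain ⟨x, hx⟩ := c_mk_a φ hφ2 hφne e a
    obtain ⟨y, hy⟩ := c_mk_a φ hφ2 hφne e a'
    have h := hA (x * y)
    rw [map_mul, cA_mul, cA_mul, hA, hA, hx, hy] at h
    exact h.symm
  have hA_inj : ∀ x, A x = 0 → x = 0 := by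
    intro a ha
    obtain ⟨x, hx⟩ := c_mk_a φ hφ2 hφne e a
    have h3 : (e (α x)).1.a = 0 := by rw [hA, hx, ha]
    have h4 := center_map α.symm _ ((center_iff φ hφ2 hφne e _).mpr h3)
    rw [α.symm_apply_apply] at h4
    rw [← hx]
    exact (center_iff φ hφ2 hφne e x).mp h4
  have hB_add : ∀ x y, φ x = x → φ y = y → B (x + y) = B x + B y := by
    intro b b' hb hb'
    obtain ⟨z₁, hz₁a, hz₁b⟩ := exists_z φ hφ2 h2 e b hb
    obtain ⟨z₂, hz₂a, hz₂b⟩ := exists_z φ hφ2 h2 e b' hb'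
    have h12a : (e (z₁ * z₂)).1.a = 0 := by rw [cA_mul, hz₁a, hz₂a, add_zero]
    have h12b : (e (z₁ * z₂)).1.b = b + b' := by
      rw [cB_mul, hz₁a, hz₁b, hz₂b, zero_mul, sub_zero]
    have h := hB (z₁ * z₂) h12a
    rw [map_mul, cB_mul, hcen z₁ hz₁a, zero_mul, sub_zero, hB z₁ hz₁a, hB z₂ hz₂a, h12b, hz₁b,
      hz₂b] at h
    exact h.symm
  have hB_fix : ∀ x, φ x = x → φ (B x) = B x := by
    intro b hb
    obtain ⟨z₁, hz₁a, hz₁b⟩ := exists_z φ hφ2 h2 e b hb
    have h := fix_of_a0 φ hφ2 h2 e (α z₁) (hcen z₁ hz₁a)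
    rw [hB z₁ hz₁a, hz₁b] at h
    exact h
  have hB_inj : ∀ x, φ x = x → B x = 0 → x = 0 := by
    intro b hb hb0
    obtain ⟨z₁, hz₁a, hz₁b⟩ := exists_z φ hφ2 h2 e b hb
    have h3 : α z₁ = 1 := by
      apply c_ext φ hφ2 e
      · rw [hcen z₁ hz₁a, cA_one]
      · rw [hB z₁ hz₁a, hz₁b, hb0, cB_one]
    have h4 : z₁ = 1 := by
      have h5 := congrArg α.symm h3
      rwa [α.symm_apply_apply, map_one] at h5
    rw [← hz₁b, h4, cB_one]
  have hN : ∀ a, Nm φ (A a) = B (Nm φ a) := by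
    intro a
    obtain ⟨x, hx⟩ := c_mk_a φ hφ2 hφne e a
    have hxa : (e (x * x)).1.a = 0 := by
      rw [cA_mul, hx]
      linear_combination a * h2
    have hxb : ∀ y : P, (e (y * y)).1.b = Nm φ (e y).1.a := by
      intro y
      rw [cB_mul, Nm]
      linear_combination ((e y).1.b - (e y).1.a * φ (e y).1.a) * h2
    have h := hB (x * x) hxa
    rw [map_mul, hxb, hxb, hA, hx] at h
    exact h
  obtain ⟨σ, hσ⟩ := classify φ hφ2 hφne h2 A B hA_add hA_inj hB_add hB_fix hB_inj hN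
  exact ⟨A 1, σ, fun h => one_ne_zero (hA_inj 1 h), fun x => by rw [hA, hσ]⟩

omit [Fintype F] in
theorem lin_unique (l l' : F) (σ σ' : F ≃+* F) (hl : l ≠ 0)
    (h : ∀ a : F, l * σ a = l' * σ' a) : l = l' ∧ σ = σ' := by
  have h1 := h 1
  rw [map_one, map_one, mul_one, mul_one] at h1
  subst h1
  exact ⟨rfl, RingEquiv.ext fun a => mul_left_cancel₀ hl (h a)⟩

omit [Fintype F] in
theorem lift_mem (l : F) (σ : F ≃+* F) (hσ : ∀ a, σ (φ a) = φ (σ a)) (x : Heis φ)
    (hx : x ∈ UG φ hφ2) : (⟨l * σ x.a, l * φ l * σ x.b⟩ : Heis φ) ∈ UG φ hφ2 := by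
  rw [mem_UG] at hx ⊢
  have h3 := congrArg σ hx
  simp only [map_add, map_neg, map_mul, hσ] at h3
  simp only [map_mul, hφ2]
  linear_combination (l * φ l) * h3

/-- the semilinear automorphism -/
noncomputable def liftP (l : F) (hl : l ≠ 0) (σ : F ≃+* F) (hσ : ∀ a, σ (φ a) = φ (σ a)) :
    P ≃* P :=
  MulEquiv.ofBijective
    (MonoidHom.mk' (fun p => e.symm ⟨⟨l * σ (e p).1.a, l * φ l * σ (e p).1.b⟩,
        lift_mem φ hφ2 l σ hσ _ (e p).2⟩)
      (by
        intro p p'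
        have hA : ∀ X Y : ↥(UG φ hφ2), (X * Y).1.a = X.1.a + Y.1.a := fun _ _ => rfl
        have hB : ∀ X Y : ↥(UG φ hφ2), (X * Y).1.b = X.1.b + Y.1.b - X.1.a * φ Y.1.a :=
          fun _ _ => rfl
        apply c_ext φ hφ2 e
        · simp only [map_mul, e.apply_symm_apply, hA, map_add]
          ring
        · simp only [map_mul, e.apply_symm_apply, hA, hB, map_add, map_sub, hσ]
          ring))
    (by
      have : Finite P := Finite.of_equiv _ e.symm.toEquiv
      have hinj : Function.Injective (MonoidHom.mk' (fun p : P =>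
          e.symm ⟨⟨l * σ (e p).1.a, l * φ l * σ (e p).1.b⟩,
            lift_mem φ hφ2 l σ hσ _ (e p).2⟩) (by
        intro p p'
        have hA : ∀ X Y : ↥(UG φ hφ2), (X * Y).1.a = X.1.a + Y.1.a := fun _ _ => rfl
        have hB : ∀ X Y : ↥(UG φ hφ2), (X * Y).1.b = X.1.b + Y.1.b - X.1.a * φ Y.1.a :=
          fun _ _ => rfl
        apply c_ext φ hφ2 e
        · simp only [map_mul, e.apply_symm_apply, hA, map_add]
          ring
        · simp only [map_mul, e.apply_symm_apply, hA, hB, map_add, map_sub, hσ]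
          ring)) := by
        intro p p' h
        have h' := congrArg e h
        simp only [MonoidHom.mk'_apply, e.apply_symm_apply] at h'
        have ha := congrArg (fun z : ↥(UG φ hφ2) => z.1.a) h'
        have hb := congrArg (fun z : ↥(UG φ hφ2) => z.1.b) h'
        simp only at ha hb
        have hφl : φ l ≠ 0 := fun h0 => hl (by
          have := congrArg φ h0
          rwa [hφ2, map_zero] at this)
        apply c_ext φ hφ2 e
        · exact σ.injective (mul_left_cancel₀ hl ha)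
        · exact σ.injective (mul_left_cancel₀ (mul_ne_zero hl hφl) hb)
      exact ⟨hinj, Finite.injective_iff_surjective.mp hinj⟩)

theorem liftP_A (l : F) (hl : l ≠ 0) (σ : F ≃+* F) (hσ : ∀ a, σ (φ a) = φ (σ a)) (p : P) :
    (e (liftP φ hφ2 e l hl σ hσ p)).1.a = l * σ (e p).1.a := by
  change (e (e.symm _)).1.a = _
  rw [e.apply_symm_apply]

/-- automorphisms acting trivially modulo the centre -/
def KK : Subgroup (MulAut P) where
  carrier := {α | ∀ x : P, (e (α x)).1.a = (e x).1.a}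
  mul_mem' := by
    intro α β hα hβ x
    rw [MulAut.mul_apply]
    exact (hα _).trans (hβ x)
  one_mem' := fun x => rfl
  inv_mem' := by
    intro α hα x
    have h := hα (α⁻¹ x)
    rw [MulAut.apply_inv_self] at h
    exact h.symm

omit [Fintype F] in
theorem mem_KK (α : MulAut P) : α ∈ KK φ hφ2 e ↔ ∀ x : P, (e (α x)).1.a = (e x).1.a := Iff.rfl

omit [Fintype F] in
include hφne in
theorem KK_normal : (KK φ hφ2 e).Normal := by
  refine ⟨fun α hα β x => ?_⟩
  rw [MulAut.mul_apply, MulAut.mul_apply]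
  have h := cA_congr φ hφ2 hφne e β (α (β⁻¹ x)) (β⁻¹ x) (hα _)
  rw [h, MulAut.apply_inv_self]

include hφne h2 in
theorem KK_fixZ (α : MulAut P) (hα : α ∈ KK φ hφ2 e) (z : P) (hz : (e z).1.a = 0) : α z = z := by
  have hb := fix_of_a0 φ hφ2 h2 e z hz
  obtain ⟨d, hd, hd2⟩ := exists_sqrt φ h2 (e z).1.b hb
  obtain ⟨x, hx⟩ := c_mk_a φ hφ2 hφne e d
  have hxx : x * x = z := by
    apply c_ext φ hφ2 e
    · rw [cA_mul, hx, hz]
      linear_combination d * h2
    · rw [cB_mul, hx, hd, ← hd2]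
      linear_combination ((e x).1.b - d ^ 2) * h2
  have h1 : (e (α x)).1.a = d := by rw [hα x, hx]
  rw [← hxx, map_mul]
  apply c_ext φ hφ2 e
  · rw [cA_mul, cA_mul, h1, hx]
  · rw [cB_mul, cB_mul, h1, hx]
    linear_combination ((e (α x)).1.b - (e x).1.b) * h2

include hφne h2 in
theorem exists_zeta (α : MulAut P) (hα : α ∈ KK φ hφ2 e) :
    ∃ ζ : F → F, (∀ x y, ζ (x + y) = ζ x + ζ y) ∧ (∀ a, φ (ζ a) = ζ a) ∧
      ∀ x : P, (e (α x)).1.b = (e x).1.b + ζ ((e x).1.a) := by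
  classical
  have key : ∀ x y : P, (e x).1.a = (e y).1.a →
      (e (α x)).1.b - (e x).1.b = (e (α y)).1.b - (e y).1.b := by
    intro x y hxy
    have hz : (e (y⁻¹ * x)).1.a = 0 := by
      rw [cA_mul, cA_inv, hxy, neg_add_cancel]
    have hx : x = y * (y⁻¹ * x) := by group
    have hαz := KK_fixZ φ hφ2 hφne h2 e α hα _ hz
    have h1 : (e x).1.b = (e y).1.b + (e (y⁻¹ * x)).1.b := by
      conv_lhs => rw [hx]
      rw [cB_mul, hz, map_zero, mul_zero, sub_zero]
    have h2' : (e (α x)).1.b = (e (α y)).1.b + (e (y⁻¹ * x)).1.b := by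
      conv_lhs => rw [hx]
      rw [map_mul, hαz, cB_mul, hz, map_zero, mul_zero, sub_zero]
    rw [h1, h2']
    ring
  have hpt : ∀ a : F, ∃ p : P, (e p).1.a = a := c_mk_a φ hφ2 hφne e
  have hform : ∀ x : P, (e (α x)).1.b = (e x).1.b +
      ((e (α (Classical.choose (hpt (e x).1.a)))).1.b
        - (e (Classical.choose (hpt (e x).1.a))).1.b) := by
    intro x
    have h := key x (Classical.choose (hpt (e x).1.a))
      (Classical.choose_spec (hpt (e x).1.a)).symm
    linear_combination h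
  refine ⟨fun a => (e (α (Classical.choose (hpt a)))).1.b - (e (Classical.choose (hpt a))).1.b,
    ?_, ?_, hform⟩
  · intro a a'
    obtain ⟨x, hx⟩ := hpt a
    obtain ⟨y, hy⟩ := hpt a'
    have hxy : (e (x * y)).1.a = a + a' := by rw [cA_mul, hx, hy]
    have h1 := hform (x * y)
    have h3 := hform x
    have h4 := hform y
    rw [hxy] at h1
    rw [hx] at h3
    rw [hy] at h4
    rw [map_mul, cB_mul, cB_mul, hα x, hα y, h3, h4] at h1
    simp only
    linear_combination -h1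
  · intro a
    obtain ⟨x, hx⟩ := hpt a
    have h3 := hform x
    rw [hx] at h3
    have c1 := c_cond φ hφ2 e (α x)
    have c2 := c_cond φ hφ2 e x
    rw [hα x] at c1
    have h5 := congrArg φ h3
    rw [map_add] at h5
    simp only
    linear_combination (-1 : F) * h5 + (-1 : F) * h3 + c1 - c2
      - ((e (α (Classical.choose (hpt a)))).1.b - (e (Classical.choose (hpt a))).1.b) * h2

omit [Fintype F] in
include h2 in
theorem cent_mem (ζ : F → F) (hfix : ∀ a, φ (ζ a) = ζ a) (x : Heis φ) (hx : x ∈ UG φ hφ2) :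
    (⟨x.a, x.b + ζ x.a⟩ : Heis φ) ∈ UG φ hφ2 := by
  rw [mem_UG] at hx ⊢
  simp only [map_add, hfix]
  linear_combination hx + ζ x.a * h2

/-- the central automorphism attached to an additive map into the fixed field -/
noncomputable def centAut (ζ : F → F) (hadd : ∀ x y, ζ (x + y) = ζ x + ζ y)
    (hfix : ∀ a, φ (ζ a) = ζ a) : P ≃* P where
  toFun p := e.symm ⟨⟨(e p).1.a, (e p).1.b + ζ (e p).1.a⟩, cent_mem φ hφ2 h2 ζ hfix _ (e p).2⟩
  invFun p := e.symm ⟨⟨(e p).1.a, (e p).1.b + ζ (e p).1.a⟩, cent_mem φ hφ2 h2 ζ hfix _ (e p).2⟩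
  left_inv p := by
    apply c_ext φ hφ2 e
    · simp only [e.apply_symm_apply]
    · simp only [e.apply_symm_apply]
      linear_combination ζ (e p).1.a * h2
  right_inv p := by
    apply c_ext φ hφ2 e
    · simp only [e.apply_symm_apply]
    · simp only [e.apply_symm_apply]
      linear_combination ζ (e p).1.a * h2
  map_mul' p p' := by
    have hA : ∀ X Y : ↥(UG φ hφ2), (X * Y).1.a = X.1.a + Y.1.a := fun _ _ => rfl
    have hB : ∀ X Y : ↥(UG φ hφ2), (X * Y).1.b = X.1.b + Y.1.b - X.1.a * φ Y.1.a :=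
      fun _ _ => rfl
    apply c_ext φ hφ2 e
    · simp only [map_mul, e.apply_symm_apply, hA]
    · simp only [map_mul, e.apply_symm_apply, hA, hB, hadd]
      ring

omit [Fintype F] in
theorem centAut_A (ζ : F → F) (hadd : ∀ x y, ζ (x + y) = ζ x + ζ y)
    (hfix : ∀ a, φ (ζ a) = ζ a) (p : P) :
    (e (centAut φ hφ2 h2 e ζ hadd hfix p)).1.a = (e p).1.a := by
  change (e (e.symm _)).1.a = _
  rw [e.apply_symm_apply]

omit [Fintype F] in
theorem centAut_B (ζ : F → F) (hadd : ∀ x y, ζ (x + y) = ζ x + ζ y)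
    (hfix : ∀ a, φ (ζ a) = ζ a) (p : P) :
    (e (centAut φ hφ2 h2 e ζ hadd hfix p)).1.b = (e p).1.b + ζ (e p).1.a := by
  change (e (e.symm _)).1.b = _
  rw [e.apply_symm_apply]

include hφne h2 in
theorem card_KK_eq : Nat.card ↥(KK φ hφ2 e)
    = Nat.card {ζ : F → F // (∀ x y, ζ (x + y) = ζ x + ζ y) ∧ ∀ a, φ (ζ a) = ζ a} := by
  classical
  let f : ↥(KK φ hφ2 e) →
      {ζ : F → F // (∀ x y, ζ (x + y) = ζ x + ζ y) ∧ ∀ a, φ (ζ a) = ζ a} :=
    fun α => ⟨Classical.choose (exists_zeta φ hφ2 hφne h2 e α.1 α.2),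
      (Classical.choose_spec (exists_zeta φ hφ2 hφne h2 e α.1 α.2)).1,
      (Classical.choose_spec (exists_zeta φ hφ2 hφne h2 e α.1 α.2)).2.1⟩
  have hf : ∀ (α : ↥(KK φ hφ2 e)) (x : P),
      (e (α.1 x)).1.b = (e x).1.b + (f α).1 ((e x).1.a) :=
    fun α => (Classical.choose_spec (exists_zeta φ hφ2 hφne h2 e α.1 α.2)).2.2
  apply Nat.card_congr
  apply Equiv.ofBijective f
  constructor
  · intro α β h
    apply Subtype.ext
    apply MulEquiv.ext
    intro x
    apply c_ext φ hφ2 e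
    · rw [(mem_KK φ hφ2 e α.1).mp α.2 x, (mem_KK φ hφ2 e β.1).mp β.2 x]
    · rw [hf α x, hf β x, h]
  · rintro ⟨ζ, hadd, hfix⟩
    refine ⟨⟨centAut φ hφ2 h2 e ζ hadd hfix, fun x => centAut_A φ hφ2 h2 e ζ hadd hfix x⟩, ?_⟩
    apply Subtype.ext
    funext a
    obtain ⟨x, hx⟩ := c_mk_a φ hφ2 hφne e a
    have h1 := hf ⟨centAut φ hφ2 h2 e ζ hadd hfix,
      fun x => centAut_A φ hφ2 h2 e ζ hadd hfix x⟩ x
    rw [centAut_B, hx] at h1
    exact (add_left_cancel h1).symm

include hφ2 hφne h2 in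
theorem card_zeta {q : ℕ} (hF : Fintype.card F = q ^ 2) (m : ℕ) (hq : q = 2 ^ m) :
    Nat.card {ζ : F → F // (∀ x y, ζ (x + y) = ζ x + ζ y) ∧ ∀ a, φ (ζ a) = ζ a}
      = q ^ (2 * m) := by
  classical
  have : CharP F 2 := CharTwo.of_one_ne_zero_of_two_eq_zero one_ne_zero h2
  let _ : Algebra (ZMod 2) F := ZMod.algebra F 2
  let W : Submodule (ZMod 2) F :=
    { carrier := {x | φ x = x}
      add_mem' := fun {x y} hx hy => by
        simp only [Set.mem_ofPred_eq] at *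
        rw [map_add, hx, hy]
      zero_mem' := map_zero φ
      smul_mem' := fun c x hx => by
        simp only [Set.mem_ofPred_eq] at *
        rw [Algebra.smul_def, map_mul, hx]
        congr 1
        exact RingHom.congr_fun
          (Subsingleton.elim (φ.comp (algebraMap (ZMod 2) F)) (algebraMap (ZMod 2) F)) c }
  have cardW : Nat.card W = q := by
    rw [← card_fix φ hφ2 hφne hF]
    exact Nat.card_congr (Equiv.subtypeEquivRight (fun x => Iff.rfl))
  let b := Module.finBasis (ZMod 2) F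
  let e1 : {ζ : F → F // (∀ x y, ζ (x + y) = ζ x + ζ y) ∧ ∀ a, φ (ζ a) = ζ a}
      ≃ (F →ₗ[ZMod 2] W) :=
    { toFun := fun ζ => LinearMap.codRestrict W
        ((AddMonoidHom.mk' ζ.1 ζ.2.1).toZModLinearMap 2) (fun a => ζ.2.2 a)
      invFun := fun g => ⟨fun a => (g a : F), fun x y => by simp only [map_add, Submodule.coe_add],
        fun a => (g a).2⟩
      left_inv := fun ζ => by
        apply Subtype.ext
        rfl
      right_inv := fun g => by
        apply LinearMap.ext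
        intro a
        apply Subtype.ext
        rfl }
  have e2 : (Fin (Module.finrank (ZMod 2) F) → W) ≃ (F →ₗ[ZMod 2] W) :=
    (b.constr (ZMod 2)).toEquiv
  rw [Nat.card_congr e1, ← Nat.card_congr e2, Nat.card_fun, cardW, Nat.card_eq_fintype_card,
    Fintype.card_fin]
  congr 1
  have h3 := Module.card_eq_pow_finrank (K := ZMod 2) (V := F)
  rw [ZMod.card, hF, hq, ← pow_mul] at h3
  have h4 := Nat.pow_right_injective (le_refl 2) h3
  omega

include h2 in
theorem card_ringAut (m : ℕ) (hF : Fintype.card F = 2 ^ (2 * m)) :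
    Nat.card (F ≃+* F) = 2 * m := by
  classical
  have : CharP F 2 := CharTwo.of_one_ne_zero_of_two_eq_zero one_ne_zero h2
  let _ : Algebra (ZMod 2) F := ZMod.algebra F 2
  let e1 : (F ≃+* F) ≃ (F ≃ₐ[ZMod 2] F) :=
    { toFun := fun σ => AlgEquiv.ofRingEquiv (f := σ) (fun r =>
        RingHom.congr_fun (Subsingleton.elim ((σ : F →+* F).comp (algebraMap (ZMod 2) F))
          (algebraMap (ZMod 2) F)) r)
      invFun := fun τ => τ.toRingEquiv
      left_inv := fun σ => by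
        apply RingEquiv.ext
        intro a
        rfl
      right_inv := fun τ => by
        apply AlgEquiv.ext
        intro a
        rfl }
  rw [Nat.card_congr e1, IsGalois.card_aut_eq_finrank]
  have h3 := Module.card_eq_pow_finrank (K := ZMod 2) (V := F)
  rw [ZMod.card, hF] at h3
  exact (Nat.pow_right_injective (le_refl 2) h3).symm

end aut

section main

variable {F : Type*} [Field F] [Fintype F] (φ : F →+* F)
  (hφ2 : ∀ a : F, φ (φ a) = a) (hφne : φ ≠ RingHom.id F) (h2 : (2 : F) = 0)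
  {P : Type*} [Group P] (e : P ≃* ↥(UG φ hφ2))

include hφne h2 in
theorem KK_sq (α : MulAut P) (hα : α ∈ KK φ hφ2 e) : α ^ 2 = 1 := by
  obtain ⟨ζ, -, -, hζ⟩ := exists_zeta φ hφ2 hφne h2 e α hα
  apply MulEquiv.ext
  intro x
  rw [pow_two, MulAut.mul_apply, MulAut.one_apply]
  apply c_ext φ hφ2 e
  · rw [hα (α x), hα x]
  · rw [hζ (α x), hζ x, hα x]
    linear_combination ζ (e x).1.a * h2

include hφne h2 in
theorem KK_comm (α β : MulAut P) (hα : α ∈ KK φ hφ2 e) (hβ : β ∈ KK φ hφ2 e) :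
    α * β = β * α := by
  obtain ⟨ζ, -, -, hζ⟩ := exists_zeta φ hφ2 hφne h2 e α hα
  obtain ⟨ξ, -, -, hξ⟩ := exists_zeta φ hφ2 hφne h2 e β hβ
  apply MulEquiv.ext
  intro x
  rw [MulAut.mul_apply, MulAut.mul_apply]
  apply c_ext φ hφ2 e
  · rw [hα (β x), hβ x, hβ (α x), hα x]
  · rw [hζ (β x), hξ x, hβ x, hξ (α x), hζ x, hα x]
    ring

omit [Fintype F] in
include h2 in
theorem pow2k_eq_one (c : F) (k : ℕ) (h : c ^ (2 ^ k) = 1) : c = 1 := by
  induction k with
  | zero => simpa using h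
  | succ k ih =>
    apply ih
    apply sq_inj' h2
    rw [one_pow, ← pow_mul, ← pow_succ]
    exact h

omit [Fintype F] in
theorem scal_pow (β : MulAut P) (c : F) (hβ : ∀ x : P, (e (β x)).1.a = c * (e x).1.a) (j : ℕ)
    (x : P) : (e ((β ^ j) x)).1.a = c ^ j * (e x).1.a := by
  induction j generalizing x with
  | zero => simp
  | succ j ih =>
    rw [pow_succ, MulAut.mul_apply, ih (β x), hβ x, pow_succ]
    ring

include hφne h2 in
theorem KK_isPGroup : IsPGroup 2 ↥(KK φ hφ2 e) := by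
  intro g
  refine ⟨1, ?_⟩
  apply Subtype.ext
  rw [pow_one, Subgroup.coe_pow, KK_sq φ hφ2 hφne h2 e g.1 g.2]
  rfl

variable {q : ℕ} (hφq : ∀ a : F, φ a = a ^ q)

include hφne h2 in
theorem pcore_le (N : Subgroup (MulAut P)) (hNn : N.Normal) (hNp : IsPGroup 2 ↥N) :
    N ≤ KK φ hφ2 e := by
  intro α hα
  obtain ⟨l, σ, hl, hlσ⟩ := exists_lin φ hφ2 hφne h2 e α
  obtain ⟨x1, hx1⟩ := c_mk_a φ hφ2 hφne e 1
  have hσ : ∀ ν : F, σ ν = ν := by
    intro ν
    by_cases hν : ν = 0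
    · rw [hν, map_zero]
    have hrefl : ∀ a : F, (RingEquiv.refl F) (φ a) = φ ((RingEquiv.refl F) a) := fun a => rfl
    obtain ⟨δ, hδdef⟩ : ∃ δ : MulAut P, δ = liftP φ hφ2 e ν hν (RingEquiv.refl F) hrefl :=
      ⟨_, rfl⟩
    have hδ : ∀ x : P, (e (δ x)).1.a = ν * (e x).1.a := by
      intro x
      rw [hδdef, liftP_A]
      rfl
    have hγ : α * δ * α⁻¹ * δ⁻¹ ∈ N := by
      have h1 : δ * α⁻¹ * δ⁻¹ ∈ N := hNn.conj_mem _ (N.inv_mem hα) δ
      have h3 : α * δ * α⁻¹ * δ⁻¹ = α * (δ * α⁻¹ * δ⁻¹) := by group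
      rw [h3]
      exact N.mul_mem hα h1
    have hαinv : ∀ y : P, (e (α⁻¹ y)).1.a = σ.symm ((e y).1.a / l) := by
      intro y
      have h := hlσ (α⁻¹ y)
      rw [MulAut.apply_inv_self] at h
      rw [h, mul_div_cancel_left₀ _ hl, σ.symm_apply_apply]
    have hδinv : ∀ y : P, (e (δ⁻¹ y)).1.a = (e y).1.a / ν := by
      intro y
      have h := hδ (δ⁻¹ y)
      rw [MulAut.apply_inv_self] at h
      rw [h, mul_div_cancel_left₀ _ hν]
    have hγA : ∀ x : P, (e ((α * δ * α⁻¹ * δ⁻¹) x)).1.a = (σ ν / ν) * (e x).1.a := by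
      intro x
      simp only [MulAut.mul_apply]
      rw [hlσ, hδ, hαinv, hδinv, map_mul, σ.apply_symm_apply]
      field_simp
    obtain ⟨k, hk⟩ := hNp ⟨_, hγ⟩
    have hk' : (α * δ * α⁻¹ * δ⁻¹) ^ (2 ^ k) = 1 := by
      have h := congrArg Subtype.val hk
      simpa using h
    have h5 := scal_pow φ hφ2 e _ _ hγA (2 ^ k) x1
    rw [hk', MulAut.one_apply, hx1, mul_one] at h5
    have h6 : σ ν / ν = 1 := pow2k_eq_one h2 _ k h5.symm
    exact (div_eq_one_iff_eq hν).mp h6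
  have hαA : ∀ x : P, (e (α x)).1.a = l * (e x).1.a := fun x => by rw [hlσ, hσ]
  obtain ⟨k, hk⟩ := hNp ⟨α, hα⟩
  have hk' : α ^ (2 ^ k) = 1 := by
    have h := congrArg Subtype.val hk
    simpa using h
  have h5 := scal_pow φ hφ2 e _ _ hαA (2 ^ k) x1
  rw [hk', MulAut.one_apply, hx1, mul_one] at h5
  have hl1 : l = 1 := pow2k_eq_one h2 _ k h5.symm
  intro x
  rw [hαA, hl1, one_mul]

include hφne h2 in
theorem pcore_eq : pCore 2 (MulAut P) = KK φ hφ2 e := by
  apply le_antisymm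
  · apply sSup_le
    rintro N ⟨hNn, hNp⟩
    exact pcore_le φ hφ2 hφne h2 e N hNn hNp
  · exact le_sSup ⟨KK_normal φ hφ2 hφne e, KK_isPGroup φ hφ2 hφne h2 e⟩

include hφne h2 hφq e in
theorem card_aut (hF : Fintype.card F = q ^ 2) (m : ℕ) (hq : q = 2 ^ m) :
    Nat.card (MulAut P) = q ^ (2 * m) * ((q ^ 2 - 1) * (2 * m)) := by
  classical
  have hσφ : ∀ (σ : F ≃+* F) (a : F), σ (φ a) = φ (σ a) := by
    intro σ a
    rw [hφq, hφq, map_pow]
  have hex := fun α : MulAut P => exists_lin φ hφ2 hφne h2 e α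
  choose L S hL hLS using hex
  obtain ⟨lift, hliftdef⟩ : ∃ lift : Fˣ × (F ≃+* F) → MulAut P, lift = fun γ =>
    liftP φ hφ2 e (γ.1 : F) γ.1.ne_zero γ.2 (hσφ γ.2) := ⟨_, rfl⟩
  have hlift : ∀ (γ : Fˣ × (F ≃+* F)) (x : P),
      (e (lift γ x)).1.a = (γ.1 : F) * γ.2 ((e x).1.a) := by
    intro γ x
    rw [hliftdef]
    exact liftP_A φ hφ2 e _ _ _ _ x
  have huniq : ∀ (α : MulAut P) (l : F) (σ : F ≃+* F),
      (∀ x : P, (e (α x)).1.a = l * σ ((e x).1.a)) → L α = l ∧ S α = σ := by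
    intro α l σ h
    apply lin_unique (L α) l (S α) σ (hL α)
    intro a
    obtain ⟨x, hx⟩ := c_mk_a φ hφ2 hφne e a
    rw [← hx, ← hLS, h]
  obtain ⟨Φ, hΦdef⟩ : ∃ Φ : MulAut P → Fˣ × (F ≃+* F), Φ = fun α =>
    (Units.mk0 (L α) (hL α), S α) := ⟨_, rfl⟩
  have hΦ1 : ∀ α : MulAut P, ((Φ α).1 : F) = L α := by
    intro α
    rw [hΦdef]
    rfl
  have hΦ2 : ∀ α : MulAut P, (Φ α).2 = S α := by
    intro α
    rw [hΦdef]
  have hmem : ∀ α : MulAut P, (lift (Φ α))⁻¹ * α ∈ KK φ hφ2 e := by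
    intro α x
    rw [MulAut.mul_apply]
    have h1 := hlift (Φ α) ((lift (Φ α))⁻¹ (α x))
    rw [MulAut.apply_inv_self, hLS, hΦ1, hΦ2] at h1
    exact ((S α).injective (mul_left_cancel₀ (hL α) h1)).symm
  have hΦlift : ∀ (γ : Fˣ × (F ≃+* F)) (κ : ↥(KK φ hφ2 e)), Φ (lift γ * κ.1) = γ := by
    intro γ κ
    have h1 : ∀ x : P, (e ((lift γ * κ.1) x)).1.a = (γ.1 : F) * γ.2 ((e x).1.a) := by
      intro x
      rw [MulAut.mul_apply, hlift, (mem_KK φ hφ2 e κ.1).mp κ.2 x]
    obtain ⟨h3, h4⟩ := huniq _ _ _ h1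
    apply Prod.ext
    · apply Units.ext
      rw [hΦ1, h3]
    · rw [hΦ2, h4]
  let E : MulAut P ≃ ↥(KK φ hφ2 e) × (Fˣ × (F ≃+* F)) :=
    { toFun := fun α => (⟨(lift (Φ α))⁻¹ * α, hmem α⟩, Φ α)
      invFun := fun κγ => lift κγ.2 * κγ.1.1
      left_inv := fun α => by
        simp only [mul_inv_cancel_left]
      right_inv := fun κγ => by
        have h := hΦlift κγ.2 κγ.1
        apply Prod.ext
        · apply Subtype.ext
          simp only [h, inv_mul_cancel_left]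
        · exact h }
  rw [Nat.card_congr E, Nat.card_prod, Nat.card_prod, card_KK_eq φ hφ2 hφne h2 e,
    card_zeta φ hφ2 hφne h2 hF m hq, Nat.card_units, Nat.card_eq_fintype_card, hF,
    card_ringAut h2 m (by rw [hF, hq, ← pow_mul, mul_comm])]

end main

end Cfsg.Agent.Lib.Helper7.SU3Aut3
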