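import Mathlib
import Cfsg.Prelude
import Cfsg.Agent.Lib.Helper7.TICount
import Cfsg.Agent.Lib.Helper7.QdSec

set_option autoImplicit false
set_option linter.unusedVariables false
set_option linter.unusedSectionVars false

/-!
Nontrivial `p`-subgroups of `SU_3(q)` (`q` a power of `p`) fix a unique isotropic point; their
normalizers normalize the unipotent radical of the point stabiliser, which contains all their
`p`-elements.
-/

namespace Cfsg.Agent.Lib.Helper7.SU3Fix

open Cfsg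
open Cfsg.Agent.Lib.Helper7.SU3Invol (h_add_left h_smul_left h_sub_left h_add_right h_smul_right
  h_sub_right h_symm h_single_left h_single_right su_ext su_mul_val su_one_val su_pres mat_ext_vec)
open Cfsg.Agent.Lib.Helper7.TICount (hl card_perp)

section act

variable {F : Type*} [Field F] [Fintype F] {q : ℕ}

theorem act_mul (g g' : ↥(SU 3 F q)) (v : Fin 3 → F) :
    (g * g').1.1.mulVec v = g.1.1.mulVec (g'.1.1.mulVec v) := by
  rw [su_mul_val, Matrix.mulVec_mulVec]

theorem act_one (v : Fin 3 → F) : (1 : ↥(SU 3 F q)).1.1.mulVec v = v := by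
  rw [su_one_val, Matrix.one_mulVec]

theorem act_inv (g : ↥(SU 3 F q)) (v : Fin 3 → F) :
    (g⁻¹).1.1.mulVec (g.1.1.mulVec v) = v := by
  rw [← act_mul, inv_mul_cancel, act_one]

theorem act_inv' (g : ↥(SU 3 F q)) (v : Fin 3 → F) :
    g.1.1.mulVec ((g⁻¹).1.1.mulVec v) = v := by
  rw [← act_mul, mul_inv_cancel, act_one]

theorem act_add (g : ↥(SU 3 F q)) (u v : Fin 3 → F) :
    g.1.1.mulVec (u + v) = g.1.1.mulVec u + g.1.1.mulVec v := Matrix.mulVec_add _ _ _

theorem act_smul (g : ↥(SU 3 F q)) (c : F) (v : Fin 3 → F) :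
    g.1.1.mulVec (c • v) = c • g.1.1.mulVec v := Matrix.mulVec_smul _ _ _

theorem act_pow_smul (g : ↥(SU 3 F q)) (w : Fin 3 → F) (l : F) (h : g.1.1.mulVec w = l • w)
    (m : ℕ) : (g ^ m).1.1.mulVec w = l ^ m • w := by
  induction m with
  | zero => rw [pow_zero, pow_zero, act_one, one_smul]
  | succ m ih =>
    rw [pow_succ, act_mul, h, act_smul, ih, smul_smul]
    congr 1
    ring

theorem su_pow_val (g : ↥(SU 3 F q)) (m : ℕ) : (g ^ m).1.1 = g.1.1 ^ m := by
  induction m with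
  | zero => rw [pow_zero, pow_zero, su_one_val]
  | succ m ih => rw [pow_succ, pow_succ, su_mul_val, ih]

theorem eq_one_of_pow {p : ℕ} [Fact p.Prime] [CharP F p] (l : F) (k : ℕ)
    (h : l ^ (p ^ k) = 1) : l = 1 := by
  have h1 : (l - 1) ^ (p ^ k) = 0 := by rw [sub_pow_char_pow, h, one_pow, sub_self]
  exact sub_eq_zero.1
    ((pow_eq_zero_iff (pow_ne_zero k (Fact.out : p.Prime).ne_zero)).1 h1)

end act

section geom

variable {F : Type*} [Field F] [Fintype F] {q : ℕ} (φ : F →+* F)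
  (hφq : ∀ a : F, φ a = a ^ q) (hφ2 : ∀ a : F, φ (φ a) = a) (hF : Fintype.card F = q ^ 2)

include hφq hφ2 hF in
theorem exists_y (w : Fin 3 → F) (hw0 : w ≠ 0) (hw : hermForm 3 F q w w = 0) :
    ∃ y : Fin 3 → F, hermForm 3 F q y w = 0 ∧ hermForm 3 F q y y ≠ 0 ∧
      ∀ v, hermForm 3 F q v w = 0 → ∃ a b : F, v = a • y + b • w := by
  classical
  have hq2 : 2 ≤ q := Cfsg.Agent.S0829.two_le_q hF
  obtain ⟨j, hj⟩ : ∃ j, w j ≠ 0 := by
    by_contra hcon
    push Not at hcon
    exact hw0 (funext hcon)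
  have hz : hermForm 3 F q (Pi.single j 1) w ≠ 0 := by
    rw [h_single_left]; exact pow_ne_zero _ hj
  have hsurj : Function.Surjective (hl q w) := by
    intro c
    refine ⟨(c / hermForm 3 F q (Pi.single j 1) w) • Pi.single j 1, ?_⟩
    show hermForm 3 F q _ w = c
    rw [h_smul_left, div_mul_cancel₀ _ hz]
  have hrank := LinearMap.finrank_range_add_finrank_ker (hl q w)
  rw [LinearMap.range_eq_top.mpr hsurj, finrank_top, Module.finrank_self,
    Module.finrank_fin_fun] at hrank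
  have hK2 : Module.finrank F (LinearMap.ker (hl q w)) = 2 := by omega
  have hwK : w ∈ LinearMap.ker (hl q w) := by
    rw [LinearMap.mem_ker]; exact hw
  have hx0 : (⟨w, hwK⟩ : LinearMap.ker (hl q w)) ≠ 0 := by
    intro h; exact hw0 (congrArg Subtype.val h)
  obtain ⟨y, hli⟩ := exists_linearIndependent_pair_of_one_lt_finrank (R := F) (by omega) hx0
  have hspan := hli.span_eq_top_of_card_eq_finrank' (by simp [hK2])
  have hyw : hermForm 3 F q (y : Fin 3 → F) w = 0 := LinearMap.mem_ker.1 y.2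
  have hrep : ∀ v, hermForm 3 F q v w = 0 → ∃ a b : F, v = a • (y : Fin 3 → F) + b • w := by
    intro v hv
    have hvK : v ∈ LinearMap.ker (hl q w) := by rw [LinearMap.mem_ker]; exact hv
    have hmem : (⟨v, hvK⟩ : LinearMap.ker (hl q w)) ∈
        Submodule.span F (Set.range ![(⟨w, hwK⟩ : LinearMap.ker (hl q w)), y]) := by
      rw [hspan]; trivial
    obtain ⟨c, hc⟩ := (Submodule.mem_span_range_iff_exists_fun F).1 hmem
    rw [Fin.sum_univ_two] at hc
    refine ⟨c 1, c 0, ?_⟩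
    have h1 := congrArg Subtype.val hc
    simp at h1
    rw [← h1]; abel
  refine ⟨y, hyw, ?_, hrep⟩
  intro hyy
  have hli2 : LinearIndependent F ![w, (y : Fin 3 → F)] := by
    have h1 := hli.map' (LinearMap.ker (hl q w)).subtype (Submodule.ker_subtype _)
    have e : (⇑(LinearMap.ker (hl q w)).subtype ∘ ![(⟨w, hwK⟩ : LinearMap.ker (hl q w)), y])
        = ![w, (y : Fin 3 → F)] := by
      funext i; fin_cases i <;> rfl
    rw [e] at h1
    exact h1
  have hcp := card_perp φ hφq hφ2 hF 2 ![w, (y : Fin 3 → F)] hli2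
  have hwy : hermForm 3 F q w (y : Fin 3 → F) = 0 := by
    rw [h_symm φ hφq hφ2 (y : Fin 3 → F) w, hyw, map_zero]
  have hmemK : ∀ v : LinearMap.ker (hl q w), ∀ j : Fin 2,
      hermForm 3 F q v.1 (![w, (y : Fin 3 → F)] j) = 0 := by
    intro v j
    obtain ⟨a, b, hab⟩ := hrep v.1 (LinearMap.mem_ker.1 v.2)
    fin_cases j
    · exact LinearMap.mem_ker.1 v.2
    · show hermForm 3 F q v.1 (y : Fin 3 → F) = 0
      rw [hab, h_add_left, h_smul_left, h_smul_left, hyy, hwy]; ring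
  have hinj := Nat.card_le_card_of_injective
    (fun v : LinearMap.ker (hl q w) =>
      (⟨v.1, hmemK v⟩ : {v : Fin 3 → F // ∀ j : Fin 2,
        hermForm 3 F q v (![w, (y : Fin 3 → F)] j) = 0}))
    (fun a b hab => Subtype.ext (by have h := congrArg Subtype.val hab; exact h))
  have hcK : Nat.card (LinearMap.ker (hl q w)) = (q ^ 2) ^ 2 := by
    rw [Module.natCard_eq_pow_finrank (K := F) (V := LinearMap.ker (hl q w)), hK2,
      Nat.card_eq_fintype_card, hF]
  rw [hcK] at hinj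
  have h1 : (q ^ 2) ^ 2 * (q ^ 2) ^ 2 ≤ (q ^ 2) ^ 3 := by
    rw [← hcp]; exact Nat.mul_le_mul_right _ hinj
  have h2 : (q ^ 2) ^ 3 * q ^ 2 ≤ (q ^ 2) ^ 3 * 1 := by
    calc (q ^ 2) ^ 3 * q ^ 2 = (q ^ 2) ^ 2 * (q ^ 2) ^ 2 := by ring
      _ ≤ (q ^ 2) ^ 3 := h1
      _ = (q ^ 2) ^ 3 * 1 := by ring
  have h3 : q ^ 2 ≤ 1 := Nat.le_of_mul_le_mul_left h2 (pow_pos (pow_pos (by omega) 2) 3)
  nlinarith

/-- the action of a subgroup of `SU 3` on isotropic vectors -/
@[instance_reducible]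
def actY (T : Subgroup ↥(SU 3 F q)) :
    MulAction ↥T {v : Fin 3 → F // hermForm 3 F q v v = 0} where
  smul g v := ⟨g.1.1.1.mulVec v.1, by rw [su_pres]; exact v.2⟩
  one_smul v := Subtype.ext (act_one v.1)
  mul_smul g g' v := Subtype.ext (act_mul g.1 g'.1 v.1)

include hF in
theorem exists_fixed {p : ℕ} [Fact p.Prime] (hpq : p ∣ q) (T : Subgroup ↥(SU 3 F q))
    (hT : IsPGroup p T) :
    ∃ w : Fin 3 → F, w ≠ 0 ∧ hermForm 3 F q w w = 0 ∧ ∀ t ∈ T, t.1.1.mulVec w = w := by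
  classical
  let _inst := actY (F := F) (q := q) T
  have hq2 : 2 ≤ q := Cfsg.Agent.S0829.two_le_q hF
  have hcard : p ∣ Nat.card {v : Fin 3 → F // hermForm 3 F q v v = 0} := by
    have h1 := (Cfsg.Agent.Lib.Helper3.hermCount_closed hF 3).1
    have h2 : (q : ℤ) * (Cfsg.Agent.Lib.Helper3.hermCount 3 F q 0 : ℤ)
        = (q : ℤ) * ((q : ℤ) ^ 5 - (q : ℤ) ^ 3 + (q : ℤ) ^ 2) := by rw [h1]; ring
    have hq0 : (q : ℤ) ≠ 0 := by
      have : q ≠ 0 := by omega
      exact_mod_cast this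
    have h3 : (Cfsg.Agent.Lib.Helper3.hermCount 3 F q 0 : ℤ)
        = (q : ℤ) ^ 5 - (q : ℤ) ^ 3 + (q : ℤ) ^ 2 := mul_left_cancel₀ hq0 h2
    have hpq' : (p : ℤ) ∣ (q : ℤ) := Int.natCast_dvd_natCast.2 hpq
    have h4 : (p : ℤ) ∣ (Cfsg.Agent.Lib.Helper3.hermCount 3 F q 0 : ℤ) := by
      rw [h3]
      exact dvd_add (dvd_sub (dvd_pow hpq' (by norm_num)) (dvd_pow hpq' (by norm_num)))
        (dvd_pow hpq' (by norm_num))
    exact Int.natCast_dvd_natCast.1 h4
  have h0 : (⟨0, by simp [hermForm]⟩ : {v : Fin 3 → F // hermForm 3 F q v v = 0}) ∈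
      MulAction.fixedPoints ↥T {v : Fin 3 → F // hermForm 3 F q v v = 0} := by
    intro t
    apply Subtype.ext
    show t.1.1.1.mulVec 0 = 0
    exact Matrix.mulVec_zero _
  obtain ⟨b, hb, hne⟩ := hT.exists_fixed_point_of_prime_dvd_card_of_fixed_point _ hcard h0
  refine ⟨b.1, ?_, b.2, ?_⟩
  · intro h; apply hne; exact Subtype.ext h.symm
  · intro t ht
    have h1 := hb ⟨t, ht⟩
    exact congrArg Subtype.val h1

include hφq hφ2 hF in
theorem fixed_unique {p : ℕ} [Fact p.Prime] [CharP F p] (T : Subgroup ↥(SU 3 F q))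
    (hT : IsPGroup p T) (hT1 : T ≠ ⊥)
    (w w' : Fin 3 → F) (hw0 : w ≠ 0) (hw : hermForm 3 F q w w = 0) (hw'0 : w' ≠ 0)
    (hw' : hermForm 3 F q w' w' = 0)
    (hfw : ∀ t ∈ T, t.1.1.mulVec w = w) (hfw' : ∀ t ∈ T, t.1.1.mulVec w' = w') :
    ∃ c : F, w' = c • w := by
  obtain ⟨y, hyw, hyy, hrep⟩ := exists_y φ hφq hφ2 hF w hw0 hw
  have hwy : hermForm 3 F q w y = 0 := by rw [h_symm φ hφq hφ2 y w, hyw, map_zero]
  by_cases hc : hermForm 3 F q w' w = 0
  · obtain ⟨a, b, hab⟩ := hrep w' hc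
    have h1 : hermForm 3 F q w' w' = a * φ a * hermForm 3 F q y y := by
      rw [hab]
      simp only [h_add_left, h_smul_left, h_add_right φ hφq, h_smul_right φ hφq, hyw, hwy, hw]
      ring
    rw [hw'] at h1
    have ha : a = 0 := by
      rcases mul_eq_zero.1 h1.symm with h2 | h2
      · rcases mul_eq_zero.1 h2 with h3 | h3
        · exact h3
        · exact (map_eq_zero φ).1 h3
      · exact absurd h2 hyy
    refine ⟨b, ?_⟩
    rw [hab, ha, zero_smul, zero_add]
  · exfalso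
    obtain ⟨t, ht, ht1⟩ : ∃ t ∈ T, t ≠ 1 := by
      by_contra hcon
      push Not at hcon
      exact hT1 ((Subgroup.eq_bot_iff_forall T).2 hcon)
    apply ht1
    obtain ⟨k, hk⟩ := hT ⟨t, ht⟩
    have htk : t ^ (p ^ k) = 1 := by
      have h1 := congrArg Subtype.val hk
      simpa using h1
    have hww' : hermForm 3 F q w w' ≠ 0 := by
      intro h0
      apply hc
      rw [h_symm φ hφq hφ2 w w', h0, map_zero]
    obtain ⟨d, hd⟩ : ∃ d : F, d = hermForm 3 F q y w' / hermForm 3 F q w w' := ⟨_, rfl⟩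
    obtain ⟨y', hy'⟩ : ∃ y' : Fin 3 → F, y' = y - d • w := ⟨_, rfl⟩
    have hy'w : hermForm 3 F q y' w = 0 := by
      rw [hy', h_sub_left, h_smul_left, hyw, hw]; ring
    have hy'w' : hermForm 3 F q y' w' = 0 := by
      rw [hy', h_sub_left, h_smul_left, hd, div_mul_cancel₀ _ hww', sub_self]
    have hy'y' : hermForm 3 F q y' y' ≠ 0 := by
      have h1 : hermForm 3 F q y' y' = hermForm 3 F q y y := by
        rw [hy']
        simp only [h_sub_left, h_smul_left, h_sub_right φ hφq, h_smul_right φ hφq, hyw, hwy, hw]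
        ring
      rw [h1]; exact hyy
    have hty'w : hermForm 3 F q (t.1.1.mulVec y') w = 0 := by
      have h1 := su_pres t y' w
      rw [hfw t ht] at h1
      rw [h1]; exact hy'w
    have hty'w' : hermForm 3 F q (t.1.1.mulVec y') w' = 0 := by
      have h1 := su_pres t y' w'
      rw [hfw' t ht] at h1
      rw [h1]; exact hy'w'
    obtain ⟨a, b, hab⟩ := hrep _ hty'w
    have hab' : t.1.1.mulVec y' = a • y' + (b + a * d) • w := by
      rw [hab, hy']; module
    have hb' : b + a * d = 0 := by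
      have h1 := hty'w'
      rw [hab', h_add_left, h_smul_left, h_smul_left, hy'w'] at h1
      have h2 : (b + a * d) * hermForm 3 F q w w' = 0 := by
        rw [← h1]; ring
      rcases mul_eq_zero.1 h2 with h3 | h3
      · exact h3
      · exact absurd h3 hww'
    rw [hb', zero_smul, add_zero] at hab'
    have hy'0 : y' ≠ 0 := by
      intro h0; apply hy'y'; rw [h0]; simp [hermForm]
    have ha1 : a = 1 := by
      have h1 := act_pow_smul t y' a hab' (p ^ k)
      rw [htk, act_one] at h1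
      have h2 : (a ^ (p ^ k) - 1) • y' = 0 := by rw [sub_smul, one_smul, ← h1, sub_self]
      rcases smul_eq_zero.1 h2 with h3 | h3
      · exact eq_one_of_pow a k (sub_eq_zero.1 h3)
      · exact absurd h3 hy'0
    rw [ha1, one_smul] at hab'
    apply su_ext
    rw [su_one_val]
    apply mat_ext_vec
    intro v
    rw [Matrix.one_mulVec]
    obtain ⟨α, hα⟩ : ∃ α : F, α = hermForm 3 F q v w / hermForm 3 F q w' w := ⟨_, rfl⟩
    have hvw : hermForm 3 F q (v - α • w') w = 0 := by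
      rw [h_sub_left, h_smul_left, hα, div_mul_cancel₀ _ hc, sub_self]
    obtain ⟨a2, b2, hab2⟩ := hrep _ hvw
    have hv : v = α • w' + a2 • y' + (b2 + a2 * d) • w := by
      have h1 : v = α • w' + (v - α • w') := by abel
      rw [h1, hab2, hy']; module
    rw [hv]
    simp only [Matrix.mulVec_add, Matrix.mulVec_smul, hfw t ht, hfw' t ht, hab']

/-- the unipotent radical of the stabiliser of the point spanned by `w` -/
def Pw (q : ℕ) (w : Fin 3 → F) : Subgroup ↥(SU 3 F q) where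
  carrier := {g | g.1.1.mulVec w = w ∧
    ∀ v, hermForm 3 F q v w = 0 → ∃ c : F, g.1.1.mulVec v = v + c • w}
  one_mem' := ⟨act_one w, fun v _ => ⟨0, by rw [act_one, zero_smul, add_zero]⟩⟩
  mul_mem' := by
    rintro g g' ⟨hg1, hg2⟩ ⟨hg'1, hg'2⟩
    refine ⟨by rw [act_mul, hg'1, hg1], fun v hv => ?_⟩
    obtain ⟨c', hc'⟩ := hg'2 v hv
    obtain ⟨c, hc⟩ := hg2 v hv
    refine ⟨c + c', ?_⟩
    rw [act_mul, hc', act_add, act_smul, hg1, hc, add_smul, add_assoc]
  inv_mem' := by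
    rintro g ⟨hg1, hg2⟩
    have hi : (g⁻¹).1.1.mulVec w = w := by
      have h1 := act_inv g w
      rw [hg1] at h1; exact h1
    refine ⟨hi, fun v hv => ?_⟩
    obtain ⟨c, hc⟩ := hg2 v hv
    refine ⟨-c, ?_⟩
    have h1 := act_inv g v
    rw [hc, act_add, act_smul, hi] at h1
    rw [neg_smul]
    exact eq_add_neg_of_add_eq h1

theorem Pw_isPGroup {p : ℕ} [Fact p.Prime] [CharP F p] (w : Fin 3 → F) :
    IsPGroup p (Pw q w) := by
  classical
  rintro ⟨g, hg1, hg2⟩
  refine ⟨2, ?_⟩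
  apply Subtype.ext
  rw [Subgroup.coe_pow, Subgroup.coe_one]
  apply su_ext
  rw [su_pow_val, su_one_val]
  obtain ⟨N, hN⟩ : ∃ N : Matrix (Fin 3) (Fin 3) F, N = g.1.1 - 1 := ⟨_, rfl⟩
  have hNv : ∀ u, N.mulVec u = g.1.1.mulVec u - u := by
    intro u; rw [hN, Matrix.sub_mulVec, Matrix.one_mulVec]
  have hN3 : N * N * N = 0 := by
    apply mat_ext_vec
    intro v
    rw [← Matrix.mulVec_mulVec, ← Matrix.mulVec_mulVec, Matrix.zero_mulVec]
    have h1 : hermForm 3 F q (N.mulVec v) w = 0 := by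
      rw [hNv, h_sub_left]
      have h2 := su_pres g v w
      rw [hg1] at h2
      rw [h2, sub_self]
    obtain ⟨c, hc⟩ := hg2 _ h1
    have h3 : N.mulVec (N.mulVec v) = c • w := by
      rw [hNv (N.mulVec v), hc]; abel
    rw [h3, Matrix.mulVec_smul, hNv w, hg1, sub_self, smul_zero]
  have hg : g.1.1 = N + 1 := by rw [hN]; abel
  have hp2 : 2 ≤ p := (Fact.out : p.Prime).two_le
  have hN0 : N ^ (p ^ 2) = 0 := by
    have e : p ^ 2 = 3 + (p ^ 2 - 3) := by
      have : 4 ≤ p ^ 2 := by nlinarith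
      omega
    rw [e, pow_add]
    have e3 : N ^ 3 = N * N * N := by rw [pow_succ, pow_succ, pow_one]
    rw [e3, hN3, zero_mul]
  rw [hg, add_pow_char_pow_of_commute p 2 (Commute.one_right N), hN0, one_pow, zero_add]

include hφq in
theorem Pw_conj (w : Fin 3 → F) (hw0 : w ≠ 0) (g : ↥(SU 3 F q)) (l : F)
    (hg : g.1.1.mulVec w = l • w) (x : ↥(SU 3 F q)) (hx : x ∈ Pw q w) :
    g * x * g⁻¹ ∈ Pw q w := by
  obtain ⟨hx1, hx2⟩ := hx
  have hl0 : l ≠ 0 := by
    intro h0
    rw [h0, zero_smul] at hg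
    have h1 := act_inv g w
    rw [hg, Matrix.mulVec_zero] at h1
    exact hw0 h1.symm
  have hgi : (g⁻¹).1.1.mulVec w = l⁻¹ • w := by
    have h1 := act_inv g w
    rw [hg, act_smul] at h1
    calc (g⁻¹).1.1.mulVec w = l⁻¹ • (l • (g⁻¹).1.1.mulVec w) := by
          rw [smul_smul, inv_mul_cancel₀ hl0, one_smul]
      _ = l⁻¹ • w := by rw [h1]
  refine ⟨?_, fun v hv => ?_⟩
  · rw [act_mul, act_mul, hgi, act_smul, hx1, act_smul, hg, smul_smul, inv_mul_cancel₀ hl0,
      one_smul]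
  · have hv' : hermForm 3 F q ((g⁻¹).1.1.mulVec v) w = 0 := by
      have h1 := su_pres g⁻¹ v (g.1.1.mulVec w)
      rw [act_inv] at h1
      rw [h1, hg, h_smul_right φ hφq, hv, mul_zero]
    obtain ⟨c, hc⟩ := hx2 _ hv'
    refine ⟨c * l, ?_⟩
    rw [act_mul, act_mul, hc, act_add, act_inv', act_smul, hg, smul_smul]

include hφq hφ2 hF in
theorem su3_ns_aux {p : ℕ} [Fact p.Prime] [CharP F p] (hpq : p ∣ q)
    (T : Subgroup ↥(SU 3 F q)) (hT : IsPGroup p T) (hT1 : T ≠ ⊥) :
    QdSec.NS p (Subgroup.normalizer (T : Set ↥(SU 3 F q))) := by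
  obtain ⟨w, hw0, hw, hfw⟩ := exists_fixed hF hpq T hT
  obtain ⟨y, hyw, hyy, hrep⟩ := exists_y φ hφq hφ2 hF w hw0 hw
  have hwy : hermForm 3 F q w y = 0 := by rw [h_symm φ hφq hφ2 y w, hyw, map_zero]
  have hscal : ∀ n ∈ Subgroup.normalizer (T : Set ↥(SU 3 F q)),
      ∃ l : F, n.1.1.mulVec w = l • w := by
    intro n hn
    apply fixed_unique φ hφq hφ2 hF T hT hT1 w (n.1.1.mulVec w) hw0 hw
    · intro h0
      have h1 := act_inv n w
      rw [h0, Matrix.mulVec_zero] at h1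
      exact hw0 h1.symm
    · rw [su_pres]; exact hw
    · exact hfw
    · intro t ht
      have h1 : n⁻¹ * t * n ∈ T := by
        rw [Subgroup.mem_normalizer_iff] at hn
        rw [hn (n⁻¹ * t * n)]
        have e : n * (n⁻¹ * t * n) * n⁻¹ = t := by group
        rw [e]; exact ht
      have h2 := hfw _ h1
      rw [act_mul, act_mul] at h2
      have h3 := congrArg (fun u => n.1.1.mulVec u) h2
      simp only [act_inv'] at h3
      exact h3
  refine ⟨Pw q w, Pw_isPGroup w, ?_, ?_⟩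
  · intro n hn
    obtain ⟨l, hl⟩ := hscal n hn
    have hni : n⁻¹ ∈ Subgroup.normalizer (T : Set ↥(SU 3 F q)) := Subgroup.inv_mem _ hn
    obtain ⟨l', hl'⟩ := hscal n⁻¹ hni
    rw [Subgroup.mem_normalizer_iff]
    intro x
    constructor
    · intro hx
      exact Pw_conj φ hφq w hw0 n l hl x hx
    · intro hx
      have h1 := Pw_conj φ hφq w hw0 n⁻¹ l' hl' _ hx
      have e : n⁻¹ * (n * x * n⁻¹) * n⁻¹⁻¹ = x := by group
      rwa [e] at h1
  · rintro g hg ⟨k, hk⟩
    obtain ⟨l, hl⟩ := hscal g hg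
    have hl1 : l = 1 := by
      have h1 := act_pow_smul g w l hl (p ^ k)
      rw [hk, act_one] at h1
      have h2 : (l ^ (p ^ k) - 1) • w = 0 := by rw [sub_smul, one_smul, ← h1, sub_self]
      rcases smul_eq_zero.1 h2 with h3 | h3
      · exact eq_one_of_pow l k (sub_eq_zero.1 h3)
      · exact absurd h3 hw0
    rw [hl1, one_smul] at hl
    have hgyw : hermForm 3 F q (g.1.1.mulVec y) w = 0 := by
      have h1 := su_pres g y w
      rw [hl] at h1
      rw [h1]; exact hyw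
    obtain ⟨μ, c, hμ⟩ := hrep _ hgyw
    have hpow : ∀ m : ℕ, ∃ cm : F, (g ^ m).1.1.mulVec y = μ ^ m • y + cm • w := by
      intro m
      induction m with
      | zero => exact ⟨0, by rw [pow_zero, pow_zero, act_one, one_smul, zero_smul, add_zero]⟩
      | succ m ih =>
        obtain ⟨cm, hcm⟩ := ih
        refine ⟨μ * cm + c, ?_⟩
        rw [pow_succ, act_mul, hμ, act_add, act_smul, act_smul, hcm,
          act_pow_smul g w 1 (by rw [hl, one_smul]) m, one_pow, one_smul]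
        rw [pow_succ]
        module
    have hμ1 : μ = 1 := by
      obtain ⟨cm, hcm⟩ := hpow (p ^ k)
      rw [hk, act_one] at hcm
      have h1 := congrArg (fun u => hermForm 3 F q u y) hcm
      simp only [h_add_left, h_smul_left, hwy, mul_zero, add_zero] at h1
      have h2 : (μ ^ (p ^ k) - 1) * hermForm 3 F q y y = 0 := by
        rw [sub_mul, one_mul, ← h1, sub_self]
      rcases mul_eq_zero.1 h2 with h3 | h3
      · exact eq_one_of_pow μ k (sub_eq_zero.1 h3)
      · exact absurd h3 hyy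
    rw [hμ1, one_smul] at hμ
    refine ⟨hl, fun v hv => ?_⟩
    obtain ⟨a, b, hab⟩ := hrep v hv
    refine ⟨a * c, ?_⟩
    rw [hab, act_add, act_smul, act_smul, hμ, hl]
    module

end geom

theorem su3_ns {p : ℕ} [Fact p.Prime] {F : Type*} [Field F] [Fintype F] [CharP F p] {q : ℕ}
    (hF : Fintype.card F = q ^ 2) (hpq : p ∣ q) (T : Subgroup ↥(SU 3 F q))
    (hT : IsPGroup p T) (hT1 : T ≠ ⊥) :
    QdSec.NS p (Subgroup.normalizer (T : Set ↥(SU 3 F q))) := by
  obtain ⟨φ, hφq, hφ2⟩ := Cfsg.Agent.S0779.exists_frob hF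
  exact su3_ns_aux φ hφq hφ2 hF hpq T hT hT1

end Cfsg.Agent.Lib.Helper7.SU3Fix
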