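import Mathlib
import Cfsg.Prelude
import Cfsg.Agent.Lib.Helper7.SU3Invol

set_option autoImplicit false
set_option linter.unusedVariables false
set_option linter.unusedSectionVars false
set_option linter.style.haveILetI false
set_option linter.unnecessarySeqFocus false

/-!
The commuting graph on the involutions of the special unitary group of degree three in odd
characteristic: counting through the value `h(b,a)` for the vectors `a`, `b` of the two reflections.
-/

namespace Cfsg.Agent.Lib.Helper7.SU3Graph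

open Cfsg Cfsg.Agent.Lib.Helper7.SU3Invol Cfsg.Agent.Lib.Helper3

section cross

variable {F : Type*} [Field F] {q : ℕ} (φ : F →+* F) (hφ : ∀ a : F, φ a = a ^ q)

/-- the conjugate of the cross product -/
def crossV (u v : Fin 3 → F) : Fin 3 → F :=
  ![φ (u 1 * v 2 - u 2 * v 1), φ (u 2 * v 0 - u 0 * v 2), φ (u 0 * v 1 - u 1 * v 0)]

include hφ in
theorem cross_left (u v : Fin 3 → F) : hermForm 3 F q (crossV φ u v) u = 0 := by
  simp only [hermForm, Fin.sum_univ_three, crossV, ← hφ]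
  simp only [Matrix.cons_val_zero, Matrix.cons_val_one, Matrix.cons_val_two, Matrix.head_cons,
    Matrix.tail_cons, map_sub, map_mul]
  ring

include hφ in
theorem cross_right (u v : Fin 3 → F) : hermForm 3 F q (crossV φ u v) v = 0 := by
  simp only [hermForm, Fin.sum_univ_three, crossV, ← hφ]
  simp only [Matrix.cons_val_zero, Matrix.cons_val_one, Matrix.cons_val_two, Matrix.head_cons,
    Matrix.tail_cons, map_sub, map_mul]
  ring

include hφ in
theorem cross_norm (hφ2 : ∀ a : F, φ (φ a) = a) (u v : Fin 3 → F) :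
    hermForm 3 F q (crossV φ u v) (crossV φ u v)
      = hermForm 3 F q u u * hermForm 3 F q v v - hermForm 3 F q u v * hermForm 3 F q v u := by
  simp only [hermForm, Fin.sum_univ_three, crossV, ← hφ]
  simp only [Matrix.cons_val_zero, Matrix.cons_val_one, Matrix.cons_val_two, Matrix.head_cons,
    Matrix.tail_cons, map_sub, map_mul, hφ2]
  ring

include hφ in
theorem exists_orth [Fintype F] (hF : Fintype.card F = q ^ 2) (hφ2 : ∀ a : F, φ (φ a) = a)
    (u v : Fin 3 → F) (hu : hermForm 3 F q u u = 1) (hv : hermForm 3 F q v v = 1)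
    (hne : hermForm 3 F q u v * hermForm 3 F q v u ≠ 1) :
    ∃ d : Fin 3 → F, hermForm 3 F q d d = 1 ∧ hermForm 3 F q d u = 0 ∧ hermForm 3 F q d v = 0 := by
  have hν0 : 1 - hermForm 3 F q u v * hermForm 3 F q v u ≠ 0 := by
    intro h
    apply hne
    linear_combination -h
  have hνφ : φ (1 - hermForm 3 F q u v * hermForm 3 F q v u)
      = 1 - hermForm 3 F q u v * hermForm 3 F q v u := by
    rw [map_sub, map_one, map_mul, ← h_symm φ hφ hφ2 v u, ← h_symm φ hφ hφ2 u v]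
    ring
  have hνq : ((1 - hermForm 3 F q u v * hermForm 3 F q v u)⁻¹) ^ q
      = (1 - hermForm 3 F q u v * hermForm 3 F q v u)⁻¹ := by
    rw [← hφ, map_inv₀, hνφ]
  have hcard := Cfsg.Agent.S0754.result hF _ (inv_ne_zero hν0) hνq
  have hne' : Nonempty {x : F // x ^ (q + 1) = (1 - hermForm 3 F q u v * hermForm 3 F q v u)⁻¹} := by
    by_contra hcon
    rw [not_nonempty_iff] at hcon
    rw [Nat.card_of_isEmpty] at hcard
    omega
  obtain ⟨⟨s, hs⟩⟩ := hne'
  refine ⟨s • crossV φ u v, ?_, ?_, ?_⟩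
  · rw [h_smul_left, h_smul_right φ hφ, cross_norm φ hφ hφ2, hu, hv, hφ]
    have h1 : s * (s ^ q * (1 * 1 - hermForm 3 F q u v * hermForm 3 F q v u))
        = s ^ (q + 1) * (1 - hermForm 3 F q u v * hermForm 3 F q v u) := by ring
    rw [h1, hs, inv_mul_cancel₀ hν0]
  · rw [h_smul_left, cross_left φ hφ, mul_zero]
  · rw [h_smul_left, cross_right φ hφ, mul_zero]

include hφ in
/-- a common orthogonal unit vector forces `N(h(b,a)) ≠ 1` unless the reflections coincide -/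
theorem orth_norm (hφ2 : ∀ a : F, φ (φ a) = a) (a b c : Fin 3 → F)
    (ha : hermForm 3 F q a a = 1) (hb : hermForm 3 F q b b = 1) (hc : hermForm 3 F q c c = 1)
    (hac : hermForm 3 F q a c = 0) (hcb : hermForm 3 F q c b = 0) (hne : Tm q a ≠ Tm q b) :
    hermForm 3 F q b a * hermForm 3 F q a b ≠ 1 := by
  intro h1
  have hca : hermForm 3 F q c a = 0 := by rw [h_symm φ hφ hφ2 a c, hac, map_zero]
  have hd : hermForm 3 F q (crossV φ a c) (crossV φ a c) = 1 := by
    rw [cross_norm φ hφ hφ2, ha, hc, hac, hca]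
    ring
  have hda : hermForm 3 F q (crossV φ a c) a = 0 := cross_left φ hφ a c
  have hdc : hermForm 3 F q (crossV φ a c) c = 0 := cross_right φ hφ a c
  have had : hermForm 3 F q a (crossV φ a c) = 0 := by
    rw [h_symm φ hφ hφ2 (crossV φ a c) a, hda, map_zero]
  have hcd : hermForm 3 F q c (crossV φ a c) = 0 := by
    rw [h_symm φ hφ hφ2 (crossV φ a c) c, hdc, map_zero]
  have hres := resolution φ hφ hφ2 a c (crossV φ a c) ha hc hd hac had hcd
  have h2 := congrArg (fun M : Matrix (Fin 3) (Fin 3) F => M.mulVec b) hres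
  simp only [Matrix.add_mulVec, Am_mulVec, Matrix.one_mulVec] at h2
  have hbc : hermForm 3 F q b c = 0 := by rw [h_symm φ hφ hφ2 c b, hcb, map_zero]
  rw [hbc, zero_smul, add_zero] at h2
  have h3 := congrArg (fun v => hermForm 3 F q v b) h2
  simp only [h_add_left, h_smul_left, hb] at h3
  have h4 : hermForm 3 F q b (crossV φ a c) * hermForm 3 F q (crossV φ a c) b = 0 := by
    linear_combination h3 - h1
  have h5 : hermForm 3 F q b (crossV φ a c) = 0 := by
    rcases mul_eq_zero.mp h4 with h | h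
    · exact h
    · rw [h_symm φ hφ hφ2 (crossV φ a c) b, h, map_zero]
  rw [h5, zero_smul, add_zero] at h2
  apply hne
  have h6 : (hermForm 3 F q b a) ^ (q + 1) = 1 := by
    rw [pow_succ', ← hφ, ← h_symm φ hφ hφ2 b a]
    exact h1
  rw [← h2, Tm_smul _ h6]

include hφ in
theorem Tm_ne_of_orth (hφ2 : ∀ a : F, φ (φ a) = a) (h2 : (2 : F) ≠ 0) {n : ℕ} (a b : Fin n → F)
    (ha : hermForm n F q a a = 1) (hb : hermForm n F q b b = 1) (hab : hermForm n F q a b = 0) :
    Tm q a ≠ Tm q b := by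
  intro h
  obtain ⟨ε, hε, rfl⟩ := (Tm_eq_iff φ hφ a b ha hb h2).mp h
  rw [h_smul_right φ hφ, ha, mul_one] at hab
  have h3 : ε = 0 := by
    rw [← hφ2 ε, hab, map_zero]
  rw [h3, zero_pow (by omega)] at hε
  exact zero_ne_one hε

end cross

section su

variable {F : Type*} [Field F] [Fintype F] {q : ℕ}

theorem commute_tm_iff (hF : Fintype.card F = q ^ 2) (hq : Odd q) (a b : Fin 3 → F)
    (ha : hermForm 3 F q a a = 1) (hb : hermForm 3 F q b b = 1) :
    Commute (tmSU hF a ha) (tmSU hF b hb) ↔ (hermForm 3 F q a b = 0 ∨ Tm q a = Tm q b) := by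
  obtain ⟨φ, hφ, hφ2⟩ := Cfsg.Agent.S0779.exists_frob hF
  have h2 := two_ne_zero_of_odd hF hq
  rw [commute_iff]
  constructor
  · exact Tm_comm_cases φ hφ hφ2 h2 a b ha hb
  · rintro (h | h)
    · exact Tm_comm_of_orth a b h (by rw [h_symm φ hφ hφ2 a b, h, map_zero])
    · show Tm q a * Tm q b = Tm q b * Tm q a
      rw [h]

/-- not commuting, in terms of the vectors -/
theorem not_commute_iff (hF : Fintype.card F = q ^ 2) (hq : Odd q) (a b : Fin 3 → F)
    (ha : hermForm 3 F q a a = 1) (hb : hermForm 3 F q b b = 1) :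
    ¬ Commute (tmSU hF a ha) (tmSU hF b hb) ↔ (hermForm 3 F q b a ≠ 0 ∧ Tm q a ≠ Tm q b) := by
  obtain ⟨φ, hφ, hφ2⟩ := Cfsg.Agent.S0779.exists_frob hF
  rw [commute_tm_iff hF hq, not_or]
  have h1 : hermForm 3 F q a b = 0 ↔ hermForm 3 F q b a = 0 := by
    constructor
    · intro h
      rw [h_symm φ hφ hφ2 a b, h, map_zero]
    · intro h
      rw [h_symm φ hφ hφ2 b a, h, map_zero]
  rw [h1]

theorem norm_eq (hF : Fintype.card F = q ^ 2) (φ : F →+* F) (hφ : ∀ a : F, φ a = a ^ q)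
    (hφ2 : ∀ a : F, φ (φ a) = a) {n : ℕ} (a b : Fin n → F) :
    hermForm n F q b a ^ (q + 1) = hermForm n F q b a * hermForm n F q a b := by
  rw [pow_succ', ← hφ, ← h_symm φ hφ hφ2 b a]

/-- the reflections coincide only if `N(h(b,a)) = 1` -/
theorem norm_of_Tm_eq (hF : Fintype.card F = q ^ 2) (hq : Odd q) (a b : Fin 3 → F)
    (ha : hermForm 3 F q a a = 1) (hb : hermForm 3 F q b b = 1) (h : Tm q a = Tm q b) :
    hermForm 3 F q b a ^ (q + 1) = 1 := by
  obtain ⟨φ, hφ, hφ2⟩ := Cfsg.Agent.S0779.exists_frob hF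
  have h2 := two_ne_zero_of_odd hF hq
  obtain ⟨ε, hε, rfl⟩ := (Tm_eq_iff φ hφ a b ha hb h2).mp h
  rw [h_smul_left, ha, mul_one, hε]

/-- existence of an involution commuting with both, in terms of the vectors -/
theorem mid_iff (hF : Fintype.card F = q ^ 2) (hq : Odd q) (a b : Fin 3 → F)
    (ha : hermForm 3 F q a a = 1) (hb : hermForm 3 F q b b = 1)
    (hnc : ¬ Commute (tmSU hF a ha) (tmSU hF b hb)) :
    (∃ y : ↥(SU 3 F q), y ≠ 1 ∧ y * y = 1 ∧ Commute (tmSU hF a ha) y ∧ Commute y (tmSU hF b hb))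
      ↔ hermForm 3 F q b a ^ (q + 1) ≠ 1 := by
  obtain ⟨φ, hφ, hφ2⟩ := Cfsg.Agent.S0779.exists_frob hF
  have h2 := two_ne_zero_of_odd hF hq
  have hnc' := (not_commute_iff hF hq a b ha hb).mp hnc
  constructor
  · rintro ⟨y, hy, hy2, hty, hyx⟩
    obtain ⟨c, hc, rfl⟩ := exists_tm hF hq y hy hy2
    have hac : hermForm 3 F q a c = 0 := by
      rcases (commute_tm_iff hF hq a c ha hc).mp hty with h | h
      · exact h
      · exfalso
        apply hnc
        have : tmSU hF a ha = tmSU hF c hc := (tmSU_eq_iff hF a c ha hc).mpr h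
        rw [this]
        exact hyx
    have hcb : hermForm 3 F q c b = 0 := by
      rcases (commute_tm_iff hF hq c b hc hb).mp hyx with h | h
      · exact h
      · exfalso
        apply hnc
        have : tmSU hF c hc = tmSU hF b hb := (tmSU_eq_iff hF c b hc hb).mpr h
        rw [← this]
        exact hty
    rw [norm_eq hF φ hφ hφ2]
    exact orth_norm φ hφ hφ2 a b c ha hb hc hac hcb hnc'.2
  · intro hN
    rw [norm_eq hF φ hφ hφ2] at hN
    have hN' : hermForm 3 F q a b * hermForm 3 F q b a ≠ 1 := by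
      rw [mul_comm]
      exact hN
    obtain ⟨d, hd, hda, hdb⟩ := exists_orth φ hφ hF hφ2 a b ha hb hN'
    refine ⟨tmSU hF d hd, tmSU_ne_one hF hq d hd, tmSU_sq hF d hd, ?_, ?_⟩
    · rw [commute_tm_iff hF hq]
      left
      rw [h_symm φ hφ hφ2 d a, hda, map_zero]
    · rw [commute_tm_iff hF hq]
      left
      exact hdb

end su

section count

variable {F : Type*} [Field F] [Fintype F] {q : ℕ}

omit [Fintype F] in
theorem herm3_split (x y : Fin 3 → F) :
    hermForm 3 F q x y = x 0 * y 0 ^ q + hermForm 2 F q (Fin.tail x) (Fin.tail y) :=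
  hermForm_succ 2 x y

/-- the vectors of norm one with a condition on `h(b,a)` -/
theorem card_U (hF : Fintype.card F = q ^ 2) (a : Fin 3 → F) (ha : hermForm 3 F q a a = 1)
    (P : F → Prop) [DecidablePred P] :
    Nat.card {b : Fin 3 → F // hermForm 3 F q b b = 1 ∧ P (hermForm 3 F q b a)}
      = ∑ β ∈ Finset.univ.filter P, hermCount 2 F q (1 - β ^ (q + 1)) := by
  classical
  have hq2 := two_le_of_card_sq hF
  have hq0 : q ≠ 0 := by omega
  have he : hermForm 3 F q (Pi.single 0 1) (Pi.single 0 1) = 1 := by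
    rw [h_single_left]
    simp
  obtain ⟨g, hg, hga⟩ := exists_unitary_map hF 3 (Pi.single 0 1) a he ha
  have e1 : {b : Fin 3 → F // hermForm 3 F q b b = 1 ∧ P (hermForm 3 F q b a)}
      ≃ {b : Fin 3 → F // hermForm 3 F q b b = 1 ∧ P (b 0)} := by
    refine Equiv.subtypeEquiv g.symm.toEquiv ?_
    intro b
    have h1 : hermForm 3 F q (g.symm b) (g.symm b) = hermForm 3 F q b b := by
      rw [← hg, LinearEquiv.apply_symm_apply]
    have h2 : (g.symm b) 0 = hermForm 3 F q b a := by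
      rw [← h_single_right hq0 (g.symm b) 0, ← hg, LinearEquiv.apply_symm_apply, hga]
    show _ ↔ (hermForm 3 F q (g.symm b) (g.symm b) = 1 ∧ P ((g.symm b) 0))
    rw [h1, h2]
  have e2 : {b : Fin 3 → F // hermForm 3 F q b b = 1 ∧ P (b 0)}
      ≃ (Σ β : F, {w : Fin 2 → F // P β ∧ hermForm 2 F q w w = 1 - β ^ (q + 1)}) :=
    { toFun := fun b => ⟨b.1 0, ⟨Fin.tail b.1, b.2.2, by
          have h := b.2.1
          rw [herm3_split] at h
          linear_combination h⟩⟩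
      invFun := fun p => ⟨(Fin.cons p.1 p.2.1 : Fin 3 → F), by
          constructor
          · rw [herm3_split]
            simp only [Fin.cons_zero, Fin.tail_cons]
            rw [p.2.2.2]
            ring
          · simpa using p.2.2.1⟩
      left_inv := fun b => by
        apply Subtype.ext
        simp
      right_inv := fun p => Sigma.subtype_ext (by simp) (by simp) }
  rw [Nat.card_congr (e1.trans e2), Nat.card_sigma, Finset.sum_filter]
  apply Finset.sum_congr rfl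
  intro β _
  split_ifs with hP
  · unfold hermCount
    exact Nat.card_congr (Equiv.subtypeEquivRight (fun w => and_iff_right hP))
  · exact Nat.card_eq_zero.mpr (Or.inl ⟨fun w => hP w.2.1⟩)

/-- counting a set of involutions through a condition on `h(b,a)` -/
theorem card_set (hF : Fintype.card F = q ^ 2) (hq : Odd q) (a : Fin 3 → F)
    (ha : hermForm 3 F q a a = 1) (S : Set ↥(SU 3 F q)) (hS : ∀ x ∈ S, x ≠ 1 ∧ x * x = 1)
    (P : F → Prop) [DecidablePred P]
    (hP : ∀ b (hb : hermForm 3 F q b b = 1), tmSU hF b hb ∈ S ↔ P (hermForm 3 F q b a)) :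
    Nat.card S * (q + 1) = ∑ β ∈ Finset.univ.filter P, hermCount 2 F q (1 - β ^ (q + 1)) := by
  rw [← card_unit_eq hF hq S hS, ← card_U hF a ha P]
  apply Nat.card_congr
  apply Equiv.subtypeEquivRight
  intro b
  constructor
  · rintro ⟨hb, h⟩
    exact ⟨hb, (hP b hb).mp h⟩
  · rintro ⟨hb, h⟩
    exact ⟨hb, (hP b hb).mpr h⟩

theorem filter_norm_card [DecidableEq F] (hF : Fintype.card F = q ^ 2) :
    (Finset.univ.filter (fun β : F => β ^ (q + 1) = 1)).card = q + 1 := by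
  have h := Cfsg.Agent.S0754.result hF (1 : F) one_ne_zero (one_pow q)
  rw [Nat.card_eq_fintype_card, Fintype.card_subtype] at h
  exact h

theorem sum_P1 [DecidableEq F] (hF : Fintype.card F = q ^ 2) :
    ∑ β ∈ Finset.univ.filter (fun β : F => β = 0), hermCount 2 F q (1 - β ^ (q + 1))
      = hermCount 2 F q 1 := by
  rw [Finset.filter_eq' Finset.univ (0 : F), if_pos (Finset.mem_univ _), Finset.sum_singleton,
    zero_pow (by omega), sub_zero]

theorem sum_P2 [DecidableEq F] (hF : Fintype.card F = q ^ 2) :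
    ∃ c : ℕ, c + (q + 2) = q ^ 2 ∧
      ∑ β ∈ Finset.univ.filter (fun β : F => β ≠ 0 ∧ β ^ (q + 1) ≠ 1),
        hermCount 2 F q (1 - β ^ (q + 1)) = c * hermCount 2 F q 1 := by
  obtain ⟨φ, hφ, hφ2⟩ := Cfsg.Agent.S0779.exists_frob hF
  refine ⟨(Finset.univ.filter (fun β : F => β ≠ 0 ∧ β ^ (q + 1) ≠ 1)).card, ?_, ?_⟩
  · have h1 := Finset.card_filter_add_card_filter_not (s := (Finset.univ : Finset F))
      (p := fun β : F => β ≠ 0 ∧ β ^ (q + 1) ≠ 1)
    rw [Finset.card_univ, hF] at h1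
    rw [← h1]
    congr 1
    have h3 : Finset.univ.filter (fun β : F => ¬ (β ≠ 0 ∧ β ^ (q + 1) ≠ 1))
        = insert 0 (Finset.univ.filter (fun β : F => β ^ (q + 1) = 1)) := by
      ext β
      simp only [Finset.mem_filter, Finset.mem_univ, true_and, Finset.mem_insert]
      tauto
    rw [h3, Finset.card_insert_of_notMem, filter_norm_card hF]
    simp only [Finset.mem_filter, Finset.mem_univ, true_and]
    rw [zero_pow (by omega)]
    exact zero_ne_one
  · rw [← smul_eq_mul, ← Finset.sum_const]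
    apply Finset.sum_congr rfl
    intro β hβ
    simp only [Finset.mem_filter, Finset.mem_univ, true_and] at hβ
    apply hermCount_eq_one hF
    · exact sub_ne_zero.mpr (Ne.symm hβ.2)
    · rw [← hφ, map_sub, map_one, hφ, norm_pow hF]

theorem sum_P3 [DecidableEq F] (hF : Fintype.card F = q ^ 2) :
    ∑ β ∈ Finset.univ.filter (fun β : F => β ^ (q + 1) = 1), hermCount 2 F q (1 - β ^ (q + 1))
      = (q + 1) * hermCount 2 F q 0 := by
  have h : ∀ β ∈ Finset.univ.filter (fun β : F => β ^ (q + 1) = 1),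
      hermCount 2 F q (1 - β ^ (q + 1)) = hermCount 2 F q 0 := by
    intro β hβ
    simp only [Finset.mem_filter, Finset.mem_univ, true_and] at hβ
    rw [hβ, sub_self]
  rw [Finset.sum_congr rfl h, Finset.sum_const, smul_eq_mul, filter_norm_card hF]

end count

section arith

theorem arith1 (q I N : ℕ) (hq : 2 ≤ q) (h1 : I * (q + 1) = N)
    (h2 : (q : ℤ) * N = (q : ℤ) ^ 2 * ((q : ℤ) ^ 2 - (-1) ^ 2)) : I = q * (q - 1) := by
  obtain ⟨k, rfl⟩ : ∃ k, q = k + 2 := ⟨q - 2, by omega⟩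
  have e : k + 2 - 1 = k + 1 := by omega
  rw [e]
  have h1' : (I : ℤ) * ((k : ℤ) + 2 + 1) = N := by exact_mod_cast h1
  push_cast at h2
  have key : (I : ℤ) * (((k : ℤ) + 3) * ((k : ℤ) + 2))
      = (((k : ℤ) + 2) * ((k : ℤ) + 1)) * (((k : ℤ) + 3) * ((k : ℤ) + 2)) := by
    linear_combination ((k : ℤ) + 2) * h1' + h2
  have hne : (((k : ℤ) + 3) * ((k : ℤ) + 2)) ≠ 0 := by positivity
  have := mul_right_cancel₀ hne key
  exact_mod_cast this

theorem arith2 (q I N c : ℕ) (hq : 2 ≤ q) (h1 : I * (q + 1) = c * N) (hc : c + (q + 2) = q ^ 2)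
    (h2 : (q : ℤ) * N = (q : ℤ) ^ 2 * ((q : ℤ) ^ 2 - (-1) ^ 2)) :
    I = q * (q - 2) * (q ^ 2 - 1) := by
  obtain ⟨k, rfl⟩ : ∃ k, q = k + 2 := ⟨q - 2, by omega⟩
  have e : k + 2 - 2 = k := by omega
  have e3 : (k + 2) ^ 2 - 1 = k ^ 2 + 4 * k + 3 := by
    have : (k + 2) ^ 2 = k ^ 2 + 4 * k + 4 := by ring
    omega
  rw [e, e3]
  have h1' : (I : ℤ) * ((k : ℤ) + 2 + 1) = c * N := by exact_mod_cast h1
  have hc' : (c : ℤ) + ((k : ℤ) + 2 + 2) = ((k : ℤ) + 2) ^ 2 := by exact_mod_cast hc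
  push_cast at h2
  have key : (I : ℤ) * (((k : ℤ) + 3) * ((k : ℤ) + 2))
      = (((k : ℤ) + 2) * k * ((k : ℤ) ^ 2 + 4 * k + 3)) * (((k : ℤ) + 3) * ((k : ℤ) + 2)) := by
    linear_combination ((k : ℤ) + 2) * h1' + (c : ℤ) * h2
      + (((k : ℤ) + 2) ^ 2 * (((k : ℤ) + 2) ^ 2 - 1)) * hc'
  have hne : (((k : ℤ) + 3) * ((k : ℤ) + 2)) ≠ 0 := by positivity
  have := mul_right_cancel₀ hne key
  exact_mod_cast this

theorem arith3 (q I N : ℕ) (hq : 2 ≤ q) (h1 : (I + 1) * (q + 1) = (q + 1) * N)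
    (h2 : (q : ℤ) * N = (q : ℤ) ^ (2 * 2) + (-1) ^ 2 * ((q : ℤ) ^ (2 + 1) - (q : ℤ) ^ 2)) :
    I = (q + 1) * (q ^ 2 - 1) := by
  obtain ⟨k, rfl⟩ : ∃ k, q = k + 2 := ⟨q - 2, by omega⟩
  have e3 : (k + 2) ^ 2 - 1 = k ^ 2 + 4 * k + 3 := by
    have : (k + 2) ^ 2 = k ^ 2 + 4 * k + 4 := by ring
    omega
  rw [e3]
  have h1' : ((I : ℤ) + 1) * ((k : ℤ) + 2 + 1) = ((k : ℤ) + 2 + 1) * N := by exact_mod_cast h1
  push_cast at h2
  have key : (I : ℤ) * (((k : ℤ) + 3) * ((k : ℤ) + 2))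
      = (((k : ℤ) + 2 + 1) * ((k : ℤ) ^ 2 + 4 * k + 3)) * (((k : ℤ) + 3) * ((k : ℤ) + 2)) := by
    linear_combination ((k : ℤ) + 2) * h1' + ((k : ℤ) + 3) * h2
  have hne : (((k : ℤ) + 3) * ((k : ℤ) + 2)) ≠ 0 := by positivity
  have := mul_right_cancel₀ hne key
  exact_mod_cast this

end arith

section main

variable {F : Type*} [Field F] [Fintype F] {q : ℕ}

theorem count1 (hF : Fintype.card F = q ^ 2) (hq : Odd q) (a : Fin 3 → F)
    (ha : hermForm 3 F q a a = 1) :
    Nat.card {x : ↥(SU 3 F q) // x ≠ 1 ∧ x * x = 1 ∧ x ≠ tmSU hF a ha ∧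
      Commute (tmSU hF a ha) x} = q * (q - 1) := by
  classical
  obtain ⟨φ, hφ, hφ2⟩ := Cfsg.Agent.S0779.exists_frob hF
  have h2 := two_ne_zero_of_odd hF hq
  have hq2 := two_le_of_card_sq hF
  obtain ⟨hN0, hN1⟩ := hermCount_closed hF 2
  have h1 := card_set hF hq a ha {x : ↥(SU 3 F q) | x ≠ 1 ∧ x * x = 1 ∧ x ≠ tmSU hF a ha ∧
      Commute (tmSU hF a ha) x} (fun x hx => ⟨hx.1, hx.2.1⟩) (fun β : F => β = 0) (by
    intro b hb
    constructor
    · rintro ⟨_, _, hne, hc⟩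
      rcases (commute_tm_iff hF hq a b ha hb).mp hc with h | h
      · show hermForm 3 F q b a = 0
        rw [h_symm φ hφ hφ2 a b, h, map_zero]
      · exact absurd ((tmSU_eq_iff hF b a hb ha).mpr h.symm) hne
    · intro h
      have hab : hermForm 3 F q a b = 0 := by
        rw [h_symm φ hφ hφ2 b a, h, map_zero]
      refine ⟨tmSU_ne_one hF hq b hb, tmSU_sq hF b hb, ?_, ?_⟩
      · intro heq
        exact Tm_ne_of_orth φ hφ hφ2 h2 a b ha hb hab ((tmSU_eq_iff hF b a hb ha).mp heq).symm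
      · exact (commute_tm_iff hF hq a b ha hb).mpr (Or.inl hab))
  rw [sum_P1 hF] at h1
  exact arith1 q _ _ hq2 h1 hN1

theorem count2 (hF : Fintype.card F = q ^ 2) (hq : Odd q) (a : Fin 3 → F)
    (ha : hermForm 3 F q a a = 1) :
    Nat.card {x : ↥(SU 3 F q) // x ≠ 1 ∧ x * x = 1 ∧ ¬ Commute (tmSU hF a ha) x ∧
        ∃ y : ↥(SU 3 F q), y ≠ 1 ∧ y * y = 1 ∧ Commute (tmSU hF a ha) y ∧ Commute y x}
      = q * (q - 2) * (q ^ 2 - 1) := by
  classical
  have hq2 := two_le_of_card_sq hF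
  obtain ⟨hN0, hN1⟩ := hermCount_closed hF 2
  have h1 := card_set hF hq a ha {x : ↥(SU 3 F q) | x ≠ 1 ∧ x * x = 1 ∧
      ¬ Commute (tmSU hF a ha) x ∧
        ∃ y : ↥(SU 3 F q), y ≠ 1 ∧ y * y = 1 ∧ Commute (tmSU hF a ha) y ∧ Commute y x}
      (fun x hx => ⟨hx.1, hx.2.1⟩) (fun β : F => β ≠ 0 ∧ β ^ (q + 1) ≠ 1) (by
    intro b hb
    constructor
    · rintro ⟨_, _, hnc, hex⟩
      exact ⟨((not_commute_iff hF hq a b ha hb).mp hnc).1, (mid_iff hF hq a b ha hb hnc).mp hex⟩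
    · rintro ⟨h0, hN⟩
      have hnc : ¬ Commute (tmSU hF a ha) (tmSU hF b hb) :=
        (not_commute_iff hF hq a b ha hb).mpr
          ⟨h0, fun heq => hN (norm_of_Tm_eq hF hq a b ha hb heq)⟩
      exact ⟨tmSU_ne_one hF hq b hb, tmSU_sq hF b hb, hnc, (mid_iff hF hq a b ha hb hnc).mpr hN⟩)
  obtain ⟨c, hc, hsum⟩ := sum_P2 hF
  rw [hsum] at h1
  exact arith2 q _ _ c hq2 h1 hc hN1

theorem count3 (hF : Fintype.card F = q ^ 2) (hq : Odd q) (a : Fin 3 → F)
    (ha : hermForm 3 F q a a = 1) :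
    Nat.card {x : ↥(SU 3 F q) // x ≠ 1 ∧ x * x = 1 ∧ ¬ Commute (tmSU hF a ha) x ∧
        ∀ y : ↥(SU 3 F q), y ≠ 1 → y * y = 1 → ¬ (Commute (tmSU hF a ha) y ∧ Commute y x)}
      = (q + 1) * (q ^ 2 - 1) := by
  classical
  have hq2 := two_le_of_card_sq hF
  obtain ⟨hN0, hN1⟩ := hermCount_closed hF 2
  have h1 := card_set hF hq a ha (insert (tmSU hF a ha) {x : ↥(SU 3 F q) | x ≠ 1 ∧ x * x = 1 ∧
      ¬ Commute (tmSU hF a ha) x ∧
        ∀ y : ↥(SU 3 F q), y ≠ 1 → y * y = 1 → ¬ (Commute (tmSU hF a ha) y ∧ Commute y x)})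
      (by
        intro x hx
        rcases hx with rfl | hx
        · exact ⟨tmSU_ne_one hF hq a ha, tmSU_sq hF a ha⟩
        · exact ⟨hx.1, hx.2.1⟩) (fun β : F => β ^ (q + 1) = 1) (by
    intro b hb
    constructor
    · rintro (heq | ⟨_, _, hnc, hall⟩)
      · exact norm_of_Tm_eq hF hq a b ha hb ((tmSU_eq_iff hF b a hb ha).mp heq).symm
      · by_contra hN
        obtain ⟨y, hy, hy2, h3, h4⟩ := (mid_iff hF hq a b ha hb hnc).mpr hN
        exact hall y hy hy2 ⟨h3, h4⟩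
    · intro hN
      by_cases heq : Tm q a = Tm q b
      · left
        exact (tmSU_eq_iff hF b a hb ha).mpr heq.symm
      · right
        have h0 : hermForm 3 F q b a ≠ 0 := by
          intro h0
          have hN' : hermForm 3 F q b a ^ (q + 1) = 1 := hN
          rw [h0, zero_pow (by omega)] at hN'
          exact zero_ne_one hN'
        have hnc := (not_commute_iff hF hq a b ha hb).mpr ⟨h0, heq⟩
        refine ⟨tmSU_ne_one hF hq b hb, tmSU_sq hF b hb, hnc, ?_⟩
        rintro y hy hy2 ⟨h3, h4⟩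
        exact (mid_iff hF hq a b ha hb hnc).mp ⟨y, hy, hy2, h3, h4⟩ hN)
  rw [sum_P3 hF] at h1
  have h5 : Nat.card ↥(insert (tmSU hF a ha) {x : ↥(SU 3 F q) | x ≠ 1 ∧ x * x = 1 ∧
      ¬ Commute (tmSU hF a ha) x ∧
        ∀ y : ↥(SU 3 F q), y ≠ 1 → y * y = 1 → ¬ (Commute (tmSU hF a ha) y ∧ Commute y x)})
      = Nat.card ↥({x : ↥(SU 3 F q) | x ≠ 1 ∧ x * x = 1 ∧
      ¬ Commute (tmSU hF a ha) x ∧
        ∀ y : ↥(SU 3 F q), y ≠ 1 → y * y = 1 → ¬ (Commute (tmSU hF a ha) y ∧ Commute y x)}) + 1 := by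
    rw [Nat.card_coe_set_eq, Nat.card_coe_set_eq, Set.ncard_insert_of_notMem]
    intro hmem
    exact hmem.2.2.1 (Commute.refl _)
  rw [h5] at h1
  exact arith3 q _ _ hq2 h1 hN0

theorem diam (hF : Fintype.card F = q ^ 2) (hq : Odd q) (a : Fin 3 → F)
    (ha : hermForm 3 F q a a = 1) (x : ↥(SU 3 F q)) (hx : x ≠ 1) (hx2 : x * x = 1) :
    ∃ y z : ↥(SU 3 F q), y ≠ 1 ∧ y * y = 1 ∧ z ≠ 1 ∧ z * z = 1 ∧
      Commute (tmSU hF a ha) y ∧ Commute y z ∧ Commute z x := by
  obtain ⟨φ, hφ, hφ2⟩ := Cfsg.Agent.S0779.exists_frob hF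
  have h2 := two_ne_zero_of_odd hF hq
  by_cases hc : Commute (tmSU hF a ha) x
  · exact ⟨x, x, hx, hx2, hx, hx2, hc, Commute.refl x, Commute.refl x⟩
  obtain ⟨b, hb, rfl⟩ := exists_tm hF hq x hx hx2
  by_cases hN : hermForm 3 F q b a ^ (q + 1) = 1
  · have hcount := count1 hF hq a ha
    have hq2 := two_le_of_card_sq hF
    have hpos : 0 < Nat.card {x : ↥(SU 3 F q) // x ≠ 1 ∧ x * x = 1 ∧ x ≠ tmSU hF a ha ∧
        Commute (tmSU hF a ha) x} := by
      rw [hcount]
      exact Nat.mul_pos (by omega) (by omega)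
    obtain ⟨⟨x1, hx1, hx12, hx1ne, hx1c⟩⟩ := (Nat.card_pos_iff.mp hpos).1
    obtain ⟨c1, hc1, rfl⟩ := exists_tm hF hq x1 hx1 hx12
    have hac1 : hermForm 3 F q a c1 = 0 := by
      rcases (commute_tm_iff hF hq a c1 ha hc1).mp hx1c with h | h
      · exact h
      · exact absurd ((tmSU_eq_iff hF c1 a hc1 ha).mpr h.symm) hx1ne
    have hc1a : hermForm 3 F q c1 a = 0 := by rw [h_symm φ hφ hφ2 a c1, hac1, map_zero]
    have hc2 : hermForm 3 F q (crossV φ a c1) (crossV φ a c1) = 1 := by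
      rw [cross_norm φ hφ hφ2, ha, hc1, hac1, hc1a]
      ring
    have hc2a : hermForm 3 F q (crossV φ a c1) a = 0 := cross_left φ hφ a c1
    have hc2c1 : hermForm 3 F q (crossV φ a c1) c1 = 0 := cross_right φ hφ a c1
    have hac2 : hermForm 3 F q a (crossV φ a c1) = 0 := by
      rw [h_symm φ hφ hφ2 (crossV φ a c1) a, hc2a, map_zero]
    have hc1c2 : hermForm 3 F q c1 (crossV φ a c1) = 0 := by
      rw [h_symm φ hφ hφ2 (crossV φ a c1) c1, hc2c1, map_zero]
    have hres := resolution φ hφ hφ2 a c1 (crossV φ a c1) ha hc1 hc2 hac1 hac2 hc1c2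
    have h3 := congrArg (fun M : Matrix (Fin 3) (Fin 3) F => M.mulVec b) hres
    simp only [Matrix.add_mulVec, Am_mulVec, Matrix.one_mulVec] at h3
    have h4 := congrArg (fun v => hermForm 3 F q v b) h3
    simp only [h_add_left, h_smul_left, hb] at h4
    rw [norm_eq hF φ hφ hφ2] at hN
    have key : ∃ c, hermForm 3 F q c c = 1 ∧ hermForm 3 F q a c = 0 ∧
        hermForm 3 F q c b * hermForm 3 F q b c ≠ 1 := by
      by_cases h5 : hermForm 3 F q c1 b * hermForm 3 F q b c1 = 1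
      · refine ⟨crossV φ a c1, hc2, hac2, ?_⟩
        intro h6
        apply h2
        linear_combination h4 - hN - h5 - h6
      · exact ⟨c1, hc1, hac1, h5⟩
    obtain ⟨c, hcc, hac, hcb⟩ := key
    obtain ⟨d, hd, hdc, hdb⟩ := exists_orth φ hφ hF hφ2 c b hcc hb hcb
    refine ⟨tmSU hF c hcc, tmSU hF d hd, tmSU_ne_one hF hq c hcc, tmSU_sq hF c hcc,
      tmSU_ne_one hF hq d hd, tmSU_sq hF d hd, ?_, ?_, ?_⟩
    · exact (commute_tm_iff hF hq a c ha hcc).mpr (Or.inl hac)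
    · exact (commute_tm_iff hF hq c d hcc hd).mpr
        (Or.inl (by rw [h_symm φ hφ hφ2 d c, hdc, map_zero]))
    · exact (commute_tm_iff hF hq d b hd hb).mpr (Or.inl hdb)
  · obtain ⟨y, hy, hy2, h3, h4⟩ := (mid_iff hF hq a b ha hb hc).mpr hN
    exact ⟨y, y, hy, hy2, hy, hy2, h3, Commute.refl y, h4⟩

end main

end Cfsg.Agent.Lib.Helper7.SU3Graph
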