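import Mathlib
import Cfsg.Agent.Lib.Helper15.SzBridge

set_option autoImplicit false
set_option linter.unusedVariables false
open Cfsg

namespace Cfsg.Agent.Lib.Helper7.SzAut

open Cfsg.Agent.Lib.Helper4.Suz

section T0

variable {F : Type*} [Field F] (D : Dat F)

/-- the image of `σ + 1` -/
def T0 : AddSubgroup F := (D.σ.toAddMonoidHom + AddMonoidHom.id F).range

theorem mem_T0 (t : F) : t ∈ T0 D ↔ ∃ y, D.σ y + y = t := by
  rw [T0, AddMonoidHom.mem_range]
  rfl

theorem T0_index [Finite F] : (T0 D).index = 2 := by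
  have hker : Nat.card (D.σ.toAddMonoidHom + AddMonoidHom.id F).ker = 2 := by
    rw [Nat.card_eq_two_iff]
    refine ⟨⟨0, by simp⟩, ⟨1, ?_⟩, ?_, ?_⟩
    · rw [AddMonoidHom.mem_ker]
      change D.σ 1 + 1 = 0
      rw [map_one]
      exact D.add_self 1
    · intro h
      exact zero_ne_one (congrArg Subtype.val h)
    · apply Set.eq_univ_of_forall
      rintro ⟨y, hy⟩
      rw [AddMonoidHom.mem_ker] at hy
      have hy' : D.σ y + y = 0 := hy
      have h1 : D.σ y = y := by linear_combination hy' - y * D.two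
      have h2 : y ^ 2 = y := by rw [← D.hσ, h1, h1]
      have h3 : y * (y - 1) = 0 := by linear_combination h2
      rcases mul_eq_zero.mp h3 with h | h
      · left
        exact Subtype.ext h
      · right
        exact Subtype.ext (sub_eq_zero.mp h)
  have h1 := AddSubgroup.card_mul_index (D.σ.toAddMonoidHom + AddMonoidHom.id F).ker
  rw [AddSubgroup.index_ker, hker] at h1
  have h3 := AddSubgroup.card_mul_index (T0 D)
  have hpos : 0 < Nat.card (T0 D) := Nat.card_pos
  have h4 : Nat.card (T0 D) * (T0 D).index = Nat.card (T0 D) * 2 := by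
    rw [h3, ← h1, mul_comm]
    rfl
  exact Nat.eq_of_mul_eq_mul_left hpos h4

theorem T0_add_iff [Finite F] (z z' : F) : z + z' ∈ T0 D ↔ (z ∈ T0 D ↔ z' ∈ T0 D) :=
  AddSubgroup.add_mem_iff_of_index_two (T0_index D)

theorem exists_not_mem_T0 [Finite F] : ∃ t, t ∉ T0 D := by
  by_contra hcon
  push Not at hcon
  have h1 : T0 D = ⊤ := by
    rw [eq_top_iff]
    intro x _
    exact hcon x
  have h2 := T0_index D
  rw [h1, AddSubgroup.index_top] at h2
  omega

end T0

section cls

variable {F : Type*} [Field F] [Fintype F] (D : Dat F)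

theorem P1 (A B : F → F) (hA0 : ∀ a, A a = 0 → a = 0)
    (hbr : ∀ a c, B (a * D.σ c + c * D.σ a) = A a * D.σ (A c) + A c * D.σ (A a))
    (hN : ∀ a, B (a * D.σ a) = A a * D.σ (A a))
    (u t : F) (hu : u ≠ 0) (ht : t ∈ T0 D) : ∃ t' ∈ T0 D, B (u * t) = B u * t' := by
  obtain ⟨a, ha⟩ := D.exists_mul_sigma u
  have ha0 : a ≠ 0 := by
    rintro rfl
    apply hu
    rw [← ha]
    simp
  obtain ⟨y, hy⟩ := (mem_T0 D t).mp ht
  have hAa : A a ≠ 0 := fun h => ha0 (hA0 a h)
  refine ⟨D.σ (A (a * y) / A a) + A (a * y) / A a, (mem_T0 D _).mpr ⟨_, rfl⟩, ?_⟩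
  have e1 : u * t = a * D.σ (a * y) + (a * y) * D.σ a := by
    rw [← ha, ← hy, map_mul]
    ring
  rw [e1, hbr, ← ha, hN, map_div₀]
  have hσA : D.σ (A a) ≠ 0 := (map_ne_zero D.σ).mpr hAa
  field_simp

omit [Fintype F] in
theorem N_inj (x y : F) (h : x * D.σ x = y * D.σ y) : x = y := by
  by_cases hy : y = 0
  · rw [hy, map_zero, mul_zero] at h
    rcases mul_eq_zero.mp h with h0 | h0
    · rw [h0, hy]
    · rw [(map_eq_zero D.σ).mp h0, hy]
  · have hσy : D.σ y ≠ 0 := (map_ne_zero D.σ).mpr hy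
    have h1 : (x / y) * D.σ (x / y) = 1 := by
      rw [map_div₀]
      field_simp
      exact h
    have h2 := D.mul_sigma_eq_one h1
    field_simp at h2
    exact h2

/-- Additive bijections compatible with `a ↦ a σ(a)` are scalars times field automorphisms. -/
theorem sz_classify (A B : F → F) (hA_add : ∀ x y, A (x + y) = A x + A y)
    (hB_add : ∀ x y, B (x + y) = B x + B y) (hA_bij : Function.Bijective A)
    (hB_bij : Function.Bijective B) (hN : ∀ a, B (a * D.σ a) = A a * D.σ (A a))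
    (e : ℕ) (hσe : ∀ x, D.σ x = x ^ e) : ∃ ρ : F ≃+* F, ∀ a, A a = A 1 * ρ a := by
  classical
  have h2 := D.two
  have hA00 : A 0 = 0 := by
    have h := hA_add 0 0
    rw [add_zero] at h
    linear_combination -h
  have hB00 : B 0 = 0 := by
    have h := hB_add 0 0
    rw [add_zero] at h
    linear_combination -h
  have hA0 : ∀ a, A a = 0 → a = 0 := fun a h => hA_bij.1 (h.trans hA00.symm)
  have hB0 : ∀ a, B a = 0 → a = 0 := fun a h => hB_bij.1 (h.trans hB00.symm)
  have hbr_of : ∀ (A B : F → F), (∀ x y, A (x + y) = A x + A y) →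
      (∀ x y, B (x + y) = B x + B y) → (∀ a, B (a * D.σ a) = A a * D.σ (A a)) →
      ∀ a c, B (a * D.σ c + c * D.σ a) = A a * D.σ (A c) + A c * D.σ (A a) := by
    intro A B hA hB hN a c
    have h := hN (a + c)
    have e1 : (a + c) * D.σ (a + c) = a * D.σ a + c * D.σ c + (a * D.σ c + c * D.σ a) := by
      rw [map_add]
      ring
    rw [e1, hB, hB, hN, hN, hA, map_add] at h
    linear_combination h
  have hbr := hbr_of A B hA_add hB_add hN
  obtain ⟨A', hA'⟩ : ∃ A' : F → F, ∀ x, A (A' x) = x :=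
    ⟨Function.surjInv hA_bij.2, Function.surjInv_eq hA_bij.2⟩
  obtain ⟨B', hB'⟩ : ∃ B' : F → F, ∀ x, B (B' x) = x :=
    ⟨Function.surjInv hB_bij.2, Function.surjInv_eq hB_bij.2⟩
  have hB'B : ∀ x, B' (B x) = x := fun x => hB_bij.1 (hB' (B x))
  have hA'_add : ∀ x y, A' (x + y) = A' x + A' y := by
    intro x y
    apply hA_bij.1
    rw [hA_add, hA', hA', hA']
  have hB'_add : ∀ x y, B' (x + y) = B' x + B' y := by
    intro x y
    apply hB_bij.1
    rw [hB_add, hB', hB', hB']
  have hN' : ∀ a, B' (a * D.σ a) = A' a * D.σ (A' a) := by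
    intro a
    apply hB_bij.1
    rw [hB', hN, hA']
  have hA'0 : ∀ a, A' a = 0 → a = 0 := by
    intro a h
    have h3 := hA' a
    rw [h, hA00] at h3
    exact h3.symm
  have hbr' := hbr_of A' B' hA'_add hB'_add hN'
  have P2 : ∀ u x, u ≠ 0 → (x / u ∈ T0 D ↔ B x / B u ∈ T0 D) := by
    intro u x hu
    have hBu : B u ≠ 0 := fun h => hu (hB0 u h)
    constructor
    · intro h
      obtain ⟨t', ht', h3⟩ := P1 D A B hA0 hbr hN u (x / u) hu h
      have e1 : u * (x / u) = x := by field_simp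
      rw [e1] at h3
      rw [h3, mul_div_cancel_left₀ _ hBu]
      exact ht'
    · intro h
      obtain ⟨t', ht', h3⟩ := P1 D A' B' hA'0 hbr' hN' (B u) (B x / B u) hBu h
      have e1 : B u * (B x / B u) = B x := by field_simp
      rw [e1, hB'B, hB'B] at h3
      rw [h3, mul_div_cancel_left₀ _ hu]
      exact ht'
  obtain ⟨C, hC⟩ : ∃ C : F → F, C = fun v => (B v⁻¹)⁻¹ := ⟨_, rfl⟩
  have hC0 : C 0 = 0 := by
    rw [hC]
    simp only [inv_zero, hB00]
  have P3 : ∀ x v, (x * v ∈ T0 D ↔ B x * C v ∈ T0 D) := by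
    intro x v
    by_cases hv : v = 0
    · rw [hv, hC0, mul_zero, mul_zero]
    · have h := P2 v⁻¹ x (inv_ne_zero hv)
      rw [div_inv_eq_mul] at h
      rw [h, hC, div_eq_mul_inv]
  have hadd3 : ∀ z z' : F, z + z' ∈ T0 D ↔ (z ∈ T0 D ↔ z' ∈ T0 D) := T0_add_iff D
  obtain ⟨t0, ht0⟩ := exists_not_mem_T0 D
  have hnd : ∀ w : F, (∀ z, z * w ∈ T0 D) → w = 0 := by
    intro w hw
    by_contra hne
    apply ht0
    have h := hw (t0 / w)
    rwa [div_mul_cancel₀ _ hne] at h
  have hC_add : ∀ v v', C (v + v') = C v + C v' := by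
    intro v v'
    have hw : C (v + v') + (C v + C v') = 0 := by
      apply hnd
      intro z
      obtain ⟨x, rfl⟩ := hB_bij.2 z
      rw [mul_add, mul_add, hadd3, hadd3, ← P3, ← P3, ← P3, ← hadd3, ← mul_add]
    linear_combination hw - (C v + C v') * h2
  have hCinv : ∀ x, C x⁻¹ = (B x)⁻¹ := by
    intro x
    rw [hC]
    simp only [inv_inv]
  have hBinv : ∀ v, B v⁻¹ = (C v)⁻¹ := by
    intro v
    rw [hC]
    simp only [inv_inv]
  have hB_sub : ∀ x y, B (x - y) = B x - B y := by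
    intro x y
    have h := hB_add (x - y) y
    rw [sub_add_cancel] at h
    linear_combination (-1 : F) * h
  have hC_sub : ∀ x y, C (x - y) = C x - C y := by
    intro x y
    have h := hC_add (x - y) y
    rw [sub_add_cancel] at h
    linear_combination (-1 : F) * h
  have hua : ∀ a b : F, a ≠ 0 → b ≠ 0 → b⁻¹ - a ≠ 0 →
      a - (a⁻¹ + (b⁻¹ - a)⁻¹)⁻¹ = a * b * a := by
    intro a b ha hb hs
    have e1 : a⁻¹ * a = 1 := inv_mul_cancel₀ ha
    have e2 : (b⁻¹ - a)⁻¹ * (b⁻¹ - a) = 1 := inv_mul_cancel₀ hs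
    have e3 : b⁻¹ * b = 1 := inv_mul_cancel₀ hb
    have key : (a⁻¹ + (b⁻¹ - a)⁻¹) * (a * (b⁻¹ - a) * b) = 1 := by
      linear_combination ((b⁻¹ - a) * b) * e1 + (a * b) * e2 + e3
    rw [inv_eq_of_mul_eq_one_right key]
    linear_combination (-a) * e3
  have hH : ∀ a b, B (a * b * a) = B a * C b * B a := by
    intro a b
    by_cases ha : a = 0
    · rw [ha, mul_zero, hB00, mul_zero]
    by_cases hb : b = 0
    · rw [hb, hC0, mul_zero, zero_mul, hB00, mul_zero, zero_mul]
    have hBa : B a ≠ 0 := fun h => ha (hB0 a h)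
    by_cases hs : b⁻¹ - a = 0
    · have hb' : b = a⁻¹ := by
        rw [← inv_inv b, sub_eq_zero.mp hs]
      rw [hb', hCinv, mul_inv_cancel₀ ha, one_mul, mul_inv_cancel₀ hBa, one_mul]
    · have hCb : C b ≠ 0 := by
        intro h
        have h3 := hBinv b
        rw [h, inv_zero] at h3
        exact hb (inv_eq_zero.mp (hB0 _ h3))
      have hs' : (C b)⁻¹ - B a ≠ 0 := by
        rw [← hBinv, ← hB_sub]
        exact fun h => hs (hB0 _ h)
      have h1 := hua a b ha hb hs
      have h2' := hua (B a) (C b) hBa hCb hs'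
      rw [← h1, hB_sub, hBinv, hC_add, hCinv, hCinv, hB_sub, hBinv]
      exact h2'
  have hμ : B 1 ≠ 0 := fun h => one_ne_zero (hB0 1 h)
  have hCB : ∀ b, C b = B b / (B 1) ^ 2 := by
    intro b
    have h := hH 1 b
    rw [one_mul, mul_one] at h
    rw [h]
    field_simp
  obtain ⟨r, hr⟩ : ∃ r : F → F, r = fun x => B x / B 1 := ⟨_, rfl⟩
  have rAdd : ∀ x y, r (x + y) = r x + r y := by
    intro x y
    rw [hr]
    simp only
    rw [hB_add]
    ring
  have rOne : r 1 = 1 := by
    rw [hr]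
    exact div_self hμ
  have rH : ∀ a b, r (a * b * a) = r a * r b * r a := by
    intro a b
    rw [hr]
    simp only
    rw [hH, hCB]
    field_simp
  have rSq : ∀ a, r (a ^ 2) = r a ^ 2 := by
    intro a
    have h := rH a 1
    rw [mul_one, rOne, mul_one] at h
    rw [pow_two, pow_two, h]
  have rMul : ∀ x y, r (x * y) = r x * r y := by
    intro x y
    obtain ⟨a, rfl⟩ := D.exists_sq x
    have h := rH a y
    rw [rSq]
    rw [show a ^ 2 * y = a * y * a by ring, h]
    ring
  have rZero : r 0 = 0 := by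
    rw [hr]
    simp only [hB00, zero_div]
  let ρ : F →+* F :=
    { toFun := r
      map_one' := rOne
      map_mul' := rMul
      map_zero' := rZero
      map_add' := rAdd }
  have hinj : Function.Injective ρ := ρ.injective
  have hbij : Function.Bijective ρ := ⟨hinj, Finite.injective_iff_surjective.mp hinj⟩
  refine ⟨RingEquiv.ofBijective ρ hbij, fun a => ?_⟩
  change A a = A 1 * r a
  have hrσ : ∀ x, r (D.σ x) = D.σ (r x) := by
    intro x
    have h : ρ (D.σ x) = D.σ (ρ x) := by rw [hσe, hσe, map_pow]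
    exact h
  have hB1 : B 1 = A 1 * D.σ (A 1) := by
    have h := hN 1
    rwa [map_one, mul_one] at h
  apply N_inj D
  rw [← hN, map_mul, ← hrσ]
  have h5 : B (a * D.σ a) = B 1 * r (a * D.σ a) := by
    rw [hr]
    field_simp
  rw [h5, hB1, rMul]
  ring

end cls

end Cfsg.Agent.Lib.Helper7.SzAut
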