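import Mathlib
import Cfsg.Prelude
import Cfsg.Agent.Lib.Helper7.SzAut

set_option autoImplicit false
set_option linter.unusedVariables false
open Cfsg

namespace Cfsg.Agent.Lib.Helper7.SzAut2

open Cfsg.Agent.Lib.Helper4.Suz
open Cfsg.Agent.Lib.Helper7.SzAut

section grp

variable {F : Type*} [Field F]

/-- the Suzuki 2-group on pairs -/
@[ext] structure SH (D : Dat F) where
  a : F
  b : F

variable (D : Dat F)

instance : Mul (SH D) := ⟨fun x y => ⟨x.a + y.a, x.b + y.b + D.σ x.a * y.a⟩⟩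
instance : One (SH D) := ⟨⟨0, 0⟩⟩
instance : Inv (SH D) := ⟨fun x => ⟨-x.a, -x.b + D.σ x.a * x.a⟩⟩

theorem mul_a (x y : SH D) : (x * y).a = x.a + y.a := rfl
theorem mul_b (x y : SH D) : (x * y).b = x.b + y.b + D.σ x.a * y.a := rfl
theorem one_a : (1 : SH D).a = 0 := rfl
theorem one_b : (1 : SH D).b = 0 := rfl
theorem inv_a (x : SH D) : (x⁻¹).a = -x.a := rfl
theorem inv_b (x : SH D) : (x⁻¹).b = -x.b + D.σ x.a * x.a := rfl

instance : Group (SH D) := Group.ofLeftAxioms
  (by
    intro x y z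
    ext
    · simp only [mul_a]
      ring
    · simp only [mul_a, mul_b, map_add]
      ring)
  (by
    intro x
    ext
    · simp only [mul_a, one_a, zero_add]
    · simp only [mul_b, one_a, one_b, zero_add, map_zero, zero_mul, add_zero])
  (by
    intro x
    ext
    · simp only [mul_a, inv_a, one_a]
      ring
    · simp only [mul_b, inv_a, inv_b, one_b, map_neg]
      ring)

/-- pairs -/
def SH.equivProd : SH D ≃ F × F :=
  ⟨fun x => (x.a, x.b), fun p => ⟨p.1, p.2⟩, fun x => rfl, fun p => rfl⟩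

instance [Finite F] : Finite (SH D) := Finite.of_equiv _ (SH.equivProd D).symm

theorem card_SH [Fintype F] : Nat.card (SH D) = Fintype.card F ^ 2 := by
  rw [Nat.card_congr (SH.equivProd D), Nat.card_prod, Nat.card_eq_fintype_card, sq]

end grp

section props

variable {F : Type*} [Field F] (D : Dat F) {P : Type*} [Group P] (e : P ≃* SH D)

theorem cA_mul (p p' : P) : (e (p * p')).a = (e p).a + (e p').a := by
  rw [map_mul]
  rfl

theorem cB_mul (p p' : P) :
    (e (p * p')).b = (e p).b + (e p').b + D.σ (e p).a * (e p').a := by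
  rw [map_mul]
  rfl

theorem cA_one : (e 1).a = 0 := by
  rw [map_one]
  rfl

theorem cB_one : (e 1).b = 0 := by
  rw [map_one]
  rfl

theorem c_ext {p p' : P} (ha : (e p).a = (e p').a) (hb : (e p).b = (e p').b) : p = p' :=
  e.injective (SH.ext ha hb)

theorem c_mk (a b : F) : ∃ p : P, (e p).a = a ∧ (e p).b = b :=
  ⟨e.symm ⟨a, b⟩, by rw [e.apply_symm_apply], by rw [e.apply_symm_apply]⟩

theorem cA_inv (p : P) : (e p⁻¹).a = -(e p).a := by
  rw [map_inv]
  rfl

theorem center_iff (k0 : F) (hk0 : k0 ≠ 0) (hk1 : k0 ≠ 1) (p : P) :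
    p ∈ Subgroup.center P ↔ (e p).a = 0 := by
  rw [Subgroup.mem_center_iff]
  constructor
  · intro h
    obtain ⟨x, hxa, hxb⟩ := c_mk D e 1 0
    obtain ⟨y, hya, hyb⟩ := c_mk D e k0 0
    have h1 := congrArg (fun g => (e g).b) (h x)
    have h2 := congrArg (fun g => (e g).b) (h y)
    simp only [cB_mul, hxa, hxb, hya, hyb, map_one] at h1 h2
    have hs : D.σ (e p).a = (e p).a := by linear_combination -h1
    rw [hs] at h2
    have h3 : (e p).a * (D.σ k0 - k0) = 0 := by linear_combination h2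
    rcases mul_eq_zero.mp h3 with h4 | h4
    · exact h4
    · exfalso
      have h5 : D.σ k0 = k0 := sub_eq_zero.mp h4
      have h6 : k0 ^ 2 = k0 := by rw [← D.hσ, h5, h5]
      have h7 : k0 * (k0 - 1) = 0 := by linear_combination h6
      rcases mul_eq_zero.mp h7 with h8 | h8
      · exact hk0 h8
      · exact hk1 (sub_eq_zero.mp h8)
  · intro h g
    apply c_ext D e
    · rw [cA_mul, cA_mul, add_comm]
    · rw [cB_mul, cB_mul, h, map_zero, zero_mul, mul_zero]
      ring

end props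

section aut

variable {F : Type*} [Field F] [Fintype F] (D : Dat F) (k0 : F) (hk0 : k0 ≠ 0) (hk1 : k0 ≠ 1)
  {P : Type*} [Group P] (e : P ≃* SH D) (α : P ≃* P)

omit [Fintype F] in
theorem center_map (z : P) (hz : z ∈ Subgroup.center P) : α z ∈ Subgroup.center P := by
  rw [Subgroup.mem_center_iff] at hz ⊢
  intro g
  have h := hz (α.symm g)
  have h' := congrArg α h
  rw [map_mul, map_mul, α.apply_symm_apply] at h'
  exact h'

omit [Fintype F] in
include hk0 hk1 in
theorem cA_congr (x y : P) (h : (e x).a = (e y).a) : (e (α x)).a = (e (α y)).a := by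
  have h1 : (e (x⁻¹ * y)).a = 0 := by
    rw [cA_mul, cA_inv, h, neg_add_cancel]
  have h3 := (center_iff D e k0 hk0 hk1 _).mp
    (center_map α _ ((center_iff D e k0 hk0 hk1 _).mpr h1))
  rw [map_mul, cA_mul, map_inv, cA_inv] at h3
  linear_combination -h3

omit [Fintype F] in
include hk0 hk1 in
theorem exists_A : ∃ A : F → F, ∀ x : P, (e (α x)).a = A ((e x).a) := by
  refine ⟨fun a => (e (α (e.symm ⟨a, 0⟩))).a, fun x => ?_⟩
  apply cA_congr D k0 hk0 hk1 e α
  rw [e.apply_symm_apply]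

omit [Fintype F] in
theorem exists_B : ∃ B : F → F, ∀ z : P, (e z).a = 0 → (e (α z)).b = B ((e z).b) := by
  refine ⟨fun b => (e (α (e.symm ⟨0, b⟩))).b, fun z hz => ?_⟩
  have h3 : e.symm ⟨0, (e z).b⟩ = z := by
    apply c_ext D e
    · rw [e.apply_symm_apply, hz]
    · rw [e.apply_symm_apply]
  change (e (α z)).b = (e (α (e.symm ⟨0, (e z).b⟩))).b
  rw [h3]

include hk0 hk1 in
/-- Every automorphism acts on the central quotient as a scalar times a field automorphism. -/
theorem exists_lin (e' : ℕ) (hσe : ∀ x, D.σ x = x ^ e') :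
    ∃ (l : F) (ρ : F ≃+* F), l ≠ 0 ∧ ∀ x : P, (e (α x)).a = l * ρ ((e x).a) := by
  obtain ⟨A, hA⟩ := exists_A D k0 hk0 hk1 e α
  obtain ⟨B, hB⟩ := exists_B D e α
  have h2 := D.two
  have hcen : ∀ z : P, (e z).a = 0 → (e (α z)).a = 0 := fun z hz =>
    (center_iff D e k0 hk0 hk1 _).mp (center_map α z ((center_iff D e k0 hk0 hk1 z).mpr hz))
  have hA_add : ∀ x y, A (x + y) = A x + A y := by
    intro a a'
    obtain ⟨x, hx, -⟩ := c_mk D e a 0
    obtain ⟨y, hy, -⟩ := c_mk D e a' 0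
    have h := hA (x * y)
    rw [map_mul, cA_mul, cA_mul, hA, hA, hx, hy] at h
    exact h.symm
  have hA_inj0 : ∀ x, A x = 0 → x = 0 := by
    intro a ha
    obtain ⟨x, hx, -⟩ := c_mk D e a 0
    have h3 : (e (α x)).a = 0 := by rw [hA, hx, ha]
    have h4 := center_map α.symm _ ((center_iff D e k0 hk0 hk1 _).mpr h3)
    rw [α.symm_apply_apply] at h4
    rw [← hx]
    exact (center_iff D e k0 hk0 hk1 x).mp h4
  have hB_add : ∀ x y, B (x + y) = B x + B y := by
    intro b b'
    obtain ⟨z₁, hz₁a, hz₁b⟩ := c_mk D e 0 b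
    obtain ⟨z₂, hz₂a, hz₂b⟩ := c_mk D e 0 b'
    have h12a : (e (z₁ * z₂)).a = 0 := by rw [cA_mul, hz₁a, hz₂a, add_zero]
    have h12b : (e (z₁ * z₂)).b = b + b' := by
      rw [cB_mul, hz₁a, hz₁b, hz₂b, map_zero, zero_mul, add_zero]
    have h := hB (z₁ * z₂) h12a
    rw [map_mul, cB_mul, hcen z₁ hz₁a, map_zero, zero_mul, add_zero, hB z₁ hz₁a, hB z₂ hz₂a,
      h12b, hz₁b, hz₂b] at h
    exact h.symm
  have hB_inj0 : ∀ x, B x = 0 → x = 0 := by
    intro b hb0
    obtain ⟨z₁, hz₁a, hz₁b⟩ := c_mk D e 0 b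
    have h3 : α z₁ = 1 := by
      apply c_ext D e
      · rw [hcen z₁ hz₁a, cA_one]
      · rw [hB z₁ hz₁a, hz₁b, hb0, cB_one]
    have h4 : z₁ = 1 := by
      have h5 := congrArg α.symm h3
      rwa [α.symm_apply_apply, map_one] at h5
    rw [← hz₁b, h4, cB_one]
  have hN : ∀ a, B (a * D.σ a) = A a * D.σ (A a) := by
    intro a
    obtain ⟨x, hx, -⟩ := c_mk D e a 0
    have hxa : (e (x * x)).a = 0 := by
      rw [cA_mul, hx]
      linear_combination a * h2
    have hxb : ∀ y : P, (e (y * y)).b = (e y).a * D.σ (e y).a := by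
      intro y
      rw [cB_mul]
      linear_combination (e y).b * h2
    have h := hB (x * x) hxa
    rw [map_mul, hxb, hxb, hA, hx] at h
    exact h.symm
  have bij_of : ∀ (f : F → F), (∀ x y, f (x + y) = f x + f y) → (∀ x, f x = 0 → x = 0) →
      Function.Bijective f := by
    intro f hadd h0
    have hinj : Function.Injective f := by
      intro x y hxy
      have h5 : f (x + y) = 0 := by
        rw [hadd, hxy]
        exact D.add_self (f y)
      have h6 := h0 _ h5
      linear_combination h6 - y * h2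
    exact ⟨hinj, Finite.injective_iff_surjective.mp hinj⟩
  obtain ⟨ρ, hρ⟩ := sz_classify D A B hA_add hB_add (bij_of A hA_add hA_inj0)
    (bij_of B hB_add hB_inj0) hN e' hσe
  exact ⟨A 1, ρ, fun h => one_ne_zero (hA_inj0 1 h), fun x => by rw [hA, hρ]⟩

omit [Fintype F] in
theorem lin_unique (l l' : F) (σ σ' : F ≃+* F) (hl : l ≠ 0)
    (h : ∀ a : F, l * σ a = l' * σ' a) : l = l' ∧ σ = σ' := by
  have h1 := h 1
  rw [map_one, map_one, mul_one, mul_one] at h1
  subst h1
  exact ⟨rfl, RingEquiv.ext fun a => mul_left_cancel₀ hl (h a)⟩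

/-- the semilinear automorphism -/
noncomputable def liftP (l : F) (hl : l ≠ 0) (ρ : F ≃+* F) (hρ : ∀ a, ρ (D.σ a) = D.σ (ρ a)) :
    P ≃* P :=
  MulEquiv.ofBijective
    (MonoidHom.mk' (fun p => e.symm ⟨l * ρ (e p).a, l * D.σ l * ρ (e p).b⟩)
      (by
        intro p p'
        have hA : ∀ X Y : SH D, (X * Y).a = X.a + Y.a := fun _ _ => rfl
        have hB : ∀ X Y : SH D, (X * Y).b = X.b + Y.b + D.σ X.a * Y.a := fun _ _ => rfl
        apply c_ext D e
        · simp only [map_mul, e.apply_symm_apply, hA, map_add]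
          ring
        · simp only [map_mul, e.apply_symm_apply, hA, hB, map_add, hρ]
          ring))
    (by
      have : Finite P := Finite.of_equiv _ e.symm.toEquiv
      have hinj : Function.Injective (MonoidHom.mk' (fun p : P =>
          e.symm ⟨l * ρ (e p).a, l * D.σ l * ρ (e p).b⟩) (by
        intro p p'
        have hA : ∀ X Y : SH D, (X * Y).a = X.a + Y.a := fun _ _ => rfl
        have hB : ∀ X Y : SH D, (X * Y).b = X.b + Y.b + D.σ X.a * Y.a := fun _ _ => rfl
        apply c_ext D e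
        · simp only [map_mul, e.apply_symm_apply, hA, map_add]
          ring
        · simp only [map_mul, e.apply_symm_apply, hA, hB, map_add, hρ]
          ring)) := by
        intro p p' h
        have h' := congrArg e h
        simp only [MonoidHom.mk'_apply, e.apply_symm_apply] at h'
        have ha := congrArg (fun z : SH D => z.a) h'
        have hb := congrArg (fun z : SH D => z.b) h'
        simp only at ha hb
        have hσl : D.σ l ≠ 0 := (map_ne_zero D.σ).mpr hl
        apply c_ext D e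
        · exact ρ.injective (mul_left_cancel₀ hl ha)
        · exact ρ.injective (mul_left_cancel₀ (mul_ne_zero hl hσl) hb)
      exact ⟨hinj, Finite.injective_iff_surjective.mp hinj⟩)

theorem liftP_A (l : F) (hl : l ≠ 0) (ρ : F ≃+* F) (hρ : ∀ a, ρ (D.σ a) = D.σ (ρ a)) (p : P) :
    (e (liftP D e l hl ρ hρ p)).a = l * ρ (e p).a := by
  change (e (e.symm _)).a = _
  rw [e.apply_symm_apply]

/-- automorphisms acting trivially modulo the centre -/
def KK : Subgroup (MulAut P) where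
  carrier := {α | ∀ x : P, (e (α x)).a = (e x).a}
  mul_mem' := by
    intro α β hα hβ x
    rw [MulAut.mul_apply]
    exact (hα _).trans (hβ x)
  one_mem' := fun x => rfl
  inv_mem' := by
    intro α hα x
    have h := hα (α⁻¹ x)
    rw [MulAut.apply_inv_self] at h
    exact h.symm

omit [Fintype F] in
theorem mem_KK (α : MulAut P) : α ∈ KK D e ↔ ∀ x : P, (e (α x)).a = (e x).a := Iff.rfl

omit [Fintype F] in
include hk0 hk1 in
theorem KK_normal : (KK D e).Normal := by
  refine ⟨fun α hα β x => ?_⟩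
  rw [MulAut.mul_apply, MulAut.mul_apply]
  have h := cA_congr D k0 hk0 hk1 e β (α (β⁻¹ x)) (β⁻¹ x) (hα _)
  rw [h, MulAut.apply_inv_self]

theorem KK_fixZ (α : MulAut P) (hα : α ∈ KK D e) (z : P) (hz : (e z).a = 0) : α z = z := by
  have h2 := D.two
  obtain ⟨d, hd⟩ := D.exists_mul_sigma (e z).b
  obtain ⟨x, hx, -⟩ := c_mk D e d 0
  have hxx : x * x = z := by
    apply c_ext D e
    · rw [cA_mul, hx, hz]
      linear_combination d * h2
    · rw [cB_mul, hx, ← hd]
      linear_combination (e x).b * h2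
  have h1 : (e (α x)).a = d := by rw [hα x, hx]
  rw [← hxx, map_mul]
  apply c_ext D e
  · rw [cA_mul, cA_mul, h1, hx]
  · rw [cB_mul, cB_mul, h1, hx]
    linear_combination ((e (α x)).b - (e x).b) * h2

theorem exists_zeta (α : MulAut P) (hα : α ∈ KK D e) :
    ∃ ζ : F → F, (∀ x y, ζ (x + y) = ζ x + ζ y) ∧
      ∀ x : P, (e (α x)).b = (e x).b + ζ ((e x).a) := by
  have key : ∀ x y : P, (e x).a = (e y).a →
      (e (α x)).b - (e x).b = (e (α y)).b - (e y).b := by
    intro x y hxy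
    have hz : (e (y⁻¹ * x)).a = 0 := by
      rw [cA_mul, cA_inv, hxy, neg_add_cancel]
    have hx : x = y * (y⁻¹ * x) := by group
    have hαz := KK_fixZ D e α hα _ hz
    have h1 : (e x).b = (e y).b + (e (y⁻¹ * x)).b := by
      conv_lhs => rw [hx]
      rw [cB_mul, hz, mul_zero, add_zero]
    have h2' : (e (α x)).b = (e (α y)).b + (e (y⁻¹ * x)).b := by
      conv_lhs => rw [hx]
      rw [map_mul, hαz, cB_mul, hz, mul_zero, add_zero]
    rw [h1, h2']
    ring
  have hform : ∀ x : P, (e (α x)).b = (e x).b +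
      ((e (α (e.symm ⟨(e x).a, 0⟩))).b - (e (e.symm ⟨(e x).a, 0⟩)).b) := by
    intro x
    have h := key x (e.symm ⟨(e x).a, 0⟩) (by rw [e.apply_symm_apply])
    linear_combination h
  refine ⟨fun a => (e (α (e.symm ⟨a, 0⟩))).b - (e (e.symm ⟨a, 0⟩)).b, ?_, hform⟩
  intro a a'
  obtain ⟨x, hx, -⟩ := c_mk D e a 0
  obtain ⟨y, hy, -⟩ := c_mk D e a' 0
  have hxy : (e (x * y)).a = a + a' := by rw [cA_mul, hx, hy]
  have h1 := hform (x * y)
  have h3 := hform x
  have h4 := hform y
  rw [hxy] at h1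
  rw [hx] at h3
  rw [hy] at h4
  rw [map_mul, cB_mul, cB_mul, hα x, hα y, h3, h4] at h1
  simp only
  linear_combination -h1

/-- the central automorphism attached to an additive map -/
noncomputable def centAut (ζ : F → F) (hadd : ∀ x y, ζ (x + y) = ζ x + ζ y) : P ≃* P where
  toFun p := e.symm ⟨(e p).a, (e p).b + ζ (e p).a⟩
  invFun p := e.symm ⟨(e p).a, (e p).b + ζ (e p).a⟩
  left_inv p := by
    apply c_ext D e
    · simp only [e.apply_symm_apply]
    · simp only [e.apply_symm_apply]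
      linear_combination ζ (e p).a * D.two
  right_inv p := by
    apply c_ext D e
    · simp only [e.apply_symm_apply]
    · simp only [e.apply_symm_apply]
      linear_combination ζ (e p).a * D.two
  map_mul' p p' := by
    have hA : ∀ X Y : SH D, (X * Y).a = X.a + Y.a := fun _ _ => rfl
    have hB : ∀ X Y : SH D, (X * Y).b = X.b + Y.b + D.σ X.a * Y.a := fun _ _ => rfl
    apply c_ext D e
    · simp only [map_mul, e.apply_symm_apply, hA]
    · simp only [map_mul, e.apply_symm_apply, hA, hB, hadd]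
      ring

omit [Fintype F] in
theorem centAut_A (ζ : F → F) (hadd : ∀ x y, ζ (x + y) = ζ x + ζ y) (p : P) :
    (e (centAut D e ζ hadd p)).a = (e p).a := by
  change (e (e.symm _)).a = _
  rw [e.apply_symm_apply]

omit [Fintype F] in
theorem centAut_B (ζ : F → F) (hadd : ∀ x y, ζ (x + y) = ζ x + ζ y) (p : P) :
    (e (centAut D e ζ hadd p)).b = (e p).b + ζ (e p).a := by
  change (e (e.symm _)).b = _
  rw [e.apply_symm_apply]

theorem card_KK_eq : Nat.card ↥(KK D e)
    = Nat.card {ζ : F → F // ∀ x y, ζ (x + y) = ζ x + ζ y} := by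
  classical
  let f : ↥(KK D e) → {ζ : F → F // ∀ x y, ζ (x + y) = ζ x + ζ y} :=
    fun α => ⟨Classical.choose (exists_zeta D e α.1 α.2),
      (Classical.choose_spec (exists_zeta D e α.1 α.2)).1⟩
  have hf : ∀ (α : ↥(KK D e)) (x : P),
      (e (α.1 x)).b = (e x).b + (f α).1 ((e x).a) :=
    fun α => (Classical.choose_spec (exists_zeta D e α.1 α.2)).2
  apply Nat.card_congr
  apply Equiv.ofBijective f
  constructor
  · intro α β h
    apply Subtype.ext
    apply MulEquiv.ext
    intro x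
    apply c_ext D e
    · rw [(mem_KK D e α.1).mp α.2 x, (mem_KK D e β.1).mp β.2 x]
    · rw [hf α x, hf β x, h]
  · rintro ⟨ζ, hadd⟩
    refine ⟨⟨centAut D e ζ hadd, fun x => centAut_A D e ζ hadd x⟩, ?_⟩
    apply Subtype.ext
    funext a
    obtain ⟨x, hx, -⟩ := c_mk D e a 0
    have h1 := hf ⟨centAut D e ζ hadd, fun x => centAut_A D e ζ hadd x⟩ x
    rw [centAut_B, hx] at h1
    exact (add_left_cancel h1).symm

include D in
theorem card_zeta (n : ℕ) (hF : Fintype.card F = 2 ^ n) :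
    Nat.card {ζ : F → F // ∀ x y, ζ (x + y) = ζ x + ζ y} = (2 ^ n) ^ n := by
  classical
  have : CharP F 2 := CharTwo.of_one_ne_zero_of_two_eq_zero one_ne_zero D.two
  let _ : Algebra (ZMod 2) F := ZMod.algebra F 2
  let b := Module.finBasis (ZMod 2) F
  let e1 : {ζ : F → F // ∀ x y, ζ (x + y) = ζ x + ζ y} ≃ (F →ₗ[ZMod 2] F) :=
    { toFun := fun ζ => (AddMonoidHom.mk' ζ.1 ζ.2).toZModLinearMap 2
      invFun := fun g => ⟨fun a => g a, fun x y => map_add g x y⟩
      left_inv := fun ζ => by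
        apply Subtype.ext
        rfl
      right_inv := fun g => by
        apply LinearMap.ext
        intro a
        rfl }
  have e2 : (Fin (Module.finrank (ZMod 2) F) → F) ≃ (F →ₗ[ZMod 2] F) :=
    (b.constr (ZMod 2)).toEquiv
  have h3 := Module.card_eq_pow_finrank (K := ZMod 2) (V := F)
  rw [ZMod.card, hF] at h3
  have h4 := Nat.pow_right_injective (le_refl 2) h3
  rw [Nat.card_congr e1, ← Nat.card_congr e2, Nat.card_fun, Nat.card_eq_fintype_card (α := F),
    hF, Nat.card_eq_fintype_card, Fintype.card_fin, ← h4]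

include D in
theorem card_ringAut (n : ℕ) (hF : Fintype.card F = 2 ^ n) :
    Nat.card (F ≃+* F) = n := by
  classical
  have : CharP F 2 := CharTwo.of_one_ne_zero_of_two_eq_zero one_ne_zero D.two
  let _ : Algebra (ZMod 2) F := ZMod.algebra F 2
  let e1 : (F ≃+* F) ≃ (F ≃ₐ[ZMod 2] F) :=
    { toFun := fun σ => AlgEquiv.ofRingEquiv (f := σ) (fun r =>
        RingHom.congr_fun (Subsingleton.elim ((σ : F →+* F).comp (algebraMap (ZMod 2) F))
          (algebraMap (ZMod 2) F)) r)
      invFun := fun τ => τ.toRingEquiv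
      left_inv := fun σ => by
        apply RingEquiv.ext
        intro a
        rfl
      right_inv := fun τ => by
        apply AlgEquiv.ext
        intro a
        rfl }
  rw [Nat.card_congr e1, IsGalois.card_aut_eq_finrank]
  have h3 := Module.card_eq_pow_finrank (K := ZMod 2) (V := F)
  rw [ZMod.card, hF] at h3
  exact (Nat.pow_right_injective (le_refl 2) h3).symm

theorem KK_sq (α : MulAut P) (hα : α ∈ KK D e) : α ^ 2 = 1 := by
  obtain ⟨ζ, -, hζ⟩ := exists_zeta D e α hα
  apply MulEquiv.ext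
  intro x
  rw [pow_two, MulAut.mul_apply, MulAut.one_apply]
  apply c_ext D e
  · rw [hα (α x), hα x]
  · rw [hζ (α x), hζ x, hα x]
    linear_combination ζ (e x).a * D.two

theorem KK_comm (α β : MulAut P) (hα : α ∈ KK D e) (hβ : β ∈ KK D e) :
    α * β = β * α := by
  obtain ⟨ζ, -, hζ⟩ := exists_zeta D e α hα
  obtain ⟨ξ, -, hξ⟩ := exists_zeta D e β hβ
  apply MulEquiv.ext
  intro x
  rw [MulAut.mul_apply, MulAut.mul_apply]
  apply c_ext D e
  · rw [hα (β x), hβ x, hβ (α x), hα x]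
  · rw [hζ (β x), hξ x, hβ x, hξ (α x), hζ x, hα x]
    ring

omit [Fintype F] in
include D in
theorem pow2k_eq_one (c : F) (k : ℕ) (h : c ^ (2 ^ k) = 1) : c = 1 := by
  induction k with
  | zero => simpa using h
  | succ k ih =>
    apply ih
    have h3 : (c ^ 2 ^ k) ^ 2 = 1 := by
      rw [← pow_mul, ← pow_succ]
      exact h
    have h4 : (c ^ 2 ^ k - 1) ^ 2 = 0 := by
      linear_combination h3 - (c ^ 2 ^ k - 1) * D.two
    exact sub_eq_zero.mp ((pow_eq_zero_iff (two_ne_zero)).mp h4)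

omit [Fintype F] in
theorem scal_pow (β : MulAut P) (c : F) (hβ : ∀ x : P, (e (β x)).a = c * (e x).a) (j : ℕ)
    (x : P) : (e ((β ^ j) x)).a = c ^ j * (e x).a := by
  induction j generalizing x with
  | zero => simp
  | succ j ih =>
    rw [pow_succ, MulAut.mul_apply, ih (β x), hβ x, pow_succ]
    ring

theorem KK_isPGroup : IsPGroup 2 ↥(KK D e) := by
  intro g
  refine ⟨1, ?_⟩
  apply Subtype.ext
  rw [pow_one, Subgroup.coe_pow, KK_sq D e g.1 g.2]
  rfl

include hk0 hk1 in
theorem pcore_le (e' : ℕ) (hσe : ∀ x, D.σ x = x ^ e') (N : Subgroup (MulAut P))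
    (hNn : N.Normal) (hNp : IsPGroup 2 ↥N) : N ≤ KK D e := by
  intro α hα
  obtain ⟨l, σ, hl, hlσ⟩ := exists_lin D k0 hk0 hk1 e α e' hσe
  obtain ⟨x1, hx1, -⟩ := c_mk D e 1 0
  have hσ : ∀ ν : F, σ ν = ν := by
    intro ν
    by_cases hν : ν = 0
    · rw [hν, map_zero]
    have hrefl : ∀ a : F, (RingEquiv.refl F) (D.σ a) = D.σ ((RingEquiv.refl F) a) := fun a => rfl
    obtain ⟨δ, hδdef⟩ : ∃ δ : MulAut P, δ = liftP D e ν hν (RingEquiv.refl F) hrefl :=
      ⟨_, rfl⟩
    have hδ : ∀ x : P, (e (δ x)).a = ν * (e x).a := by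
      intro x
      rw [hδdef, liftP_A]
      rfl
    have hγ : α * δ * α⁻¹ * δ⁻¹ ∈ N := by
      have h1 : δ * α⁻¹ * δ⁻¹ ∈ N := hNn.conj_mem _ (N.inv_mem hα) δ
      have h3 : α * δ * α⁻¹ * δ⁻¹ = α * (δ * α⁻¹ * δ⁻¹) := by group
      rw [h3]
      exact N.mul_mem hα h1
    have hαinv : ∀ y : P, (e (α⁻¹ y)).a = σ.symm ((e y).a / l) := by
      intro y
      have h := hlσ (α⁻¹ y)
      rw [MulAut.apply_inv_self] at h
      rw [h, mul_div_cancel_left₀ _ hl, σ.symm_apply_apply]
    have hδinv : ∀ y : P, (e (δ⁻¹ y)).a = (e y).a / ν := by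
      intro y
      have h := hδ (δ⁻¹ y)
      rw [MulAut.apply_inv_self] at h
      rw [h, mul_div_cancel_left₀ _ hν]
    have hγA : ∀ x : P, (e ((α * δ * α⁻¹ * δ⁻¹) x)).a = (σ ν / ν) * (e x).a := by
      intro x
      simp only [MulAut.mul_apply]
      rw [hlσ, hδ, hαinv, hδinv, map_mul, σ.apply_symm_apply]
      field_simp
    obtain ⟨k, hk⟩ := hNp ⟨_, hγ⟩
    have hk' : (α * δ * α⁻¹ * δ⁻¹) ^ (2 ^ k) = 1 := by
      have h := congrArg Subtype.val hk
      simpa using h
    have h5 := scal_pow D e _ _ hγA (2 ^ k) x1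
    rw [hk', MulAut.one_apply, hx1, mul_one] at h5
    have h6 : σ ν / ν = 1 := pow2k_eq_one D _ k h5.symm
    exact (div_eq_one_iff_eq hν).mp h6
  have hαA : ∀ x : P, (e (α x)).a = l * (e x).a := fun x => by rw [hlσ, hσ]
  obtain ⟨k, hk⟩ := hNp ⟨α, hα⟩
  have hk' : α ^ (2 ^ k) = 1 := by
    have h := congrArg Subtype.val hk
    simpa using h
  have h5 := scal_pow D e _ _ hαA (2 ^ k) x1
  rw [hk', MulAut.one_apply, hx1, mul_one] at h5
  have hl1 : l = 1 := pow2k_eq_one D _ k h5.symm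
  intro x
  rw [hαA, hl1, one_mul]

include hk0 hk1 in
theorem pcore_eq (e' : ℕ) (hσe : ∀ x, D.σ x = x ^ e') : pCore 2 (MulAut P) = KK D e := by
  apply le_antisymm
  · apply sSup_le
    rintro N ⟨hNn, hNp⟩
    exact pcore_le D k0 hk0 hk1 e e' hσe N hNn hNp
  · exact le_sSup ⟨KK_normal D k0 hk0 hk1 e, KK_isPGroup D e⟩

include hk0 hk1 e in
theorem card_aut (e' : ℕ) (hσe : ∀ x, D.σ x = x ^ e') (n : ℕ) (hF : Fintype.card F = 2 ^ n) :
    Nat.card (MulAut P) = (2 ^ n) ^ n * ((2 ^ n - 1) * n) := by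
  classical
  have hσφ : ∀ (σ : F ≃+* F) (a : F), σ (D.σ a) = D.σ (σ a) := by
    intro σ a
    rw [hσe, hσe, map_pow]
  have hex := fun α : MulAut P => exists_lin D k0 hk0 hk1 e α e' hσe
  choose L S hL hLS using hex
  obtain ⟨lift, hliftdef⟩ : ∃ lift : Fˣ × (F ≃+* F) → MulAut P, lift = fun γ =>
    liftP D e (γ.1 : F) γ.1.ne_zero γ.2 (hσφ γ.2) := ⟨_, rfl⟩
  have hlift : ∀ (γ : Fˣ × (F ≃+* F)) (x : P),
      (e (lift γ x)).a = (γ.1 : F) * γ.2 ((e x).a) := by
    intro γ x
    rw [hliftdef]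
    exact liftP_A D e _ _ _ _ x
  have huniq : ∀ (α : MulAut P) (l : F) (σ : F ≃+* F),
      (∀ x : P, (e (α x)).a = l * σ ((e x).a)) → L α = l ∧ S α = σ := by
    intro α l σ h
    apply lin_unique (L α) l (S α) σ (hL α)
    intro a
    obtain ⟨x, hx, -⟩ := c_mk D e a 0
    rw [← hx, ← hLS, h]
  obtain ⟨Φ, hΦdef⟩ : ∃ Φ : MulAut P → Fˣ × (F ≃+* F), Φ = fun α =>
    (Units.mk0 (L α) (hL α), S α) := ⟨_, rfl⟩
  have hΦ1 : ∀ α : MulAut P, ((Φ α).1 : F) = L α := by
    intro α
    rw [hΦdef]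
    rfl
  have hΦ2 : ∀ α : MulAut P, (Φ α).2 = S α := by
    intro α
    rw [hΦdef]
  have hmem : ∀ α : MulAut P, (lift (Φ α))⁻¹ * α ∈ KK D e := by
    intro α x
    rw [MulAut.mul_apply]
    have h1 := hlift (Φ α) ((lift (Φ α))⁻¹ (α x))
    rw [MulAut.apply_inv_self, hLS, hΦ1, hΦ2] at h1
    exact ((S α).injective (mul_left_cancel₀ (hL α) h1)).symm
  have hΦlift : ∀ (γ : Fˣ × (F ≃+* F)) (κ : ↥(KK D e)), Φ (lift γ * κ.1) = γ := by
    intro γ κ
    have h1 : ∀ x : P, (e ((lift γ * κ.1) x)).a = (γ.1 : F) * γ.2 ((e x).a) := by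
      intro x
      rw [MulAut.mul_apply, hlift, (mem_KK D e κ.1).mp κ.2 x]
    obtain ⟨h3, h4⟩ := huniq _ _ _ h1
    apply Prod.ext
    · apply Units.ext
      rw [hΦ1, h3]
    · rw [hΦ2, h4]
  let E : MulAut P ≃ ↥(KK D e) × (Fˣ × (F ≃+* F)) :=
    { toFun := fun α => (⟨(lift (Φ α))⁻¹ * α, hmem α⟩, Φ α)
      invFun := fun κγ => lift κγ.2 * κγ.1.1
      left_inv := fun α => by
        simp only [mul_inv_cancel_left]
      right_inv := fun κγ => by
        have h := hΦlift κγ.2 κγ.1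
        apply Prod.ext
        · apply Subtype.ext
          simp only [h, inv_mul_cancel_left]
        · exact h }
  rw [Nat.card_congr E, Nat.card_prod, Nat.card_prod, card_KK_eq D e,
    card_zeta D n hF, Nat.card_units, Nat.card_eq_fintype_card, hF,
    card_ringAut D n hF]

end aut

end Cfsg.Agent.Lib.Helper7.SzAut2
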